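import Cfsg.Agent.H23.Alperin
import Cfsg.Agent.H23.ThompsonNPC
import Cfsg.Agent.H22.Frobenius
import Cfsg.Agent.H20.Sylow
import Cfsg.Agent.H21.ThompsonFpfCore
import Cfsg.Agent.H89.Nilpotent
import Cfsg.Agent.H86.Basic

/-!
A finite group with a nilpotent maximal subgroup whose `2`-elements generate a group of class at
most two is solvable (Thompson, Deskins, Janko).
-/

namespace Cfsg.Agent.H86

open Subgroup

universe u

/-- Commutators of `2`-elements of `M` commute with the `2`-elements of `M`. -/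
def TwoClassTwo {G : Type*} [Group G] (M : Subgroup G) : Prop :=
  ∀ x ∈ M, ∀ y ∈ M, ∀ z ∈ M, (∃ i, orderOf x = 2 ^ i) → (∃ j, orderOf y = 2 ^ j) →
    (∃ k, orderOf z = 2 ^ k) → Commute (x * y * x⁻¹ * y⁻¹) z

variable {G : Type u} [Group G] [Finite G]

theorem normalizer_eq_of_coatom {M C : Subgroup G} (hmax : IsCoatom M)
    (hcore : ∀ N : Subgroup G, N.Normal → N ≤ M → N = ⊥) (hCM : C ≤ M) (hC : C ≠ ⊥)
    (hMC : M ≤ normalizer (C : Set G)) : normalizer (C : Set G) = M := by
  rcases eq_or_lt_of_le hMC with h | h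
  · exact h.symm
  · exact absurd (hcore C (normalizer_eq_top_iff.1 (hmax.2 _ h)) hCM) hC

theorem nilpotent_subgroup_of_le {A M : Subgroup G} [Group.IsNilpotent M] (h : A ≤ M) :
    Group.IsNilpotent A :=
  Group.nilpotent_of_mulEquiv (Subgroup.subgroupOfEquivOfLe h)

/-- A Sylow subgroup of a core-free nilpotent maximal subgroup is one of the whole group. -/
theorem exists_sylow_le_maximal {M : Subgroup G} (hmax : IsCoatom M) [hnil : Group.IsNilpotent M]
    (hcore : ∀ N : Subgroup G, N.Normal → N ≤ M → N = ⊥) {p : ℕ} [hp : Fact p.Prime]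
    (hpM : p ∣ Nat.card M) :
    ∃ P : Sylow p G, (P : Subgroup G) ≤ M ∧ M ≤ normalizer ((P : Subgroup G) : Set G) ∧
      (P : Subgroup G) ≠ ⊥ := by
  obtain ⟨S⟩ : Nonempty (Sylow p M) := inferInstance
  set T : Subgroup G := (S : Subgroup M).map M.subtype with hT
  have hTM : T ≤ M := map_subtype_le _
  have hne : T ≠ ⊥ := by
    rw [hT, Ne, map_eq_bot_iff_of_injective _ M.subtype_injective]
    exact S.ne_bot_of_dvd_card hpM
  have hN : M ≤ normalizer (T : Set G) := by
    have h1 := le_normalizer_map (H := (S : Subgroup M)) M.subtype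
    rwa [normalizer_eq_top, ← MonoidHom.range_eq_map, range_subtype] at h1
  have hTp : IsPGroup p T := S.2.map _
  obtain ⟨P, hP⟩ := hTp.exists_le_sylow
  rcases eq_or_lt_of_le hP with h | h
  · exact ⟨P, h ▸ hTM, h ▸ hN, h ▸ hne⟩
  · exfalso
    have h1 := H23.lt_inf_normalizer P.2 h
    rw [normalizer_eq_of_coatom hmax hcore hTM hne hN] at h1
    have h2 : ((P : Subgroup G) ⊓ M).subgroupOf M = (S : Subgroup M) := by
      refine S.3 ((P.2.to_le inf_le_left).comap_subtype) fun x hx => ?_
      exact mem_subgroupOf.2 (h1.le ⟨x, hx, rfl⟩)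
    apply h1.ne
    rw [hT, ← h2, map_subgroupOf_eq_of_le inf_le_right]

/-- The `p`-elements of `M` lie in a Sylow subgroup normalized by `M`. -/
theorem mem_sylow_of_normalizes {p : ℕ} [Fact p.Prime] {M : Subgroup G} (P : Sylow p G)
    (hN : M ≤ normalizer ((P : Subgroup G) : Set G)) {u : G} (hu : u ∈ M)
    {k : ℕ} (hk : orderOf u = p ^ k) : u ∈ (P : Subgroup G) := by
  have hQ : IsPGroup p (zpowers u) := IsPGroup.of_card (n := k) (by rw [Nat.card_zpowers, hk])
  have h := hQ.inf_normalizer_sylow P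
  exact (h.le (show u ∈ zpowers u ⊓ normalizer (P : Set G) from ⟨mem_zpowers u, hN hu⟩)).2

theorem hasNormalPComplement_two {M : Subgroup G} (hmax : IsCoatom M) [hnil : Group.IsNilpotent M]
    (hcore : ∀ N : Subgroup G, N.Normal → N ≤ M → N = ⊥) (h2 : TwoClassTwo M)
    (P : Sylow 2 G) (hPM : (P : Subgroup G) ≤ M)
    (hMP : M ≤ normalizer ((P : Subgroup G) : Set G)) (hne : (P : Subgroup G) ≠ ⊥) :
    Cfsg.HasNormalPComplement 2 G := by
  have hsplit : ∀ m ∈ M, ∃ u v : G, u ∈ (P : Subgroup G) ∧ u * v = m ∧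
      ∀ x ∈ (P : Subgroup G), Commute v x := by
    intro m hm
    obtain ⟨u, v, hu, hv, huv, ⟨k, hk⟩, hco⟩ :=
      exists_pPart_mul_pPrimePart m (isOfFinOrder_of_finite m) Nat.prime_two
    have huM : u ∈ M := (zpowers_le.2 hm) hu
    refine ⟨u, v, mem_sylow_of_normalizes P hMP huM hk, huv, fun x hx => ?_⟩
    obtain ⟨i, hi⟩ := exists_orderOf_eq_pow_of_mem P.2 hx
    refine H89.commute_of_nilpotent_coprime hnil ((zpowers_le.2 hm) hv) (hPM hx) ?_
    rw [hi]; exact hco.pow_right i
  -- subgroups of `P` containing its centre are normalized by `M`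
  have hnormal : ∀ U : Subgroup G, U ≤ (P : Subgroup G) →
      (P : Subgroup G) ⊓ centralizer ((P : Subgroup G) : Set G) ≤ U →
      M ≤ normalizer (U : Set G) := by
    intro U hUP hZU
    have key : ∀ m ∈ M, ∀ x ∈ U, m * x * m⁻¹ ∈ U := by
      intro m hm x hx
      obtain ⟨u, v, hu, huv, hcv⟩ := hsplit m hm
      have h3 : m * x * m⁻¹ = u * x * u⁻¹ := by
        have h : v * x = x * v := hcv x (hUP hx)
        rw [← huv]
        calc u * v * x * (u * v)⁻¹ = u * (v * x) * v⁻¹ * u⁻¹ := by group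
          _ = _ := by rw [h]; group
      rw [h3]
      have h4 : u * x * u⁻¹ * x⁻¹ ∈ U := by
        refine hZU ⟨?_, ?_⟩
        · exact (P : Subgroup G).mul_mem ((P : Subgroup G).mul_mem ((P : Subgroup G).mul_mem hu (hUP hx))
            ((P : Subgroup G).inv_mem hu)) ((P : Subgroup G).inv_mem (hUP hx))
        · refine mem_centralizer_iff.2 fun z hz => ?_
          exact ((h2 u (hPM hu) x (hPM (hUP hx)) z (hPM hz)
            (exists_orderOf_eq_pow_of_mem P.2 hu) (exists_orderOf_eq_pow_of_mem P.2 (hUP hx))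
            (exists_orderOf_eq_pow_of_mem P.2 hz)).eq).symm
      simpa using mul_mem h4 hx
    intro m hm
    rw [mem_normalizer_iff]
    refine fun x => ⟨key m hm x, fun hx => ?_⟩
    simpa [mul_assoc] using key m⁻¹ (inv_mem hm) _ hx
  -- fusion in `P` is controlled by `M`
  let R : Subgroup G → G → Prop := fun A g => ∃ m ∈ M, ∀ a ∈ A, g⁻¹ * a * g = m⁻¹ * a * m
  have hR : ∀ {A : Subgroup G} {g : G}, A ≤ (P : Subgroup G) →
      H23.rconj g A ≤ (P : Subgroup G) → R A g := by
    intro A g hA hg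
    refine H23.alperin_induction P R ?_ ?_ ?_ hA hg
    · rintro A B g hBA ⟨m, hm, h⟩
      exact ⟨m, hm, fun a ha => h a (hBA ha)⟩
    · rintro A g k ⟨m, hm, h⟩ ⟨l, hl, h'⟩
      refine ⟨m * l, mul_mem hm hl, fun a ha => ?_⟩
      have h5 := h' (g⁻¹ * a * g) (by rw [H23.mem_rconj]; simpa [mul_assoc] using ha)
      calc (g * k)⁻¹ * a * (g * k) = k⁻¹ * (g⁻¹ * a * g) * k := by group
        _ = l⁻¹ * (g⁻¹ * a * g) * l := h5
        _ = l⁻¹ * (m⁻¹ * a * m) * l := by rw [h a ha]
        _ = _ := by group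
    · intro Q n hn hndvd _
      set D := (P : Subgroup G) ⊓ (Q : Subgroup G) with hD
      set L := normalizer (D : Set G) with hL
      have hDL : D ≤ L := le_normalizer
      have hPL : IsPGroup 2 (((P : Subgroup G) ⊓ L).subgroupOf L) :=
        (P.2.to_le inf_le_left).comap_subtype
      let PL : Sylow 2 L := hPL.toSylow hndvd
      have hPLe : (PL : Subgroup L) = ((P : Subgroup G) ⊓ L).subgroupOf L :=
        IsPGroup.toSylow_coe hPL hndvd
      set KL : Subgroup L := (centralizer (D : Set G)).subgroupOf L with hKL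
      have hKn : KL.Normal := by
        refine ⟨fun x hx l => ?_⟩
        rw [hKL, mem_subgroupOf, mem_centralizer_iff] at hx ⊢
        intro d hd
        have hd' : (l : G)⁻¹ * d * (l : G) ∈ D := by
          have := (mem_normalizer_iff''.1 l.2 d).1 hd
          exact this
        have h6 := hx _ hd'
        simp only [coe_mul, coe_inv]
        calc d * ((l : G) * (x : G) * (l : G)⁻¹)
            = (l : G) * (((l : G)⁻¹ * d * (l : G)) * (x : G)) * (l : G)⁻¹ := by group
          _ = (l : G) * ((x : G) * ((l : G)⁻¹ * d * (l : G))) * (l : G)⁻¹ := by rw [h6]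
          _ = _ := by group
      have hS : ¬ 2 ∣ ((PL : Subgroup L).subgroupOf KL).index :=
        H22.sylow_not_dvd_relIndex_normal PL KL
      have hSp : IsPGroup 2 ((PL : Subgroup L).subgroupOf KL) := PL.2.comap_subtype
      let S : Sylow 2 KL := hSp.toSylow hS
      have hfr := Sylow.normalizer_sup_eq_top S
      have hn' : (⟨n, hn⟩ : L) ∈ normalizer (((S : Subgroup KL).map KL.subtype : Subgroup L) : Set L) ⊔ KL := by
        rw [hfr]; exact mem_top _
      obtain ⟨a, ha, b, hb, hab⟩ := mem_sup_of_normal_right.1 hn'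
      set S0 := (P : Subgroup G) ⊓ (centralizer (D : Set G)) with hS0
      have hS0L : S0 ≤ L := by
        intro x hx
        rw [hL, mem_normalizer_iff]
        intro d
        constructor
        · intro hd
          rw [← mem_centralizer_iff.1 hx.2 d hd]; simpa using hd
        · intro hd
          have h7 := mem_centralizer_iff.1 hx.2 _ hd
          have : d = x * d * x⁻¹ := by
            calc d = x⁻¹ * ((x * d * x⁻¹) * x) := by group
              _ = x⁻¹ * (x * (x * d * x⁻¹)) := by rw [h7]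
              _ = _ := by group
          rw [this]; exact hd
      have hSeq : ∀ s : L, s ∈ (S : Subgroup KL).map KL.subtype ↔ (s : G) ∈ S0 := by
        intro s
        rw [show (S : Subgroup KL) = (PL : Subgroup L).subgroupOf KL from IsPGroup.toSylow_coe hSp hS,
          subgroupOf_map_subtype, mem_inf, hPLe, mem_subgroupOf, hKL, mem_subgroupOf, hS0, mem_inf,
          mem_inf]
        exact ⟨fun h => ⟨h.1.1, h.2⟩, fun h => ⟨⟨h.1, s.2⟩, h.2⟩⟩
      have haS : ∀ s ∈ S0, (a : G) * s * (a : G)⁻¹ ∈ S0 := by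
        intro s hs
        have h8 := (mem_normalizer_iff.1 ha ⟨s, hS0L hs⟩).1 ((hSeq _).2 hs)
        exact (hSeq _).1 h8
      have haS' : (a : G) ∈ normalizer (S0 : Set G) := by
        apply H23.mem_normalizer_of_rconj
        refine (eq_of_le_of_card_ge (H := S0) (K := H23.rconj (a : G) S0) ?_ ?_).symm
        · intro s hs; rw [H23.mem_rconj]; exact haS s hs
        · rw [H23.card_rconj]
      set U := D ⊔ S0 with hU
      have hZS0 : (P : Subgroup G) ⊓ centralizer ((P : Subgroup G) : Set G) ≤ U :=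
        le_trans (le_inf inf_le_left (inf_le_right.trans (centralizer_le inf_le_left))) le_sup_right
      have hUP : U ≤ (P : Subgroup G) := sup_le inf_le_left inf_le_left
      have hUne : U ≠ ⊥ := fun h =>
        H23.inf_centralizer_ne_bot P.2 hne (le_bot_iff.1 (h ▸ hZS0))
      have hNU := normalizer_eq_of_coatom hmax hcore (hUP.trans hPM) hUne (hnormal U hUP hZS0)
      have haU : (a : G) ∈ normalizer (U : Set G) := by
        apply H23.mem_normalizer_of_rconj
        rw [hU, H23.rconj, Subgroup.map_sup, ← H23.rconj, ← H23.rconj, H23.rconj_eq_self a.2,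
          H23.rconj_eq_self haS']
      refine ⟨(a : G), hNU ▸ haU, fun d hd => ?_⟩
      have hb' : ∀ e ∈ D, e * (b : G) = (b : G) * e := by
        rw [hKL, mem_subgroupOf, mem_centralizer_iff] at hb; exact hb
      have hnab : n = (a : G) * (b : G) := by
        have := congrArg (Subtype.val) hab
        simpa using this.symm
      have h9 := hb' _ ((mem_normalizer_iff''.1 a.2 d).1 hd)
      rw [hnab]
      calc ((a : G) * (b : G))⁻¹ * d * ((a : G) * (b : G))
          = (b : G)⁻¹ * ((((a : G)⁻¹ * d * (a : G))) * (b : G)) := by group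
        _ = (b : G)⁻¹ * ((b : G) * ((a : G)⁻¹ * d * (a : G))) := by rw [h9]
        _ = _ := by group
  refine H22.hasNormalPComplement_of_no_fusion P fun x hx g hgx => ?_
  have hg' : H23.rconj g⁻¹ (zpowers x) ≤ (P : Subgroup G) := by
    intro y hy
    rw [H23.mem_rconj] at hy
    obtain ⟨k, hk⟩ := mem_zpowers_iff.1 hy
    have h12 : y = (g * x * g⁻¹) ^ k := by rw [conj_zpow, hk]; group
    rw [h12]; exact zpow_mem hgx k
  obtain ⟨m, hm, h⟩ := hR (zpowers_le.2 hx) hg'
  obtain ⟨u, v, hu, huv, hcv⟩ := hsplit m⁻¹ (inv_mem hm)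
  refine ⟨u, hu, ?_⟩
  have h10 : g * x * g⁻¹ = m⁻¹ * x * m := by simpa using h x (mem_zpowers x)
  rw [h10, show m = (u * v)⁻¹ by rw [huv, inv_inv], inv_inv]
  have h11 : v * x = x * v := hcv x hx
  calc u * x * u⁻¹ = u * (x * v) * v⁻¹ * u⁻¹ := by group
    _ = _ := by rw [← h11]; group

theorem hasNormalPComplement_of_maximal {M : Subgroup G} (hmax : IsCoatom M)
    [hnil : Group.IsNilpotent M]
    (hcore : ∀ N : Subgroup G, N.Normal → N ≤ M → N = ⊥) (h2 : TwoClassTwo M) {p : ℕ}
    [hp : Fact p.Prime] (hpM : p ∣ Nat.card M) : Cfsg.HasNormalPComplement p G := by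
  obtain ⟨P, hPM, hMP, hne⟩ := exists_sylow_le_maximal hmax hcore hpM
  by_cases hp2 : p = 2
  · subst hp2
    exact hasNormalPComplement_two hmax hcore h2 P hPM hMP hne
  refine H23.thompson_normal_p_complement hp2 _ G rfl P ⟨?_, ?_⟩
  · have h1 := normalizer_eq_of_coatom hmax hcore
      ((H23.thompsonSubgroupOf_le (p := p) (P : Subgroup G)).trans hPM)
      (H23.thompsonSubgroupOf_ne_bot P.2 hne)
      (hMP.trans (H23.normalizer_le_normalizer_thompsonSubgroupOf _))
    have := nilpotent_subgroup_of_le (M := M) h1.le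
    exact H21.hasNormalPComplement_of_nilpotent p
  · have h1 := normalizer_eq_of_coatom hmax hcore
      (inf_le_left.trans hPM) (H23.inf_centralizer_ne_bot P.2 hne)
      (hMP.trans (H23.normalizer_le_normalizer_inf_centralizer _))
    have := nilpotent_subgroup_of_le (M := M) ((centralizer_le_normalizer _).trans h1.le)
    exact H21.hasNormalPComplement_of_nilpotent p

theorem isSolvable_of_coreFree {M : Subgroup G} (hmax : IsCoatom M) [hnil : Group.IsNilpotent M]
    (hcore : ∀ N : Subgroup G, N.Normal → N ≤ M → N = ⊥) (h2 : TwoClassTwo M) :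
    Group.IsSolvable G := by
  set K : Subgroup G := ⨅ p : (Nat.card M).primeFactors, Cfsg.pResidual (p : ℕ) G with hK
  have hKn : K.Normal := Subgroup.normal_iInf_normal fun p => H22.pResidual_normal
  have hKcop : ∀ x ∈ K, (orderOf x).Coprime (Nat.card M) := by
    intro x hx
    refine Nat.coprime_of_dvd fun q hq hqx hqM => ?_
    have : Fact q.Prime := ⟨hq⟩
    have h3 := (H22.mem_pResidual_iff_coprime (hasNormalPComplement_of_maximal hmax hcore h2 hqM) x).1
      (mem_iInf.1 hx ⟨q, Nat.mem_primeFactors.2 ⟨hq, hqM, Nat.card_pos.ne'⟩⟩)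
    exact Nat.not_coprime_of_dvd_of_dvd hq.one_lt hqx dvd_rfl h3
  obtain ⟨q, hq, hqi⟩ := Nat.exists_prime_and_dvd
    (show M.index ≠ 1 from fun h => hmax.1 (index_eq_one.1 h))
  have : Fact q.Prime := ⟨hq⟩
  have hqM : ¬ q ∣ Nat.card M := by
    intro h
    obtain ⟨P, hPM, -, -⟩ := exists_sylow_le_maximal hmax hcore h
    exact P.not_dvd_index (hqi.trans (index_dvd_of_le hPM))
  obtain ⟨x, hx⟩ := exists_prime_orderOf_dvd_card' q (hqi.trans M.index_dvd_card)
  have hxK : x ∈ K := by
    refine mem_iInf.2 fun p => H22.mem_pResidual_of_coprime ?_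
    rw [hx, Nat.coprime_primes hq (Nat.prime_of_mem_primeFactors p.2)]
    rintro rfl
    exact hqM (Nat.dvd_of_mem_primeFactors p.2)
  have hcop : (Nat.card M).Coprime (Nat.card K) := by
    refine Nat.coprime_of_dvd fun r hr hrM hrK => ?_
    have : Fact r.Prime := ⟨hr⟩
    obtain ⟨y, hy⟩ := exists_prime_orderOf_dvd_card' r hrK
    have := hKcop y y.2
    rw [orderOf_coe, hy] at this
    exact (hr.coprime_iff_not_dvd.1 this) hrM
  obtain ⟨Q, hQK, hMQ, hQp, hQc⟩ := H20.exists_invariant_sylow_subgroup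
    (A := M) (K := K) (fun m _ => by rw [normalizer_eq_top]; exact mem_top m) hcop
    (Or.inl inferInstance) q
  have hQne : ¬ Q ≤ M := by
    intro h
    have h4 : q ∣ Nat.card Q := by
      rw [hQc]
      refine dvd_pow_self q (hq.factorization_pos_of_dvd Nat.card_pos.ne' ?_).ne'
      exact hx ▸ K.orderOf_dvd_natCard hxK
    exact hqM (h4.trans (card_dvd_of_le h))
  have htop : M ⊔ Q = ⊤ := hmax.2 _ (lt_of_le_of_ne le_sup_left fun h => hQne (h ▸ le_sup_right))
  have hQn : Q.Normal :=
    normalizer_eq_top_iff.1 (top_le_iff.1 (htop ▸ sup_le hMQ le_normalizer))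
  have hQs : Group.IsSolvable Q := by
    have := hQp.isNilpotent
    infer_instance
  have hsurj : Function.Surjective ((QuotientGroup.mk' Q).comp M.subtype) := by
    rw [← MonoidHom.range_eq_top, MonoidHom.range_comp, range_subtype]
    have h5 := congrArg (Subgroup.map (QuotientGroup.mk' Q)) htop
    rw [Subgroup.map_sup, QuotientGroup.map_mk'_self, sup_bot_eq,
      map_top_of_surjective _ (QuotientGroup.mk'_surjective Q)] at h5
    exact h5
  have : Group.IsSolvable (G ⧸ Q) := Group.isSolvable_of_surjective hsurj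
  exact Group.isSolvable_of_ker_le_range Q.subtype (QuotientGroup.mk' Q) (by simp)

theorem isSolvable_of_nilpotent_maximal_aux (n : ℕ) :
    ∀ (G : Type u) [Group G] [Finite G], Nat.card G = n → ∀ M : Subgroup G, IsCoatom M →
      Group.IsNilpotent M → TwoClassTwo M → Group.IsSolvable G := by
  induction n using Nat.strong_induction_on with
  | _ n ih =>
  intro G _ _ hn M hmax hnil h2
  by_cases hcore : ∀ N : Subgroup G, N.Normal → N ≤ M → N = ⊥
  · exact isSolvable_of_coreFree hmax hcore h2
  obtain ⟨N, hN, hNM, hNbot⟩ : ∃ N : Subgroup G, N.Normal ∧ N ≤ M ∧ N ≠ ⊥ := by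
    push Not at hcore; exact hcore
  set f := QuotientGroup.mk' N with hf
  have hfs : Function.Surjective f := QuotientGroup.mk'_surjective N
  have hcm : (M.map f).comap f = M := comap_map_eq_self (by simpa [hf] using hNM)
  have hmax' : IsCoatom (M.map f) := by
    refine ⟨fun h => hmax.1 (by rw [← hcm, h, comap_top]), fun B hB => ?_⟩
    have h3 : B.comap f = ⊤ := hmax.2 _ (by rw [← hcm]; exact (comap_lt_comap_of_surjective hfs).2 hB)
    rw [← map_comap_eq_self_of_surjective hfs B, h3, map_top_of_surjective f hfs]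
  have hnil' : Group.IsNilpotent (M.map f) :=
    Group.nilpotent_of_surjective _ (f.subgroupMap_surjective M)
  have h2' : TwoClassTwo (M.map f) := by
    have lift : ∀ y ∈ M.map f, (∃ i, orderOf y = 2 ^ i) → ∃ x ∈ M, (∃ i, orderOf x = 2 ^ i) ∧ f x = y := by
      rintro y ⟨x, hx, rfl⟩ ⟨i, hi⟩
      obtain ⟨u, v, hu, hv, huv, hk, hco⟩ :=
        exists_pPart_mul_pPrimePart x (isOfFinOrder_of_finite x) Nat.prime_two
      refine ⟨u, (zpowers_le.2 hx) hu, hk, ?_⟩
      have h4 : f v ∈ zpowers (f x) := by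
        rw [← MonoidHom.map_zpowers]; exact mem_map_of_mem f hv
      have h5 : orderOf (f v) ∣ 2 ^ i := hi ▸ orderOf_dvd_of_mem_zpowers h4
      have h6 : orderOf (f v) = 1 :=
        Nat.eq_one_of_dvd_coprimes (hco.pow_right i) (orderOf_map_dvd f v) h5
      rw [orderOf_eq_one_iff] at h6
      rw [← huv, map_mul, h6, mul_one]
    intro x hx y hy z hz hxo hyo hzo
    obtain ⟨a, ha, hao, rfl⟩ := lift x hx hxo
    obtain ⟨b, hb, hbo, rfl⟩ := lift y hy hyo
    obtain ⟨c, hc, hco, rfl⟩ := lift z hz hzo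
    simpa using (h2 a ha b hb c hc hao hbo hco).map f
  have hlt : Nat.card (G ⧸ N) < n := by
    have h7 := N.card_mul_index
    rw [← index_eq_card]
    have : 1 < Nat.card N := N.one_lt_card_iff_ne_bot.2 hNbot
    have h8 : 0 < N.index := Nat.pos_of_ne_zero N.index_ne_zero_of_finite
    have h9 : 2 * N.index ≤ Nat.card N * N.index := Nat.mul_le_mul_right _ this
    omega
  have := ih _ hlt (G ⧸ N) rfl (M.map f) hmax' hnil' h2'
  have : Group.IsNilpotent N := nilpotent_subgroup_of_le hNM
  exact Group.isSolvable_of_ker_le_range N.subtype f (by simp [hf])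

/-- A finite group with a nilpotent maximal subgroup with Sylow `2`-subgroup of class at most two
is solvable. -/
theorem isSolvable_of_nilpotent_maximal {G : Type u} [Group G] [Finite G] (M : Subgroup G)
    (hmax : IsCoatom M) (hnil : Group.IsNilpotent M) (h2 : TwoClassTwo M) : Group.IsSolvable G :=
  isSolvable_of_nilpotent_maximal_aux _ G rfl M hmax hnil h2

end Cfsg.Agent.H86
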