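import Mathlib.GroupTheory.Sylow
import Mathlib.GroupTheory.QuotientGroup.Finite
import Mathlib.GroupTheory.Coset.Card
import Mathlib.Tactic.Ring

/-!
Finite groups with the same order type (the same number of elements of each order).
-/

namespace Cfsg.Agent.H86

variable {G H : Type*} [Group G] [Finite G] [Group H] [Finite H]

/-- An order-preserving bijection from equal order types. -/
theorem exists_equiv_of_sameType
    (hT : ∀ m : ℕ, Nat.card {g : G // orderOf g = m} = Nat.card {h : H // orderOf h = m}) :
    ∃ E : G ≃ H, ∀ g, orderOf (E g) = orderOf g :=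
  ⟨Equiv.ofFiberEquiv fun m => (Finite.card_eq.1 (hT m)).some, Equiv.ofFiberEquiv_map _⟩

/-- Equal order types give equal orders. -/
theorem card_eq_of_sameType
    (hT : ∀ m : ℕ, Nat.card {g : G // orderOf g = m} = Nat.card {h : H // orderOf h = m}) :
    Nat.card G = Nat.card H :=
  Nat.card_congr (exists_equiv_of_sameType hT).choose

/-- If `G` has a normal Sylow `p`-subgroup, so has every group with the same order type. -/
theorem sylow_normal_of_sameType {p : ℕ} [Fact p.Prime]
    (hT : ∀ m : ℕ, Nat.card {g : G // orderOf g = m} = Nat.card {h : H // orderOf h = m})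
    (P : Sylow p G) (hP : (P : Subgroup G).Normal) (Q : Sylow p H) : (Q : Subgroup H).Normal := by
  obtain ⟨E, hE⟩ := exists_equiv_of_sameType hT
  let S : Set H := {h | ∃ k, orderOf h = p ^ k}
  have h1 : ((Q : Subgroup H) : Set H) ⊆ S := fun h hh => by
    obtain ⟨k, hk⟩ := IsPGroup.iff_orderOf.1 Q.2 ⟨h, hh⟩
    exact ⟨k, by rwa [Subgroup.orderOf_mk] at hk⟩
  have h2 : S.ncard ≤ ((Q : Subgroup H) : Set H).ncard := by
    have : E.symm '' S ⊆ ((P : Subgroup G) : Set G) := by
      rintro g ⟨h, ⟨k, hk⟩, rfl⟩
      have ho : orderOf (E.symm h) = p ^ k := by rw [← hE (E.symm h), Equiv.apply_symm_apply]; exact hk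
      have hz : IsPGroup p (Subgroup.zpowers (E.symm h)) := IsPGroup.of_card (n := k) (by rw [Nat.card_zpowers, ho])
      obtain ⟨P', hP'⟩ := hz.exists_le_sylow
      have hsub := Sylow.unique_of_normal P hP
      rw [show P = P' from Subsingleton.elim _ _]
      exact hP' (Subgroup.mem_zpowers _)
    have h3 := Set.ncard_le_ncard this (Set.toFinite _)
    rw [Set.ncard_image_of_injective _ E.symm.injective] at h3
    calc S.ncard ≤ ((P : Subgroup G) : Set G).ncard := h3
      _ = ((Q : Subgroup H) : Set H).ncard := by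
        rw [← Nat.card_coe_set_eq, ← Nat.card_coe_set_eq]
        show Nat.card (P : Subgroup G) = Nat.card (Q : Subgroup H)
        rw [P.card_eq_multiplicity, Q.card_eq_multiplicity, Nat.card_congr E]
  have h4 := Set.eq_of_subset_of_ncard_le h1 h2 (Set.toFinite _)
  refine ⟨fun x hx g => ?_⟩
  obtain ⟨k, hk⟩ := (h4 ▸ hx : x ∈ S)
  have h5 : g * x * g⁻¹ ∈ S := ⟨k, by
    rw [← hk]; exact orderOf_injective (MulAut.conj g).toMonoidHom (MulAut.conj g).injective x⟩
  rw [← h4] at h5
  exact h5

/-- The order of the image of an element modulo a normal Hall subgroup depends only on its order. -/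
theorem orderOf_mk_of_coprime (N : Subgroup G) [N.Normal] (hN : (Nat.card N).Coprime N.index) (g : G) :
    orderOf (QuotientGroup.mk' N g) = orderOf g / Nat.gcd (orderOf g) (Nat.card N) := by
  set d := orderOf (QuotientGroup.mk' N g) with hd
  set o := orderOf g with ho
  have h1 : d ∣ o := orderOf_map_dvd _ g
  have h2 : d.Coprime (Nat.card N) := by
    refine (hN.symm).coprime_dvd_left ?_
    rw [Subgroup.index_eq_card]
    exact orderOf_dvd_natCard _
  have hgN : g ^ d ∈ N := by
    rw [← QuotientGroup.eq_one_iff]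
    show QuotientGroup.mk' N (g ^ d) = 1
    rw [map_pow, hd, pow_orderOf_eq_one]
  have h3 : o ∣ d * Nat.card N := by
    rw [ho, orderOf_dvd_iff_pow_eq_one, pow_mul]
    exact orderOf_dvd_iff_pow_eq_one.1 (Subgroup.orderOf_dvd_natCard N hgN)
  obtain ⟨e, he⟩ := h1
  have he' : e ∣ Nat.card N := by
    rw [he] at h3
    exact (Nat.mul_dvd_mul_iff_left (orderOf_pos _)).1 h3
  rw [he, Nat.Coprime.gcd_mul_left_cancel e h2, Nat.gcd_eq_left he', Nat.mul_div_cancel]
  exact Nat.pos_of_dvd_of_pos he' Nat.card_pos

/-- Counting elements through the quotient map. -/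
theorem card_subtype_mk (N : Subgroup G) [N.Normal] (P : G ⧸ N → Prop) :
    Nat.card {g : G // P (QuotientGroup.mk' N g)} = Nat.card N * Nat.card {x : G ⧸ N // P x} := by
  rw [← Nat.card_prod]
  exact Nat.card_congr (QuotientGroup.preimageMkEquivSubgroupProdSet N {x | P x})

/-- Quotients by normal Hall subgroups of equal order have the same order type. -/
theorem sameType_quotient (N : Subgroup G) [N.Normal] (M : Subgroup H) [M.Normal]
    (hN : (Nat.card N).Coprime N.index) (hM : (Nat.card M).Coprime M.index) (hcard : Nat.card N = Nat.card M)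
    (hT : ∀ m : ℕ, Nat.card {g : G // orderOf g = m} = Nat.card {h : H // orderOf h = m}) (m : ℕ) :
    Nat.card {x : G ⧸ N // orderOf x = m} = Nat.card {x : H ⧸ M // orderOf x = m} := by
  obtain ⟨E, hE⟩ := exists_equiv_of_sameType hT
  refine Nat.eq_of_mul_eq_mul_left (Nat.card_pos (α := N)) ?_
  rw [← card_subtype_mk N (fun x => orderOf x = m)]
  nth_rw 1 [hcard]
  rw [← card_subtype_mk M (fun x => orderOf x = m)]
  refine Nat.card_congr (E.subtypeEquiv fun g => ?_)
  rw [orderOf_mk_of_coprime N hN, orderOf_mk_of_coprime M hM, hE, hcard]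

end Cfsg.Agent.H86
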