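import Mathlib.GroupTheory.SchurZassenhaus
import Mathlib.GroupTheory.SpecificGroups.Quaternion
import Cfsg.Agent.H86.OrderType
import Cfsg.Agent.H21.UniqueSubgroup
import Cfsg.Agent.H23.QuaternionAut
import Cfsg.Agent.H19.Fitting
import Cfsg.Agent.H25.Burnside

/-!
Solvability is an order-type invariant for groups without elementary abelian subgroups of rank two.
-/

universe u v

namespace Cfsg.Agent.H86

/-- No elementary abelian subgroup of order `q ^ 2`, for any prime `q`. -/
def NoRankTwo (X : Type*) [Group X] : Prop :=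
  ∀ q : ℕ, q.Prime → ∀ a b : X, orderOf a = q → orderOf b = q → Commute a b → a ∈ Subgroup.zpowers b

/-- `NoRankTwo` passes along injective homomorphisms. -/
theorem NoRankTwo.of_injective {X Y : Type*} [Group X] [Group Y] [Finite Y] (h : NoRankTwo X) (f : Y →* X)
    (hf : Function.Injective f) : NoRankTwo Y := by
  intro q hq a b ha hb hab
  have h1 := h q hq (f a) (f b) ((orderOf_injective f hf a).trans ha) ((orderOf_injective f hf b).trans hb)
    (hab.map f)
  rw [← MonoidHom.map_zpowers] at h1
  obtain ⟨c, hc, hcf⟩ := h1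
  exact hf hcf ▸ hc

/-- A `q`-group without rank two has one subgroup of order `q`. -/
theorem NoRankTwo.unique {X : Type*} [Group X] [Finite X] (h : NoRankTwo X) {q : ℕ} [hq : Fact q.Prime]
    (hX : IsPGroup q X) (U V : Subgroup X) (hU : Nat.card U = q) (hV : Nat.card V = q) : U = V := by
  rcases subsingleton_or_nontrivial X with hs | hnt
  · exact Subsingleton.elim _ _
  haveI := hX.center_nontrivial
  have hd : q ∣ Nat.card (Subgroup.center X) := by
    obtain ⟨k, hk0, hk⟩ := (hX.to_subgroup (Subgroup.center _)).nontrivial_iff_card.1 inferInstance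
    rw [hk]; exact dvd_pow_self q hk0.ne'
  obtain ⟨⟨z, hzc⟩, hz⟩ := exists_prime_orderOf_dvd_card' q hd
  rw [Subgroup.orderOf_mk] at hz
  suffices key : ∀ W : Subgroup X, Nat.card W = q → W = Subgroup.zpowers z by rw [key U hU, key V hV]
  intro W hW
  obtain ⟨⟨w, hwW⟩, hw⟩ := exists_prime_orderOf_dvd_card' (G := W) q (hW ▸ dvd_rfl)
  rw [Subgroup.orderOf_mk] at hw
  have hwW' : Subgroup.zpowers w = W :=
    Subgroup.eq_of_le_of_card_ge (Subgroup.zpowers_le.2 hwW) (by rw [hW, Nat.card_zpowers, hw])
  rw [← hwW']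
  refine Subgroup.eq_of_le_of_card_ge (Subgroup.zpowers_le.2 (h q hq.out w z hw hz ?_)) ?_
  · exact Subgroup.mem_center_iff.1 hzc w
  · rw [Nat.card_zpowers, Nat.card_zpowers, hw, hz]

/-- An automorphism whose order is a power of a prime `p ≥ 5` fixes a smaller-characteristic rank one `q`-group. -/
theorem aut_eq_one_of_noRankTwo {Q : Type*} [Group Q] [Finite Q] (h : NoRankTwo Q) {p q : ℕ} [hq : Fact q.Prime]
    (hp : p.Prime) (h5 : 5 ≤ p) (hqp : q < p) (hQ : IsPGroup q Q) (α : MulAut Q) {a : ℕ} (hα : α ^ p ^ a = 1) :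
    α = 1 := by
  have hodd : Odd (p ^ a) := (hp.odd_of_ne_two (by omega)).pow
  rcases H21.cyclic_or_quaternion q hQ (h.unique hQ) with hc | ⟨rfl, n, ⟨e⟩⟩
  · have h2 := orderOf_dvd_natCard α
    rw [IsCyclic.card_mulAut] at h2
    obtain ⟨k, hk⟩ := IsPGroup.iff_card.1 hQ
    rw [hk] at h2
    rw [← orderOf_eq_one_iff]
    refine Nat.eq_one_of_dvd_coprimes ?_ (orderOf_dvd_of_pow_eq_one hα) h2
    refine Nat.Coprime.pow_left a ?_
    rcases Nat.eq_zero_or_pos k with rfl | hk0
    · simp
    rw [Nat.totient_prime_pow hq.out hk0]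
    refine Nat.Coprime.mul_right (Nat.Coprime.pow_right _ ((Nat.coprime_primes hp hq.out).2 hqp.ne'))
      ((hp.coprime_iff_not_dvd).2 fun hd => ?_)
    have h3 := hq.out.two_le
    have := Nat.le_of_dvd (by omega) hd
    omega
  · by_contra hne
    let e' : Q ≃* (⊤ : Subgroup (QuaternionGroup (2 ^ n))) := e.trans Subgroup.topEquiv.symm
    obtain ⟨f⟩ := H23.q8_of_odd_auto ⊤ (MulAut.congr e' α) hodd (by rw [← map_pow, hα, map_one])
      (fun h1 => hne ((MulAut.congr e').injective (h1.trans (map_one _).symm)))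
    let f' : Q ≃* QuaternionGroup 2 := e'.trans f.symm
    have hne' : MulAut.congr f' α ≠ 1 := fun h1 => hne ((MulAut.congr f').injective (h1.trans (map_one _).symm))
    have h3 := (H23.exists_sl_conj (MulAut.congr f' α) hodd (by rw [← map_pow, hα, map_one]) hne').1
    rw [← map_pow, ← map_one (MulAut.congr f')] at h3
    have h3' : α ^ 3 = 1 := (MulAut.congr f').injective h3
    refine hne (orderOf_eq_one_iff.1 (Nat.eq_one_of_dvd_coprimes ?_ (orderOf_dvd_of_pow_eq_one hα) (orderOf_dvd_of_pow_eq_one h3')))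
    exact Nat.Coprime.pow_left a ((Nat.coprime_primes hp Nat.prime_three).2 (by omega))

/-- In a solvable group without rank two, a Sylow subgroup for the largest prime, at least 5, is normal. -/
theorem normal_sylow_of_noRankTwo {X : Type*} [Group X] [Finite X] [Group.IsSolvable X] (h : NoRankTwo X)
    {p : ℕ} [hp : Fact p.Prime] (h5 : 5 ≤ p) (hmax : ∀ q : ℕ, q.Prime → q ∣ Nat.card X → q ≤ p) (P : Sylow p X) :
    (P : Subgroup X).Normal := by
  have hPc : IsCyclic (P : Subgroup X) := by
    have h' : NoRankTwo (P : Subgroup X) := h.of_injective (P : Subgroup X).subtype (Subgroup.subtype_injective _)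
    rcases H21.cyclic_or_quaternion p P.2 (h'.unique P.2) with hc | ⟨h2, -⟩
    · exact hc
    · omega
  haveI := H19.fitting_normal X
  set F := Cfsg.fittingSubgroup X with hF
  have hle : (P : Subgroup X) ≤ F := by
    refine le_trans ?_ H19.centralizer_fitting_le
    rw [Subgroup.le_centralizer_iff, H19.fitting_eq_iSup_pCore]
    refine iSup_le fun q => ?_
    haveI : Fact (q : ℕ).Prime := ⟨q.2⟩
    set Q := Cfsg.pCore (q : ℕ) X with hQdef
    rw [Subgroup.le_centralizer_iff]
    intro x hx
    rw [Subgroup.mem_centralizer_iff]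
    intro y hy
    by_cases hqp : (q : ℕ) = p
    · have hyP : y ∈ (P : Subgroup X) := H19.pCore_le_sylow P (by rw [← hqp]; exact hy)
      exact congrArg Subtype.val ((IsCyclic.commGroup (α := (P : Subgroup X))).mul_comm ⟨y, hyP⟩ ⟨x, hx⟩)
    · rcases eq_or_ne y 1 with rfl | hy1
      · simp
      haveI : Q.Normal := H19.pCore_normal _ X
      have hQp : IsPGroup (q : ℕ) Q := H19.pCore_isPGroup (G := X) (q : ℕ)
      have hlt : (q : ℕ) < p := by
        refine lt_of_le_of_ne (hmax q q.2 ?_) hqp
        obtain ⟨k, hk⟩ := IsPGroup.iff_orderOf.1 hQp ⟨y, hy⟩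
        rw [Subgroup.orderOf_mk] at hk
        have hk0 : k ≠ 0 := fun h0 => hy1 (orderOf_eq_one_iff.1 (by rw [hk, h0, pow_zero]))
        exact (dvd_pow_self (q : ℕ) hk0).trans (hk ▸ orderOf_dvd_natCard y)
      obtain ⟨a, ha⟩ := IsPGroup.iff_orderOf.1 P.2 ⟨x, hx⟩
      rw [Subgroup.orderOf_mk] at ha
      have h' : NoRankTwo Q := h.of_injective Q.subtype (Subgroup.subtype_injective _)
      have h1 : MulAut.conjNormal (H := Q) x = 1 := aut_eq_one_of_noRankTwo h' hp.out h5 hlt hQp _
        (by rw [← map_pow, ← ha, pow_orderOf_eq_one, map_one])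
      have h2 : x * y * x⁻¹ = y := by
        simpa using congrArg Subtype.val (DFunLike.congr_fun h1 (⟨y, hy⟩ : Q))
      exact (mul_inv_eq_iff_eq_mul.1 h2).symm
  haveI : Group.IsNilpotent F := H19.fitting_isNilpotent
  have hPn : ((P.subtype hle : Sylow p F) : Subgroup F).Normal := by
    have q := (Group.isNilpotent_of_finite_tfae (G := F)).out 0 3
    exact q.1 inferInstance p hp _
  haveI : ((P.subtype hle : Sylow p F) : Subgroup F).Characteristic :=
    Sylow.characteristic_of_normal _ hPn
  have := ConjAct.normal_of_characteristic_of_normal (H := F) (K := ((P.subtype hle : Sylow p F) : Subgroup F))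
  rwa [Sylow.coe_subtype, Subgroup.map_subgroupOf_eq_of_le hle] at this

/-- A group with the order type of a solvable group without rank two is solvable. -/
theorem isSolvable_of_sameType_noRankTwo : ∀ (n : ℕ) (X : Type u) [Group X] [Finite X] (Y : Type v) [Group Y]
    [Finite Y], Nat.card X ≤ n →
    (∀ m : ℕ, Nat.card {g : X // orderOf g = m} = Nat.card {h : Y // orderOf h = m}) →
    NoRankTwo X → Group.IsSolvable X → Group.IsSolvable Y := by
  intro n
  induction n with
  | zero => intro X _ _ Y _ _ hn; exact absurd (Nat.card_pos (α := X)) (by omega)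
  | succ n ih =>
    intro X _ _ Y _ _ hn hT hX hs
    have hcard := card_eq_of_sameType hT
    by_cases hbig : ∃ q : ℕ, q.Prime ∧ q ∣ Nat.card X ∧ 5 ≤ q
    · obtain ⟨q, hq, hqd, hq5⟩ := hbig
      obtain ⟨p, hpmem, hmax⟩ := (Nat.card X).primeFactors.exists_max_image id
        ⟨q, hq.mem_primeFactors hqd Nat.card_pos.ne'⟩
      obtain ⟨hp, hpd, -⟩ := Nat.mem_primeFactors.1 hpmem
      simp only [id] at hmax
      haveI : Fact p.Prime := ⟨hp⟩
      have h5 : 5 ≤ p := hq5.trans (hmax q (hq.mem_primeFactors hqd Nat.card_pos.ne'))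
      obtain ⟨P⟩ : Nonempty (Sylow p X) := inferInstance
      obtain ⟨Q⟩ : Nonempty (Sylow p Y) := inferInstance
      have hPn := normal_sylow_of_noRankTwo hX h5 (fun r hr hd => hmax r (hr.mem_primeFactors hd Nat.card_pos.ne')) P
      have hQn := sylow_normal_of_sameType hT P hPn Q
      have hPQ : Nat.card (P : Subgroup X) = Nat.card (Q : Subgroup Y) := by
        rw [P.card_eq_multiplicity, Q.card_eq_multiplicity, hcard]
      have hT' := sameType_quotient (P : Subgroup X) (Q : Subgroup Y) P.card_coprime_index Q.card_coprime_index hPQ hT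
      have hlt : Nat.card (X ⧸ (P : Subgroup X)) ≤ n := by
        rw [← Subgroup.index_eq_card]
        have h3 := (P : Subgroup X).card_mul_index
        have h4 : p ≤ Nat.card (P : Subgroup X) := Nat.le_of_dvd Nat.card_pos (P.dvd_card_of_dvd_card hpd)
        have h6 : 0 < (P : Subgroup X).index := Nat.pos_of_ne_zero Subgroup.index_ne_zero_of_finite
        nlinarith
      obtain ⟨R, hR⟩ := Subgroup.exists_left_complement'_of_coprime (N := (P : Subgroup X)) P.card_coprime_index
      have hX' : NoRankTwo (X ⧸ (P : Subgroup X)) :=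
        hX.of_injective (R.subtype.comp hR.QuotientMulEquiv.toMonoidHom)
          (R.subtype_injective.comp hR.QuotientMulEquiv.injective)
      haveI := ih (X ⧸ (P : Subgroup X)) (Y ⧸ (Q : Subgroup Y)) hlt hT' hX' inferInstance
      haveI : Group.IsSolvable (Q : Subgroup Y) := @IsNilpotent.to_isSolvable _ _ Q.2.isNilpotent
      exact Group.isSolvable_of_ker_le_range (Q : Subgroup Y).subtype (QuotientGroup.mk' (Q : Subgroup Y)) (by simp)
    · push Not at hbig
      have hsub : (Nat.card Y).primeFactors ⊆ {2, 3} := by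
        intro r hr
        rw [← hcard] at hr
        obtain ⟨hr1, hr2, -⟩ := Nat.mem_primeFactors.1 hr
        have hlt := hbig r hr1 hr2
        have := hr1.two_le
        have h4 : r ≠ 4 := fun h => by rw [h] at hr1; exact absurd hr1 (by norm_num)
        simp; omega
      refine H25.isSolvable_of_card_eq_mul_pow Nat.prime_two Nat.prime_three
        (a := (Nat.card Y).factorization 2) (b := (Nat.card Y).factorization 3) ?_
      have hfac := Nat.prod_factorization_pow_eq_self (Nat.card_pos (α := Y)).ne'
      rw [Finsupp.prod_of_support_subset (s := {2, 3}) _ (by rwa [Nat.support_factorization]) _ (fun i _ => pow_zero i),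
        Finset.prod_pair (by norm_num)] at hfac
      exact hfac.symm

end Cfsg.Agent.H86
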