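import Cfsg.Agent.H86.Basic
import Cfsg.Agent.H86.SylowTI
import Mathlib.GroupTheory.SchurZassenhaus

/-!
A Sylow subgroup is a direct factor iff `p`-elements commute with `p'`-elements of prime power order.
-/

namespace Cfsg.Agent.H86

variable {G : Type*} [Group G] [Finite G] {p : ℕ} [Fact p.Prime]

/-- Commuting of `p`- and `p'`-prime-power elements gives a direct factor Sylow subgroup. -/
theorem direct_factor_of_commute
    (h : ∀ x y : G, (∃ a : ℕ, orderOf x = p ^ a) → (∃ q b : ℕ, q.Prime ∧ q ≠ p ∧ orderOf y = q ^ b) → x * y = y * x) :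
    ∃ (P : Sylow p G) (K : Subgroup G), (P : Subgroup G).Normal ∧ K.Normal ∧ (P : Subgroup G) ⊓ K = ⊥ ∧
      (P : Subgroup G) ⊔ K = ⊤ := by
  obtain ⟨P⟩ : Nonempty (Sylow p G) := inferInstance
  set C := Subgroup.centralizer ((P : Subgroup G) : Set G) with hC
  have hCN : C ≤ Subgroup.normalizer ((P : Subgroup G) : Set G) := Subgroup.centralizer_le_normalizer _
  have hnorm : Subgroup.normalizer ((P : Subgroup G) : Set G) = ⊤ := by
    refine eq_top_of_forall_sylow_le _ fun q hq _ => ?_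
    haveI := Fact.mk hq
    by_cases hqp : q = p
    · subst hqp; exact ⟨P, Subgroup.le_normalizer⟩
    · obtain ⟨Q⟩ : Nonempty (Sylow q G) := inferInstance
      refine ⟨Q, fun y hy => hCN ?_⟩
      rw [hC, Subgroup.mem_centralizer_iff]
      intro x hx
      obtain ⟨b, hb⟩ := exists_orderOf_eq_pow_of_mem Q.2 hy
      exact h x y (exists_orderOf_eq_pow_of_mem P.2 hx) ⟨q, b, hq, hqp, hb⟩
  haveI hPn : (P : Subgroup G).Normal := Subgroup.normalizer_eq_top_iff.1 hnorm
  obtain ⟨K, hK⟩ := Subgroup.exists_right_complement'_of_coprime (N := (P : Subgroup G)) P.card_coprime_index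
  have hKC : K ≤ C := by
    have h1 : (C.subgroupOf K) = ⊤ := by
      refine eq_top_of_forall_sylow_le _ fun q hq hqK => ?_
      haveI := Fact.mk hq
      obtain ⟨Q⟩ : Nonempty (Sylow q K) := inferInstance
      refine ⟨Q, fun y hy => ?_⟩
      rw [Subgroup.mem_subgroupOf, hC, Subgroup.mem_centralizer_iff]
      intro x hx
      obtain ⟨b, hb⟩ := exists_orderOf_eq_pow_of_mem Q.2 hy
      refine h x y (exists_orderOf_eq_pow_of_mem P.2 hx) ⟨q, b, hq, ?_, by rwa [Subgroup.orderOf_coe]⟩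
      rintro rfl
      rw [← hK.symm.index_eq_card] at hqK
      exact P.not_dvd_index hqK
    exact Subgroup.subgroupOf_eq_top.1 h1
  refine ⟨P, K, hPn, ?_, hK.disjoint.eq_bot, hK.sup_eq_top⟩
  rw [← Subgroup.normalizer_eq_top_iff, eq_top_iff, ← hK.sup_eq_top]
  refine sup_le ?_ Subgroup.le_normalizer
  intro u hu
  rw [Subgroup.mem_normalizer_iff]
  intro k
  constructor
  · intro hk
    rw [Subgroup.mem_centralizer_iff.1 (hKC hk) u hu, mul_inv_cancel_right]; exact hk
  · intro hk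
    have h1 := Subgroup.mem_centralizer_iff.1 (hKC hk) u hu
    have : k = u * k * u⁻¹ := by
      calc k = u⁻¹ * (u * k * u⁻¹ * u) := by group
        _ = u⁻¹ * (u * (u * k * u⁻¹)) := by rw [h1]
        _ = _ := by group
    rw [this]; exact hk

/-- In a direct product with a Sylow factor, `p`- and `p'`-elements lie in the two factors. -/
theorem mem_factors_of_direct_factor {P : Sylow p G} {K : Subgroup G} (hP : (P : Subgroup G).Normal) (hK : K.Normal)
    (hd : (P : Subgroup G) ⊓ K = ⊥) (ht : (P : Subgroup G) ⊔ K = ⊤) :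
    (∀ x : G, (∃ a : ℕ, orderOf x = p ^ a) → x ∈ (P : Subgroup G)) ∧
      ∀ y : G, (∃ q b : ℕ, q.Prime ∧ q ≠ p ∧ orderOf y = q ^ b) → y ∈ K := by
  constructor
  · rintro x ⟨a, ha⟩
    refine le_sylow_of_normalizes P (IsPGroup.of_card (n := a) (by rw [Nat.card_zpowers, ha]) : IsPGroup p ↥(Subgroup.zpowers x)) ?_ (Subgroup.mem_zpowers x)
    rw [Subgroup.normalizer_eq_top]; exact le_top
  · rintro y ⟨q, b, hq, hqp, hb⟩
    rw [← QuotientGroup.eq_one_iff]
    show QuotientGroup.mk' K y = 1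
    rw [← orderOf_eq_one_iff]
    obtain ⟨u, hu⟩ := QuotientGroup.mk'_surjective K (QuotientGroup.mk' K y)
    have hmem : u ∈ (P : Subgroup G) ⊔ K := ht ▸ Subgroup.mem_top u
    rw [← SetLike.mem_coe, Subgroup.mul_normal] at hmem
    obtain ⟨v, hv, w, hw, rfl⟩ := hmem
    rw [map_mul, show QuotientGroup.mk' K w = 1 from (QuotientGroup.eq_one_iff w).2 hw, mul_one] at hu
    obtain ⟨c, hc⟩ := exists_orderOf_eq_pow_of_mem P.2 hv
    refine Nat.eq_one_of_dvd_coprimes (Nat.coprime_pow_primes b c hq Fact.out hqp) (hb ▸ orderOf_map_dvd _ y) ?_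
    rw [← hu, ← hc]; exact orderOf_map_dvd _ v

end Cfsg.Agent.H86
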