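import Mathlib.GroupTheory.Sylow
import Mathlib.GroupTheory.OrderOfElement
import Mathlib.GroupTheory.QuotientGroup.Basic
import Mathlib.GroupTheory.SpecificGroups.Cyclic
import Cfsg.Agent.H56.Coprime

/-!
`π`-irrational groups: `N(⟨x⟩) = C(x)` for all `π`-elements.
-/

namespace Cfsg.Agent.H86

variable {G : Type*} [Group G]

/-- An element sending a cyclic subgroup of finite order into itself normalizes it. -/
theorem mem_normalizer_zpowers [Finite G] {g x : G} (h : g * x * g⁻¹ ∈ Subgroup.zpowers x) :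
    g ∈ Subgroup.normalizer ((Subgroup.zpowers x : Subgroup G) : Set G) := by
  have hm : (Subgroup.zpowers x).map (MulAut.conj g).toMonoidHom = Subgroup.zpowers (g * x * g⁻¹) :=
    MonoidHom.map_zpowers _ _
  have heq : Subgroup.zpowers (g * x * g⁻¹) = Subgroup.zpowers x := by
    refine Subgroup.eq_of_le_of_card_ge (Subgroup.zpowers_le.2 h) ?_
    rw [Nat.card_zpowers, Nat.card_zpowers]
    exact (orderOf_injective (MulAut.conj g).toMonoidHom (MulAut.conj g).injective x).ge
  rw [Subgroup.mem_normalizer_iff]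
  intro u
  constructor
  · intro hu
    rw [← heq, ← hm]
    exact ⟨u, hu, rfl⟩
  · intro hu
    rw [← heq, ← hm] at hu
    obtain ⟨v, hv, hvu⟩ := hu
    rwa [← (MulAut.conj g).injective hvu]

/-- The irrationality property at `π`-elements passes to quotients by normal `π'`-subgroups. -/
theorem irrational_quotient [Finite G] (π : Set ℕ)
    (hirr : ∀ x : G, (∀ r : ℕ, r.Prime → r ∣ orderOf x → r ∈ π) →
      Subgroup.normalizer ((Subgroup.zpowers x : Subgroup G) : Set G) ≤ Subgroup.centralizer {x})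
    (N : Subgroup G) [N.Normal] (hN : ∀ r : ℕ, r.Prime → r ∣ Nat.card N → r ∉ π)
    (y : G ⧸ N) (hy : ∀ r : ℕ, r.Prime → r ∣ orderOf y → r ∈ π) :
    Subgroup.normalizer ((Subgroup.zpowers y : Subgroup (G ⧸ N)) : Set (G ⧸ N)) ≤ Subgroup.centralizer {y} := by
  set m := orderOf y with hm
  have hcop : m.Coprime (Nat.card N) := Nat.coprime_of_dvd fun k hk h1 h2 => hN k hk h2 (hy k hk h1)
  let φ := QuotientGroup.mk' N
  obtain ⟨x0, hx0⟩ := QuotientGroup.mk'_surjective N y
  have h0 : x0 ^ m ∈ N := by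
    rw [← QuotientGroup.eq_one_iff]
    show φ (x0 ^ m) = 1
    rw [map_pow, show φ x0 = y from hx0, hm, pow_orderOf_eq_one]
  obtain ⟨k, hk⟩ := exists_pow_eq_self_of_coprime (x := y) (n := Nat.card N) (hm ▸ hcop.symm)
  obtain ⟨x, hxdef⟩ : ∃ x, x = (x0 ^ Nat.card N) ^ k := ⟨_, rfl⟩
  have hxy : φ x = y := by rw [hxdef, map_pow, map_pow, show φ x0 = y from hx0, hk]
  have hxm : x ^ m = 1 := by
    have h1 : (x0 ^ m) ^ Nat.card N = 1 :=
      orderOf_dvd_iff_pow_eq_one.1 (Subgroup.orderOf_dvd_natCard N h0)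
    rw [hxdef, ← pow_mul, ← pow_mul, mul_comm k m, ← mul_assoc, mul_comm (Nat.card N) m, pow_mul, pow_mul, h1, one_pow]
  intro g hg
  obtain ⟨g, rfl⟩ := QuotientGroup.mk'_surjective N g
  have h2 : φ g * y * (φ g)⁻¹ ∈ Subgroup.zpowers y :=
    (Subgroup.mem_normalizer_iff.1 hg y).1 (Subgroup.mem_zpowers y)
  obtain ⟨i, hi⟩ := (isOfFinOrder_of_finite y).mem_powers_iff_mem_zpowers.2 h2
  have hi' : y ^ i = φ g * y * (φ g)⁻¹ := hi
  have hnorm : x ^ i ∈ Subgroup.normalizer (N : Set G) := by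
    rw [Subgroup.normalizer_eq_top]; trivial
  have hco : (g * x * g⁻¹) * (x ^ i)⁻¹ ∈ N := by
    rw [← QuotientGroup.eq_one_iff]
    show φ ((g * x * g⁻¹) * (x ^ i)⁻¹) = 1
    rw [map_mul, map_mul, map_mul, map_inv, map_inv, map_pow, hxy, hi', mul_inv_eq_one]
  obtain ⟨n, hn, hne⟩ := H56.exists_conj_of_coset_of_coprime m N (x ^ i) (g * x * g⁻¹) hnorm
    (by rw [← pow_mul, mul_comm, pow_mul, hxm, one_pow]) (by rw [conj_pow, hxm]; group) hco hcop
  have hng : n * g ∈ Subgroup.normalizer ((Subgroup.zpowers x : Subgroup G) : Set G) := by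
    refine mem_normalizer_zpowers ?_
    rw [show n * g * x * (n * g)⁻¹ = n * (g * x * g⁻¹) * n⁻¹ by group, hne]
    exact Subgroup.pow_mem _ (Subgroup.mem_zpowers x) i
  have hxπ : ∀ r : ℕ, r.Prime → r ∣ orderOf x → r ∈ π := fun r hr hd =>
    hy r hr (hd.trans (orderOf_dvd_of_pow_eq_one hxm))
  have h3 := Subgroup.mem_centralizer_singleton_iff.1 (hirr x hxπ hng)
  have h4 := congrArg φ h3
  have h5 : φ n = 1 := (QuotientGroup.eq_one_iff n).2 hn
  simp only [map_mul, h5, one_mul, hxy] at h4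
  exact Subgroup.mem_centralizer_singleton_iff.2 h4

/-- In a finite group, an element of odd order normalizing a cyclic 2-subgroup centralizes it. -/
theorem commute_of_normalizes_cyclic_two [Finite G] {g x : G} (hx : ∃ a, orderOf x = 2 ^ a)
    (hg : g ∈ Subgroup.normalizer ((Subgroup.zpowers x : Subgroup G) : Set G)) (hodd : (orderOf g).Coprime 2) :
    Commute g x := by
  set H := Subgroup.zpowers x
  let f := H.normalizerMonoidHom
  have hcard : (orderOf g).Coprime (Nat.card (MulAut H)) := by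
    obtain ⟨a, ha⟩ := hx
    rw [IsCyclic.card_mulAut, Nat.card_zpowers, ha]
    rcases Nat.eq_zero_or_pos a with rfl | ha0
    · simp
    · rw [Nat.totient_prime_pow Nat.prime_two ha0]
      simpa using hodd.pow_right (a - 1)
  have h1 : f ⟨g, hg⟩ = 1 := by
    rw [← orderOf_eq_one_iff]
    refine Nat.eq_one_of_dvd_coprimes hcard ?_ (orderOf_dvd_natCard _)
    simpa using orderOf_map_dvd f ⟨g, hg⟩
  have h2 : g * x * g⁻¹ = x := by
    simpa [f, H] using congrArg Subtype.val (DFunLike.congr_fun h1 ⟨x, Subgroup.mem_zpowers x⟩)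
  exact mul_inv_eq_iff_eq_mul.1 h2

end Cfsg.Agent.H86
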