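import Cfsg.Agent.H21.ThompsonFpf
import Cfsg.Agent.H19.MinimalNormal
import Cfsg.Agent.H23.ThompsonNPC
import Cfsg.Agent.H22.PResidual
import Cfsg.Agent.H86.Basic
import Mathlib.GroupTheory.SemidirectProduct

/-!
Kegel's theorem: a finite group with a splitting automorphism of prime order is nilpotent.
-/

namespace Cfsg.Agent.H86.Kegel

open Subgroup
open scoped Pointwise

universe u

/-- A normal subgroup of index `p` with all elements outside of it of order `p`. -/
def Split (p : ℕ) {H : Type u} [Group H] (G : Subgroup H) : Prop :=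
  G.Normal ∧ G.index = p ∧ ∀ x ∉ G, x ^ p = 1

variable {H : Type u} [Group H] [Finite H] {p : ℕ} [hp : Fact p.Prime] {G : Subgroup H}

theorem Split.top_eq (h : Split p G) {x : H} (hx : x ∉ G) : G ⊔ zpowers x = ⊤ := by
  have hne : G.relIndex (G ⊔ zpowers x) ≠ 1 := fun e => hx (relIndex_eq_one.1 e (mem_sup_right (mem_zpowers x)))
  have hd : G.relIndex (G ⊔ zpowers x) * (G ⊔ zpowers x).index = p := by
    rw [relIndex_mul_index le_sup_left, h.2.1]
  have := (Nat.dvd_prime hp.out).1 (Dvd.intro _ hd)
  rw [← index_eq_one]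
  rcases this with e | e
  · exact absurd e hne
  · rw [e] at hd; exact (Nat.mul_eq_left hp.out.ne_zero).1 hd

theorem Split.sub (h : Split p G) {L : Subgroup H} (hL : L ≤ G) {x : H} (hx : x ∉ G)
    (hn : x ∈ normalizer (L : Set H)) : Split p (L.subgroupOf (L ⊔ zpowers x)) := by
  set M := L ⊔ zpowers x
  have hM : M ≤ normalizer (L : Set H) := sup_le le_normalizer (zpowers_le.2 hn)
  have hmem : ∀ m ∈ M, m ∈ G → m ∈ L := by
    intro m hm hmG
    have hm' : m ∈ ((L ⊔ zpowers x : Subgroup H) : Set H) := hm
    rw [coe_mul_of_right_le_normalizer_left _ _ (zpowers_le.2 hn)] at hm'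
    obtain ⟨l, hl, w, hw, rfl⟩ := hm'
    have hwG : w ∈ G := by simpa using mul_mem (inv_mem (hL hl)) hmG
    have hxo : orderOf x = p := orderOf_eq_prime (h.2.2 x hx) fun e => hx (e ▸ one_mem G)
    have hbot : Nat.card (zpowers x ⊓ G : Subgroup H) = 1 := by
      rcases (Nat.dvd_prime hp.out).1 (hxo ▸ Nat.card_zpowers x ▸ card_dvd_of_le (inf_le_left : zpowers x ⊓ G ≤ zpowers x)) with e | e
      · exact e
      · exfalso
        have := eq_of_le_of_card_ge (inf_le_left : zpowers x ⊓ G ≤ zpowers x) (by rw [e, Nat.card_zpowers, hxo])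
        exact hx ((this.symm ▸ mem_zpowers x : x ∈ zpowers x ⊓ G).2)
    have : w = 1 := mem_bot.1 (eq_bot_of_card_eq _ hbot ▸ ⟨hw, hwG⟩)
    show l * w ∈ L
    rw [this, mul_one]; exact hl
  haveI : (L.subgroupOf M).Normal := (normal_subgroupOf_iff_le_normalizer le_sup_left).2 hM
  refine ⟨inferInstance, ?_, fun z hz => Subtype.ext (h.2.2 z fun hzG => hz (hmem z z.2 hzG))⟩
  have heq : L.subgroupOf M = G.subgroupOf M := by
    ext z
    rw [mem_subgroupOf, mem_subgroupOf]
    exact ⟨fun hz => hL hz, fun hz => hmem z z.2 hz⟩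
  haveI := h.1
  rw [heq]
  change G.relIndex M = p
  have h1 : G.relIndex M ∣ p := h.2.1 ▸ relIndex_dvd_index_of_normal G M
  rcases (Nat.dvd_prime hp.out).1 h1 with e | e
  · exact absurd (relIndex_eq_one.1 e (mem_sup_right (mem_zpowers x))) hx
  · exact e

theorem Split.quotient (h : Split p G) (N : Subgroup H) [N.Normal] (hN : N ≤ G) :
    Split p (G.map (QuotientGroup.mk' N)) := by
  haveI := h.1
  refine ⟨(inferInstance : G.Normal).map _ (QuotientGroup.mk'_surjective N), ?_, fun z hz => ?_⟩
  · rw [Subgroup.index_map_eq]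
    · exact h.2.1
    · exact QuotientGroup.mk'_surjective N
    · rwa [QuotientGroup.ker_mk']
  · obtain ⟨x, rfl⟩ := QuotientGroup.mk'_surjective N z
    rw [← map_pow, h.2.2 x fun hx => hz (mem_map_of_mem _ hx), map_one]

theorem commutative_two (h : Split 2 G) : ∀ a ∈ G, ∀ b ∈ G, a * b = b * a := by
  intro a ha b hb
  obtain ⟨x, hx⟩ : ∃ x, x ∉ G := by
    by_contra hc
    push Not at hc
    have h2 := h.2.1
    rw [(eq_top_iff' G).2 hc, index_top] at h2
    norm_num at h2
  have key : ∀ g ∈ G, x * g * x = g⁻¹ := by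
    intro g hg
    have hgx : g * x ∉ G := fun h' => hx (by simpa using mul_mem (inv_mem hg) h')
    have h2 := h.2.2 _ hgx
    rw [sq] at h2
    rw [eq_inv_iff_mul_eq_one]
    have h3 : x * x = 1 := by rw [← sq]; exact h.2.2 x hx
    calc x * g * x * g = x * (g * x * (g * x)) * x⁻¹ := by group
      _ = 1 := by rw [h2, mul_one, mul_inv_cancel]
  have h3 : x * x = 1 := by rw [← sq]; exact h.2.2 x hx
  have h4 : x * (a * b) * x = x * a * x * (x * b * x) := by
    rw [show x * a * x * (x * b * x) = x * a * (x * x) * b * x by group, h3]; group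
  rw [key _ (mul_mem ha hb), key a ha, key b hb, ← mul_inv_rev, inv_inj] at h4
  exact h4

/-- The normalizer of an invariant subgroup. -/
theorem normal_of_le_normalizer (h : Split p G) {U : Subgroup H} {x : H} (hx : x ∉ G)
    (hG : G ≤ normalizer (U : Set H)) (hxU : x ∈ normalizer (U : Set H)) : U.Normal := by
  rw [← normalizer_eq_top_iff, eq_top_iff, ← h.top_eq hx]
  exact sup_le hG (zpowers_le.2 hxU)

/-- The key summation: no splitting on `V ⋊ Q` with `C_V(Q) = 1` and coprime orders. -/
theorem false_of_sum (h : Split p G) (V : Subgroup H) [V.Normal] [IsMulCommutative V] (hVG : V ≤ G)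
    (Q : Subgroup H) (hQG : Q ≤ G) {x : H} (hx : x ∉ G) (hxQ : x ∈ normalizer (Q : Set H))
    (hfix : ∀ v ∈ V, (∀ y ∈ Q, y * v = v * y) → v = 1) (hV : V ≠ ⊥)
    (hco : (Nat.card V).Coprime (Nat.card Q)) : False := by
  classical
  have := Fintype.ofFinite H
  have hout : ∀ y ∈ G, y * x ∉ G := fun y hy h' => hx (by simpa using mul_mem (inv_mem hy) h')
  have hord : ∀ y ∈ G, orderOf (y * x) = p := fun y hy =>
    orderOf_eq_prime (h.2.2 _ (hout y hy)) fun e => hout y hy (e ▸ one_mem G)
  let Qs : Finset H := Finset.univ.filter fun y => y ∈ Q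
  letI : CommGroup V := { (inferInstance : Group V) with mul_comm := fun a b => IsMulCommutative.is_comm.comm a b }
  let c : H → V → V := fun g v => MulAut.conjNormal g v
  have hcc : ∀ g g' v, c (g * g') v = c g (c g' v) := fun g g' v => by
    simp only [c, map_mul, MulAut.mul_apply]
  have hc1 : ∀ v, c 1 v = v := fun v => by simp only [c, map_one, MulAut.one_apply]
  have hnorm : ∀ w : V, ∏ y ∈ Qs, c y w = 1 := by
    intro w
    refine Subtype.ext (hfix _ (SetLike.coe_mem _) fun y hy => ?_)
    have hf : c y (∏ y ∈ Qs, c y w) = ∏ y ∈ Qs, c y w := by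
      simp only [c, map_prod]
      refine Finset.prod_bij' (fun k _ => y * k) (fun k _ => y⁻¹ * k) ?_ ?_ ?_ ?_ ?_
      · intro k hk; simp only [Qs, Finset.mem_filter, Finset.mem_univ, true_and] at hk ⊢; exact mul_mem hy hk
      · intro k hk; simp only [Qs, Finset.mem_filter, Finset.mem_univ, true_and] at hk ⊢; exact mul_mem (inv_mem hy) hk
      · intros; simp
      · intros; simp
      · intro k _; exact (hcc _ _ _).symm
    have := congrArg Subtype.val hf
    simp only [c, MulAut.conjNormal_apply] at this ⊢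
    exact mul_inv_eq_iff_eq_mul.1 this
  have hpow : ∀ (g : H) (v : V) (n : ℕ), ((v : H) * g) ^ n = ((∏ i ∈ Finset.range n, c (g ^ i) v : V) : H) * g ^ n := by
    intro g v n
    induction n with
    | zero => simp
    | succ n ih =>
      rw [pow_succ', ih, Finset.prod_range_succ']
      simp only [pow_zero, hc1]
      have hmap : (∏ i ∈ Finset.range n, c (g ^ (i + 1)) v) = c g (∏ i ∈ Finset.range n, c (g ^ i) v) := by
        simp only [c, map_prod]
        exact Finset.prod_congr rfl fun i _ => by rw [pow_succ', map_mul, MulAut.mul_apply]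
      rw [hmap, mul_comm, Subgroup.coe_mul]
      simp only [c, MulAut.conjNormal_apply]
      rw [pow_succ']
      group
  have hone : ∀ v : V, ∀ y ∈ Q, ∏ i ∈ Finset.range p, c ((y * x) ^ i) v = 1 := by
    intro v y hy
    have h1 := hpow (y * x) v p
    rw [h.2.2 _ (hout y (hQG hy)), mul_one, ← mul_assoc, h.2.2 _ (hout _ (mul_mem (hVG v.2) (hQG hy)))] at h1
    exact Subtype.ext h1.symm
  have hconj : ∀ y ∈ Q, x * y * x⁻¹ ∈ Q := fun y hy => (mem_normalizer_iff.1 hxQ y).1 hy
  have hlast : ∀ v : V, v ^ Nat.card Q = 1 := by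
    intro v
    have h1 : ∏ y ∈ Qs, ∏ i ∈ Finset.range p, c ((y * x) ^ i) v = 1 :=
      Finset.prod_eq_one fun y hy => hone v y (Finset.mem_filter.1 hy).2
    rw [Finset.prod_comm, Finset.range_eq_Ico, Finset.prod_eq_prod_Ico_succ_bot hp.out.pos] at h1
    have hQs : Qs.card = Nat.card Q := by
      rw [Nat.card_eq_fintype_card, Fintype.card_subtype]
    have h2 : ∀ i ∈ Finset.Ico (0 + 1) p, ∏ y ∈ Qs, c ((y * x) ^ i) v = 1 := by
      intro i hi
      rw [Finset.mem_Ico] at hi
      have hmem : ∀ j : ℕ, ∀ y ∈ Q, (y * x) ^ j * (x ^ j)⁻¹ ∈ Q := by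
        intro j y hy
        induction j with
        | zero => simp
        | succ j ih =>
          rw [show (y * x) ^ (j + 1) * (x ^ (j + 1))⁻¹ = y * (x * ((y * x) ^ j * (x ^ j)⁻¹) * x⁻¹) by
            rw [pow_succ', pow_succ']; group]
          exact mul_mem hy (hconj _ ih)
      have hinj : Set.InjOn (fun y => (y * x) ^ i * (x ^ i)⁻¹) (Qs : Set H) := by
        intro y hy y' hy' e
        obtain ⟨m, hm⟩ := Nat.exists_mul_mod_eq_one_of_coprime
          (hp.out.coprime_iff_not_dvd.2 (Nat.not_dvd_of_pos_of_lt (by omega) hi.2)).symm hp.out.one_lt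
        have key : ∀ g : H, orderOf g = p → (g ^ i) ^ m = g := fun g hg => by
          rw [← pow_mul, ← pow_mod_orderOf, hg, hm.2, pow_one]
        have := key _ (hord y (hQG (Finset.mem_filter.1 hy).2))
        rw [mul_right_cancel e, key _ (hord y' (hQG (Finset.mem_filter.1 hy').2))] at this
        exact (mul_right_cancel this).symm
      have hbij : ∏ y ∈ Qs, c ((y * x) ^ i) v = ∏ k ∈ Qs, c (k * x ^ i) v := by
        refine Finset.prod_bij (fun y _ => (y * x) ^ i * (x ^ i)⁻¹) ?_ (fun a ha b hb e => hinj ha hb e) ?_ ?_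
        · intro y hy; simp only [Qs, Finset.mem_filter, Finset.mem_univ, true_and] at hy ⊢; exact hmem i y hy
        · intro k hk
          obtain ⟨y, hy, e⟩ := Finset.surj_on_of_inj_on_of_card_le (s := Qs) (t := Qs) (fun y _ => (y * x) ^ i * (x ^ i)⁻¹)
            (fun y hy => Finset.mem_filter.2 ⟨Finset.mem_univ _, hmem i y (Finset.mem_filter.1 hy).2⟩)
            (fun a b ha hb e => hinj ha hb e) le_rfl k hk
          exact ⟨y, hy, e.symm⟩
        · intro y _; rw [inv_mul_cancel_right]
      rw [hbij]
      simp only [hcc]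
      exact hnorm _
    rw [Finset.prod_eq_one h2, mul_one] at h1
    simpa only [pow_zero, hc1, Finset.prod_const, hQs] using h1
  obtain ⟨v, hv⟩ := V.ne_bot_iff_exists_ne_one.1 hV
  exact hv (orderOf_eq_one_iff.1 (Nat.eq_one_of_dvd_coprimes hco (orderOf_dvd_natCard v)
    (orderOf_dvd_of_pow_eq_one (hlast v))))

theorem isNilpotent_aux (p : ℕ) [hp : Fact p.Prime] (n : ℕ) : ∀ (H : Type u) [Group H] [Finite H],
    Nat.card H = n → ∀ G : Subgroup H, Split p G → Group.IsNilpotent G := by
  induction n using Nat.strong_induction_on with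
  | _ n ih =>
  intro H _ _ hn G h
  haveI hGn := h.1
  by_cases hp2 : p = 2
  · subst hp2
    letI : CommGroup G := { (inferInstance : Group G) with mul_comm := fun a b => Subtype.ext (commutative_two h a a.2 b b.2) }
    exact CommGroup.isNilpotent
  have hsub : ∀ L : Subgroup H, L ≤ G → L ≠ G → ∀ x ∉ G, x ∈ normalizer (L : Set H) → Group.IsNilpotent L := by
    intro L hL hne x hx hxn
    set M := L ⊔ zpowers x
    have hs := h.sub hL hx hxn
    have hcard : Nat.card M < n := by
      have h1 := (L.subgroupOf M).card_mul_index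
      rw [hs.2.1, Nat.card_congr (subgroupOfEquivOfLe le_sup_left).toEquiv] at h1
      rw [← h1, ← hn, ← G.card_mul_index, h.2.1]
      exact Nat.mul_lt_mul_of_pos_right (lt_of_le_of_ne (card_le_of_le hL) fun e => hne (eq_of_le_of_card_ge hL e.ge)) hp.out.pos
    have := ih _ hcard M rfl _ hs
    exact nilpotent_of_mulEquiv (subgroupOfEquivOfLe (le_sup_left : L ≤ M))
  obtain ⟨x₀, hx₀⟩ : ∃ x, x ∉ G := by
    by_contra hc
    push Not at hc
    have h2 := h.2.1
    rw [(eq_top_iff' G).2 hc, index_top] at h2
    exact hp.out.ne_one h2.symm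
  have hquo : ∀ N : Subgroup H, ∀ [N.Normal], N ≤ G → N ≠ ⊥ → Group.IsNilpotent (G.map (QuotientGroup.mk' N)) := by
    intro N _ hNG hN1
    refine ih _ ?_ (H ⧸ N) rfl _ (h.quotient N hNG)
    rw [← index_eq_card, ← hn, ← N.card_mul_index]
    exact lt_mul_of_one_lt_left (Nat.pos_of_ne_zero N.index_ne_zero_of_finite) (N.one_lt_card_iff_ne_bot.2 hN1)
  by_cases hpG : p ∣ Nat.card G
  swap
  · -- fixed-point-free
    refine H21.isNilpotent_of_fpf_action (MulAut.conjNormal (H := G)) hp.out (a := x₀) (h.2.2 x₀ hx₀) fun k hk => ?_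
    by_contra hk1
    have hcomm : Commute x₀ (k : H) := mul_inv_eq_iff_eq_mul.1 (congrArg Subtype.val hk)
    have hout : x₀ * k ∉ G := fun h' => hx₀ (by simpa using mul_mem h' (inv_mem k.2))
    have hk' : (k : H) ^ p = 1 := by
      have := h.2.2 _ hout
      rwa [hcomm.mul_pow, h.2.2 x₀ hx₀, one_mul] at this
    apply hpG
    rw [← orderOf_eq_prime (show (k : G) ^ p = 1 from Subtype.ext hk') hk1]
    exact orderOf_dvd_natCard k
  -- a nilpotent normal subgroup
  obtain ⟨N, hNn, hNG, hN1, hNnil⟩ : ∃ N : Subgroup H, N.Normal ∧ N ≤ G ∧ N ≠ ⊥ ∧ Group.IsSolvable N := by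
    obtain ⟨S⟩ : Nonempty (Sylow p H) := inferInstance
    obtain ⟨x, hxS, hxG⟩ : ∃ x ∈ (S : Subgroup H), x ∉ G := by
      by_contra hc
      push Not at hc
      refine S.not_dvd_index ?_
      rw [← relIndex_mul_index (show (S : Subgroup H) ≤ G from hc), h.2.1]
      exact dvd_mul_left p _
    set T := (S : Subgroup H) ⊓ G with hT
    have hxT : x ∈ normalizer (T : Set H) := by
      rw [mem_normalizer_iff_map_conj_eq]
      refine eq_of_le_of_card_ge ?_ (card_map_of_injective (MulAut.conj x).injective).ge
      rintro _ ⟨y, ⟨hy, hy'⟩, rfl⟩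
      exact ⟨(S : Subgroup H).mul_mem ((S : Subgroup H).mul_mem hxS hy) ((S : Subgroup H).inv_mem hxS), hGn.conj_mem y hy' x⟩
    have hidx : ¬ p ∣ (T.subgroupOf G).index := by
      change ¬ p ∣ T.relIndex G
      rw [hT, inf_relIndex_right]
      exact H22.sylow_not_dvd_relIndex_normal S G
    have hTp : IsPGroup p (T.subgroupOf G) := (S.2.to_le inf_le_left).comap_subtype
    let P₀ : Sylow p G := hTp.toSylow hidx
    have hP₀ : (P₀ : Subgroup G).map G.subtype = T := by
      rw [show (P₀ : Subgroup G) = T.subgroupOf G from IsPGroup.toSylow_coe hTp hidx, map_subgroupOf_eq_of_le inf_le_right]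
    by_cases hnpc : Cfsg.HasNormalPComplement p G
    · -- the complement, or a `p`-group
      haveI := H22.pResidual_characteristic (p := p) (G := G)
      set K := (Cfsg.pResidual p G).map G.subtype with hK
      haveI hKn : K.Normal := ConjAct.normal_of_characteristic_of_normal
      by_cases hK1 : K = ⊥
      · refine ⟨G, hGn, le_rfl, fun e => ?_, ?_⟩
        · rw [e, card_bot] at hpG; exact hp.out.ne_one (Nat.dvd_one.1 hpG)
        · obtain ⟨k, hk⟩ := H22.exists_index_pResidual_eq (G := G) (p := p)
          rw [(map_eq_bot_iff_of_injective _ G.subtype_injective).1 hK1, index_bot] at hk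
          have := (IsPGroup.of_card hk).isNilpotent
          infer_instance
      · refine ⟨K, hKn, map_subtype_le _, hK1, ?_⟩
        have hne : K ≠ G := fun e => by
          have := H22.hasNormalPComplement_iff.1 hnpc
          rw [← card_map_of_injective (K := Cfsg.pResidual p G) G.subtype_injective, ← hK, e] at this
          exact this hpG
        have := hsub K (map_subtype_le _) hne x hxG (by rw [normalizer_eq_top_iff.2 hKn]; exact mem_top x)
        infer_instance
    -- one of the two local subgroups is everything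
    set J := Cfsg.thompsonSubgroupOf p (P₀ : Subgroup G)
    set Z := (P₀ : Subgroup G) ⊓ centralizer ((P₀ : Subgroup G) : Set G)
    have hmain : normalizer (J : Set G) = ⊤ ∨ centralizer (Z : Set G) = ⊤ := by
      by_contra hc
      push Not at hc
      apply hnpc
      refine H23.thompson_normal_p_complement hp2 _ G rfl P₀ ⟨?_, ?_⟩
      · have := hsub ((normalizer (J : Set G)).map G.subtype) (map_subtype_le _) (fun e => hc.1 ?_) x hxG ?_
        · have := nilpotent_of_mulEquiv ((normalizer (J : Set G)).equivMapOfInjective _ G.subtype_injective).symm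
          exact H21.hasNormalPComplement_of_nilpotent p
        · rw [← (map_injective G.subtype_injective).eq_iff, e, ← MonoidHom.range_eq_map, range_subtype]
        · have hJ : J.map G.subtype = Cfsg.thompsonSubgroupOf p T := by
            rw [H23.map_thompsonSubgroupOf G.subtype _ G.subtype_injective.injOn, hP₀]
          rw [mem_normalizer_iff_map_conj_eq]
          refine eq_of_le_of_card_ge ?_ (card_map_of_injective (MulAut.conj x).injective).ge
          rintro _ ⟨_, ⟨g, hg, rfl⟩, rfl⟩
          refine ⟨MulAut.conjNormal x g, ?_, rfl⟩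
          rw [SetLike.mem_coe, mem_normalizer_iff_map_conj_eq] at hg ⊢
          apply map_injective G.subtype_injective
          have hconj : ∀ (k : G), (J.map (MulAut.conj k).toMonoidHom).map G.subtype = (J.map G.subtype).map (MulAut.conj (k : H)).toMonoidHom := by
            intro k; rw [map_map, map_map]; congr 1
          have hxJ : (Cfsg.thompsonSubgroupOf p T).map (MulAut.conj x).toMonoidHom = Cfsg.thompsonSubgroupOf p T := by
            rw [H23.map_thompsonSubgroupOf _ _ (MulAut.conj x).injective.injOn]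
            congr 1
            exact mem_normalizer_iff_map_conj_eq.1 hxT
          have hgJ : (Cfsg.thompsonSubgroupOf p T).map (MulAut.conj (g : H)).toMonoidHom = Cfsg.thompsonSubgroupOf p T := by
            rw [← hJ, ← hconj]; exact congrArg (Subgroup.map G.subtype) hg
          refine (hconj (MulAut.conjNormal x g)).trans ?_
          rw [hJ]
          have hN : x * (g : H) * x⁻¹ ∈ normalizer ((Cfsg.thompsonSubgroupOf p T : Subgroup H) : Set H) :=
            mul_mem (mul_mem (mem_normalizer_iff_map_conj_eq.2 hxJ) (mem_normalizer_iff_map_conj_eq.2 hgJ))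
              (inv_mem (mem_normalizer_iff_map_conj_eq.2 hxJ))
          exact mem_normalizer_iff_map_conj_eq.1 hN
      · have := hsub ((centralizer (Z : Set G)).map G.subtype) (map_subtype_le _) (fun e => hc.2 ?_) x hxG ?_
        · have := nilpotent_of_mulEquiv ((centralizer (Z : Set G)).equivMapOfInjective _ G.subtype_injective).symm
          exact H21.hasNormalPComplement_of_nilpotent p
        · rw [← (map_injective G.subtype_injective).eq_iff, e, ← MonoidHom.range_eq_map, range_subtype]
        · rw [mem_normalizer_iff_map_conj_eq]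
          refine eq_of_le_of_card_ge ?_ (card_map_of_injective (MulAut.conj x).injective).ge
          rintro _ ⟨_, ⟨g, hg, rfl⟩, rfl⟩
          refine ⟨MulAut.conjNormal x g, ?_, rfl⟩
          rw [SetLike.mem_coe, mem_centralizer_iff] at hg ⊢
          intro z hz
          have hz' : MulAut.conjNormal x⁻¹ z ∈ Z := by
            have hmemP : ∀ w : G, w ∈ (P₀ : Subgroup G) ↔ (w : H) ∈ T := fun w => by
              rw [show (P₀ : Subgroup G) = T.subgroupOf G from IsPGroup.toSylow_coe hTp hidx, mem_subgroupOf]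
            have hxi : ∀ w : G, w ∈ (P₀ : Subgroup G) → MulAut.conjNormal x w ∈ (P₀ : Subgroup G) := fun w hw =>
              (hmemP _).2 ((mem_normalizer_iff.1 hxT _).1 ((hmemP w).1 hw))
            refine ⟨(hmemP _).2 ?_, mem_centralizer_iff.2 fun w hw => ?_⟩
            · rw [MulAut.conjNormal_apply]
              exact (mem_normalizer_iff.1 (inv_mem hxT) _).1 ((hmemP z).1 hz.1)
            · apply (MulAut.conjNormal (H := G) x).injective
              have hzz : MulAut.conjNormal x (MulAut.conjNormal x⁻¹ z) = z := by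
                rw [← MulAut.mul_apply, ← map_mul, mul_inv_cancel, map_one, MulAut.one_apply]
              rw [map_mul, map_mul, hzz]
              exact mem_centralizer_iff.1 hz.2 _ (hxi w hw)
          have h1 := congrArg (MulAut.conjNormal (H := G) x) (hg _ hz')
          have hzz : MulAut.conjNormal x (MulAut.conjNormal x⁻¹ z) = z := by
            rw [← MulAut.mul_apply, ← map_mul, mul_inv_cancel, map_one, MulAut.one_apply]
          rwa [map_mul, map_mul, hzz] at h1
    -- a normal `p`-subgroup
    obtain ⟨U, hUn, hUT, hU1⟩ : ∃ U : Subgroup G, U.Normal ∧ U ≤ (P₀ : Subgroup G) ∧ U ≠ ⊥ := by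
      have hP1 : (P₀ : Subgroup G) ≠ ⊥ := P₀.ne_bot_of_dvd_card hpG
      rcases hmain with e | e
      · exact ⟨J, normalizer_eq_top_iff.1 e, H23.thompsonSubgroupOf_le _, H23.thompsonSubgroupOf_ne_bot P₀.2 hP1⟩
      · refine ⟨Z, ?_, inf_le_left, H23.inf_centralizer_ne_bot P₀.2 hP1⟩
        refine ⟨fun z hz g => ?_⟩
        have hc := mem_centralizer_iff.1 (show g ∈ centralizer (Z : Set G) from e ▸ mem_top g) z hz
        rwa [← hc, mul_inv_cancel_right]
    haveI := H19.pCore_characteristic p G
    refine ⟨(Cfsg.pCore p G).map G.subtype, ConjAct.normal_of_characteristic_of_normal, map_subtype_le _, fun e => hU1 ?_, ?_⟩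
    · exact le_bot_iff.1 ((H19.le_pCore hUn (P₀.2.to_le hUT)).trans ((map_eq_bot_iff_of_injective _ G.subtype_injective).1 e).le)
    · have := ((H19.pCore_isPGroup (G := G) p).map G.subtype).isNilpotent
      infer_instance
  -- a minimal normal subgroup
  obtain ⟨A, r, hAn, hAN, hA1, hAc, hr, hAr, -⟩ := H19.exists_normal_elementary_le N hNnil hN1
  obtain ⟨V, ⟨hVn, hVA, hV1⟩, hVmin⟩ := wellFounded_lt.has_min {V : Subgroup H | V.Normal ∧ V ≤ A ∧ V ≠ ⊥} ⟨A, hAn, le_rfl, hA1⟩
  have hVG : V ≤ G := hVA.trans (hAN.trans hNG)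
  have : IsMulCommutative V := ⟨⟨fun a b => Subtype.ext
    (congrArg Subtype.val (hAc.is_comm.comm ⟨a, hVA a.2⟩ ⟨b, hVA b.2⟩) :)⟩⟩
  have hVr : IsPGroup r V := hAr.to_le hVA
  have := Fact.mk hr
  have hbar := hquo V hVG hV1
  refine (Group.isNilpotent_of_finite_tfae.out 3 0 rfl rfl).mp fun s hs Q => ?_
  have := Fact.mk hs.out
  -- the product with `V` is normal
  set φ : G →* G.map (QuotientGroup.mk' V) := (QuotientGroup.mk' V).subgroupMap G
  have hφ : Function.Surjective φ := (QuotientGroup.mk' V).subgroupMap_surjective G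
  have hker : φ.ker = V.subgroupOf G := by
    ext z
    rw [MonoidHom.mem_ker, mem_subgroupOf, ← QuotientGroup.eq_one_iff]
    exact ⟨fun e => congrArg Subtype.val e, fun e => Subtype.ext e⟩
  have hQbar : ((Q.mapSurjective hφ : Sylow s (G.map (QuotientGroup.mk' V))).toSubgroup).Normal := inferInstance
  rw [Sylow.coe_mapSurjective] at hQbar
  have hQV : ((Q : Subgroup G) ⊔ V.subgroupOf G).Normal := by
    have := hQbar.comap φ
    rwa [comap_map_eq, hker] at this
  by_cases hrs : s = r
  · subst hrs
    have hle : V.subgroupOf G ≤ (Q : Subgroup G) := by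
      have h1 := Q.3 (Q.2.to_sup_of_normal_right (hVr.comap_subtype (K := G))) le_sup_left
      exact h1 ▸ le_sup_right
    rwa [sup_eq_left.2 hle] at hQV
  by_contra hQn
  -- an element normalizing `Q`
  set Q' := (Q : Subgroup G).map G.subtype with hQ'
  obtain ⟨x, hxG, hxQ⟩ : ∃ x, x ∉ G ∧ x ∈ normalizer (Q' : Set H) := by
    by_contra hc
    push Not at hc
    have h1 : normalizer (Q' : Set H) ≤ G := fun y hy => by by_contra hy'; exact hc y hy' hy
    have h2 := Q.normalizer_sup_eq_top
    rw [← hQ', sup_eq_right.2 h1] at h2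
    exact hx₀ (h2 ▸ mem_top x₀)
  set L := Q' ⊔ V with hL
  have hLG : L ≤ G := sup_le (map_subtype_le _) hVG
  have hLmap : ((Q : Subgroup G) ⊔ V.subgroupOf G).map G.subtype = L := by
    rw [Subgroup.map_sup, map_subgroupOf_eq_of_le hVG]
  have hxL : x ∈ normalizer (L : Set H) := by
    rw [mem_normalizer_iff_map_conj_eq, hL, Subgroup.map_sup, mem_normalizer_iff_map_conj_eq.1 hxQ]
    congr 1
    exact mem_normalizer_iff_map_conj_eq.1 (by rw [normalizer_eq_top_iff.2 hVn]; exact mem_top x)
  by_cases hLe : L = G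
  · have hfix : ∀ v ∈ V, (∀ y ∈ Q', y * v = v * y) → v = 1 := by
      set W := V ⊓ centralizer (Q' : Set H) with hW
      have hWn : W.Normal := by
        refine normal_of_le_normalizer h hxG ?_ ?_
        · rw [← hLe]
          refine sup_le (fun y hy => ?_) (fun y hy => ?_) <;>
          · rw [mem_normalizer_iff_map_conj_eq]
            refine eq_of_le_of_card_ge ?_ (card_map_of_injective (MulAut.conj y).injective).ge
            rintro _ ⟨w, ⟨hwV, hwC⟩, rfl⟩
            show y * w * y⁻¹ ∈ W
            have hyw : y * w = w * y := by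
              first
                | exact mem_centralizer_iff.1 hwC y hy
                | exact congrArg Subtype.val ((inferInstance : IsMulCommutative V).is_comm.comm ⟨y, hy⟩ ⟨w, hwV⟩)
            rw [hyw, mul_inv_cancel_right]; exact ⟨hwV, hwC⟩
        · rw [mem_normalizer_iff_map_conj_eq, hW, Subgroup.map_inf _ _ _ (MulAut.conj x).injective]
          congr 1
          · exact mem_normalizer_iff_map_conj_eq.1 (by rw [normalizer_eq_top_iff.2 hVn]; exact mem_top x)
          · refine eq_of_le_of_card_ge ?_ (card_map_of_injective (MulAut.conj x).injective).ge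
            rintro _ ⟨w, hw, rfl⟩
            rw [mem_centralizer_iff]
            intro y hy
            have hy' : x⁻¹ * y * x ∈ Q' := (mem_normalizer_iff''.1 hxQ y).1 hy
            show y * (x * w * x⁻¹) = x * w * x⁻¹ * y
            calc y * (x * w * x⁻¹) = x * (x⁻¹ * y * x * w) * x⁻¹ := by group
              _ = x * (w * (x⁻¹ * y * x)) * x⁻¹ := by rw [mem_centralizer_iff.1 hw _ hy']
              _ = _ := by group
      intro v hv hvc
      have hvW : v ∈ W := ⟨hv, mem_centralizer_iff.2 hvc⟩
      by_cases hW1 : W = ⊥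
      · exact mem_bot.1 (hW1 ▸ hvW)
      exfalso
      have hWV : W = V := by
        by_contra hne
        exact hVmin W ⟨hWn, inf_le_left.trans hVA, hW1⟩ (lt_of_le_of_ne inf_le_left hne)
      apply hQn
      rw [← normalizer_eq_top_iff, eq_top_iff]
      have hsupG : (Q : Subgroup G) ⊔ V.subgroupOf G = ⊤ := by
        apply map_injective G.subtype_injective
        rw [hLmap, ← MonoidHom.range_eq_map, range_subtype, hLe]
      rw [← hsupG]
      refine sup_le le_normalizer fun y hy => ?_
      rw [mem_normalizer_iff_map_conj_eq]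
      refine eq_of_le_of_card_ge ?_ (card_map_of_injective (MulAut.conj y).injective).ge
      rintro _ ⟨w, hw, rfl⟩
      have hyW : (y : H) ∈ W := by rw [hWV]; exact hy
      have hc : (w : H) * (y : H) = (y : H) * w := mem_centralizer_iff.1 hyW.2 _ (mem_map_of_mem _ hw)
      show y * w * y⁻¹ ∈ _
      rw [show y * w = w * y from Subtype.ext hc.symm, mul_inv_cancel_right]; exact hw
    refine false_of_sum h V hVG Q' (map_subtype_le _) hxG hxQ hfix hV1 ?_
    obtain ⟨i, hi⟩ := hVr.exists_card_eq
    obtain ⟨j, hj⟩ := Q.2.exists_card_eq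
    rw [hi, hQ', card_map_of_injective G.subtype_injective, hj]
    exact ((Nat.coprime_primes hr hs.out).2 (Ne.symm hrs)).pow i j
  · have := hsub L hLG hLe x hxG hxL
    apply hQn
    set M := (Q : Subgroup G) ⊔ V.subgroupOf G
    have : Group.IsNilpotent M := nilpotent_of_mulEquiv
      ((M.equivMapOfInjective _ G.subtype_injective).trans (MulEquiv.subgroupCongr hLmap)).symm
    have hQM : ((Q : Subgroup G).subgroupOf M).Normal := by
      rw [← Sylow.coe_subtype (h := (le_sup_left : (Q : Subgroup G) ≤ M))]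
      exact (Group.isNilpotent_of_finite_tfae.out 0 3 rfl rfl).mp inferInstance s inferInstance _
    haveI : ((Q : Subgroup G).subgroupOf M).Characteristic := by
      rw [← Sylow.coe_subtype (h := (le_sup_left : (Q : Subgroup G) ≤ M))] at hQM ⊢
      exact Sylow.characteristic_of_normal _ hQM
    haveI : M.Normal := hQV
    rw [← map_subgroupOf_eq_of_le (le_sup_left : (Q : Subgroup G) ≤ M)]
    exact ConjAct.normal_of_characteristic_of_normal

end Cfsg.Agent.H86.Kegel
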