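import Cfsg.Agent.H86.WreathDerived
import Cfsg.Agent.H86.LinearDerived
import Mathlib.FieldTheory.IsAlgClosed.AlgebraicClosure
import Mathlib.FieldTheory.Finite.Basic
import Mathlib.LinearAlgebra.Matrix.GeneralLinearGroup.Card
import Mathlib.LinearAlgebra.Matrix.ToLin

/-!
Derived length of linear `p`-groups over finite fields of coprime characteristic.
-/

namespace Cfsg.Agent.H86

open Module
open scoped commutatorElement

universe u v w

variable {K : Type u} [Field K] {V : Type v} [AddCommGroup V] [Module K V]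

/-- Independent subspaces of dimension at least `d` fit into the space. -/
theorem mul_finrank_le [FiniteDimensional K V] {m : ℕ} (f : Fin m → Submodule K V)
    (hf : iSupIndep f) (d : ℕ) (hd : ∀ j, d ≤ finrank K (f j)) : m * d ≤ finrank K V := by
  suffices key : ∀ s : Finset (Fin m), s.card * d ≤ finrank K (⨆ j ∈ s, f j : Submodule K V) by
    have := (key Finset.univ).trans (Submodule.finrank_le _)
    rwa [Finset.card_univ, Fintype.card_fin] at this
  intro s
  induction s using Finset.induction_on with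
  | empty => simp
  | @insert j s hj ih =>
    have hdis : Disjoint (f j) (⨆ i ∈ s, f i) := hf.disjoint_biSup (y := ↑s) hj
    have h6 := Submodule.finrank_sup_add_finrank_inf_eq (f j) (⨆ i ∈ s, f i)
    rw [hdis.eq_bot, finrank_bot, add_zero] at h6
    rw [Finset.iSup_insert, h6, Finset.card_insert_of_notMem hj, Nat.succ_mul]
    have := hd j
    omega

/-- In coprime characteristic a `p`-group acting linearly has derived length at most `log_p n + 1`. -/
theorem derived_trivial_logp [IsAlgClosed K] {p : ℕ} [hp : Fact p.Prime] (hpK : (p : K) ≠ 0) (n : ℕ) :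
    ∀ (V : Type v) [AddCommGroup V] [Module K V] [FiniteDimensional K V], finrank K V = n →
      ∀ (P : Type w) [Group P] [Finite P], IsPGroup p P → ∀ ρ : P →* End K V,
        ∀ x ∈ derivedSeries P (Nat.log p n + 1), ρ x = 1 := by
  induction n using Nat.strong_induction_on with
  | _ n ih =>
  intro V _ _ _ hn P _ _ hP ρ x hx
  have hdiag : ∀ g : P, ⨆ μ : K, (ρ g).eigenspace μ = ⊤ := by
    intro g
    obtain ⟨k, hk⟩ := hP g
    have hss : (ρ g).IsSemisimple :=
      Module.End.isSemisimple_of_squarefree_aeval_eq_zero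
        (Polynomial.separable_X_pow_sub_C (1 : K) (n := p ^ k) (by rw [Nat.cast_pow]; exact pow_ne_zero k hpK) one_ne_zero).squarefree
        (by rw [map_sub, map_pow, Polynomial.aeval_X, Polynomial.aeval_C, map_one, ← map_pow, hk, map_one, sub_self])
    simp_rw [← hss.isFinitelySemisimple.maxGenEigenspace_eq_eigenspace]
    exact Module.End.iSup_maxGenEigenspace_eq_top (ρ g)
  -- a central nonscalar image
  by_cases hcen : ∃ z : P, (∀ g, Commute (ρ g) (ρ z)) ∧ ∀ μ : K, (ρ z).eigenspace μ ≠ ⊤
  · obtain ⟨z, hz, hzne⟩ := hcen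
    have hle : derivedSeries P (Nat.log p n + 1) ≤ actTrivially ρ := by
      intro g hg
      show ρ g = 1
      rw [← sub_eq_zero, ← LinearMap.ker_eq_top, ← top_le_iff, ← hdiag z, iSup_le_iff]
      intro μ y hy
      have hinv : ∀ g, ∀ y ∈ (ρ z).eigenspace μ, ρ g y ∈ (ρ z).eigenspace μ := by
        intro g y hy
        rw [Module.End.mem_eigenspace_iff] at hy ⊢
        rw [← Module.End.mul_apply, ← (hz g).eq, Module.End.mul_apply, hy, map_smul]
      have hlt : finrank K ((ρ z).eigenspace μ) < n := hn ▸ Submodule.finrank_lt (hzne μ)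
      have e := ih _ hlt _ rfl P hP (restrictRep ρ _ hinv) g
        (derivedSeries_antitone _ (Nat.add_le_add_right (Nat.log_mono_right hlt.le) 1) hg)
      rw [LinearMap.mem_ker, LinearMap.sub_apply, sub_eq_zero]
      exact congrArg Subtype.val (LinearMap.congr_fun e ⟨y, hy⟩)
    exact hle hx
  push Not at hcen
  -- now central images are scalars
  by_cases hab : ∀ a g : P, Commute (ρ g) (ρ a)
  · have h1 : derivedSeries P 1 ≤ actTrivially ρ := by
      rw [derivedSeries_one, commutator_def, Subgroup.commutator_le]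
      intro a _ b _
      show ρ ⁅a, b⁆ = 1
      rw [commutatorElement_def, map_mul, map_mul, map_mul, (hab b a).eq, mul_assoc (ρ b) (ρ a), ← map_mul ρ a,
        mul_inv_cancel, map_one, mul_one, ← map_mul, mul_inv_cancel, map_one]
    exact h1 (derivedSeries_antitone _ (Nat.le_add_left 1 _) hx)
  let Z : Subgroup P :=
    { carrier := {a | ∀ g, Commute (ρ g) (ρ a)}
      one_mem' := fun g => by rw [map_one]; exact Commute.one_right _
      mul_mem' := fun {a b} ha hb g => by rw [map_mul]; exact (ha g).mul_right (hb g)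
      inv_mem' := fun {a} ha g => by
        show ρ g * ρ a⁻¹ = ρ a⁻¹ * ρ g
        calc ρ g * ρ a⁻¹ = ρ a⁻¹ * (ρ a * ρ g) * ρ a⁻¹ := by
              rw [← mul_assoc (ρ a⁻¹), ← map_mul ρ a⁻¹, inv_mul_cancel, map_one, one_mul]
          _ = ρ a⁻¹ * ρ g := by
              rw [← (ha g).eq, mul_assoc, mul_assoc (ρ g), ← map_mul ρ a, mul_inv_cancel, map_one, mul_one] }
  have hZn : Z.Normal := by
    refine ⟨fun a ha u g => ?_⟩
    have h1 : ρ (u * a * u⁻¹) = ρ a := by
      rw [map_mul, map_mul, (ha u).eq, mul_assoc, ← map_mul, mul_inv_cancel, map_one, mul_one]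
    rw [h1]; exact ha g
  have hZne : Z ≠ ⊤ := fun h => hab fun a g => (h ▸ Subgroup.mem_top a : a ∈ Z) g
  have : Nontrivial (P ⧸ Z) := QuotientGroup.nontrivial_iff.2 hZne
  have hcq := (hP.to_quotient Z).center_nontrivial
  obtain ⟨⟨a', ha'⟩, ha1⟩ := exists_ne (1 : Subgroup.center (P ⧸ Z))
  obtain ⟨a, rfl⟩ := QuotientGroup.mk'_surjective Z a'
  have haZ : a ∉ Z := fun h => ha1 (Subtype.ext ((QuotientGroup.eq_one_iff a).2 h))
  have hsc : ∀ g : P, ∃ c : K, c ≠ 0 ∧ ρ g * ρ a = c • (ρ a * ρ g) ∧ ∃ i : ℕ, c ^ p ^ i = 1 := by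
    intro g
    have h1 : ⁅g, a⁆ ∈ Z := by
      rw [← QuotientGroup.eq_one_iff]
      show QuotientGroup.mk' Z ⁅g, a⁆ = 1
      rw [map_commutatorElement, commutatorElement_eq_one_iff_mul_comm]
      exact Subgroup.mem_center_iff.1 ha' _
    obtain ⟨μ, hμ⟩ := hcen _ h1
    have hμ' : ∀ y, ρ ⁅g, a⁆ y = μ • y := fun y => Module.End.mem_eigenspace_iff.1 (hμ ▸ Submodule.mem_top)
    have e : ρ g * ρ a = μ • (ρ a * ρ g) := by
      refine LinearMap.ext fun y => ?_
      rw [LinearMap.smul_apply, ← hμ', ← map_mul, ← map_mul, ← Module.End.mul_apply, ← map_mul]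
      congr 2
      rw [commutatorElement_def]; group
    rcases subsingleton_or_nontrivial V with hs | hnt
    · exact ⟨1, one_ne_zero, LinearMap.ext fun y => Subsingleton.elim _ _, 0, one_pow _⟩
    obtain ⟨y, hy⟩ := exists_ne (0 : V)
    have hpow : ∀ j : ℕ, ρ (⁅g, a⁆ ^ j) y = μ ^ j • y := by
      intro j
      induction j with
      | zero => simp
      | succ j ihj => rw [pow_succ', map_mul, Module.End.mul_apply, ihj, map_smul, hμ', smul_smul, pow_succ]
    refine ⟨μ, fun h0 => ?_, e, ?_⟩
    · have h1 := hμ' y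
      rw [h0, zero_smul] at h1
      apply hy
      calc y = ρ (⁅g, a⁆⁻¹ * ⁅g, a⁆) y := by rw [inv_mul_cancel, map_one, Module.End.one_apply]
        _ = 0 := by rw [map_mul, Module.End.mul_apply, h1, map_zero]
    · obtain ⟨i, hi⟩ := hP ⁅g, a⁆
      refine ⟨i, ?_⟩
      have h1 := hpow (p ^ i)
      rw [hi, map_one, Module.End.one_apply] at h1
      exact smul_left_injective K hy (h1.symm.trans (one_smul K y).symm)
  let C : Subgroup P :=
    { carrier := {g | Commute (ρ g) (ρ a)}
      one_mem' := by show Commute (ρ 1) (ρ a); rw [map_one]; exact Commute.one_left _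
      mul_mem' := fun {g h} hg hh => by show Commute (ρ (g * h)) (ρ a); rw [map_mul]; exact hg.mul_left hh
      inv_mem' := fun {g} (hg : ρ g * ρ a = ρ a * ρ g) => by
        show ρ g⁻¹ * ρ a = ρ a * ρ g⁻¹
        calc ρ g⁻¹ * ρ a = ρ g⁻¹ * (ρ a * ρ g) * ρ g⁻¹ := by
              rw [mul_assoc, mul_assoc (ρ a), ← map_mul ρ g, mul_inv_cancel, map_one, mul_one]
          _ = ρ a * ρ g⁻¹ := by
              rw [← hg, ← mul_assoc (ρ g⁻¹), ← map_mul ρ g⁻¹, inv_mul_cancel, map_one, one_mul] }
  have hC : commutator P ≤ C := by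
    rw [commutator_def, Subgroup.commutator_le]
    intro g _ h _
    obtain ⟨c, hc0, hc, -⟩ := hsc g
    obtain ⟨d, hd0, hd, -⟩ := hsc h
    show ρ ⁅g, h⁆ * ρ a = ρ a * ρ ⁅g, h⁆
    have hcomm : ρ (g * h) * ρ a = ρ a * ((c * d) • ρ (g * h)) := by
      rw [map_mul, mul_assoc, hd, mul_smul_comm, ← mul_assoc, hc, smul_mul_assoc, smul_smul, mul_comm d c,
        mul_assoc, mul_smul_comm]
    have hcomm' : ρ (h * g) * ρ a = ρ a * ((c * d) • ρ (h * g)) := by
      rw [map_mul, mul_assoc, hc, mul_smul_comm, ← mul_assoc, hd, smul_mul_assoc, smul_smul,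
        mul_assoc, mul_smul_comm]
    have e : ⁅g, h⁆ * (h * g) = g * h := by rw [commutatorElement_def]; group
    have e2 : ρ ⁅g, h⁆ * ρ a * ((c * d) • ρ (h * g)) = ρ a * ρ ⁅g, h⁆ * ((c * d) • ρ (h * g)) := by
      rw [mul_assoc, ← hcomm', ← mul_assoc, ← map_mul, e, hcomm, mul_assoc (ρ a),
        mul_smul_comm (c * d) (ρ ⁅g, h⁆), ← map_mul, e]
    have e3 : ((c * d) • ρ (h * g)) * ((c * d)⁻¹ • ρ (h * g)⁻¹) = 1 := by
      rw [smul_mul_smul_comm, mul_inv_cancel₀ (mul_ne_zero hc0 hd0), ← map_mul, mul_inv_cancel, map_one, one_smul]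
    have e4 := congrArg (· * ((c * d)⁻¹ • ρ (h * g)⁻¹)) e2
    simp only [mul_assoc, e3, mul_one] at e4
    exact e4
  obtain ⟨h, hh⟩ : ∃ h, h ∉ C := by
    by_contra hc
    push Not at hc
    exact haZ fun g => hc g
  obtain ⟨c, hc0, hc, i, hci⟩ := hsc h
  have hc1 : c ≠ 1 := fun h1 => hh (by rw [h1, one_smul] at hc; exact hc)
  have hcne : ∀ j, 0 < j → j < p → c ^ j ≠ 1 := by
    intro j hj0 hjp hj1
    have hco : Nat.Coprime j (p ^ i) :=
      ((hp.out.coprime_iff_not_dvd.2 fun hd => by have := Nat.le_of_dvd hj0 hd; omega).symm).pow_right i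
    exact hc1 (orderOf_eq_one_iff.1 (Nat.eq_one_of_dvd_coprimes hco (orderOf_dvd_of_pow_eq_one hj1)
      (orderOf_dvd_of_pow_eq_one hci)))
  have hinjh : Function.Injective (ρ h) := fun y z hyz => by
    have h4 : ρ (h⁻¹ * h) y = ρ (h⁻¹ * h) z := by rw [map_mul, Module.End.mul_apply, hyz, ← Module.End.mul_apply]
    simpa using h4
  have hstep : ∀ μ : K, finrank K ((ρ a).eigenspace μ) ≤ finrank K ((ρ a).eigenspace (c⁻¹ * μ)) := by
    intro μ
    rw [(Submodule.equivMapOfInjective (ρ h) hinjh _).finrank_eq]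
    refine Submodule.finrank_mono ?_
    rintro _ ⟨y, hy, rfl⟩
    rw [SetLike.mem_coe, Module.End.mem_eigenspace_iff] at hy
    rw [Module.End.mem_eigenspace_iff]
    have h3 := LinearMap.congr_fun hc y
    rw [LinearMap.smul_apply, Module.End.mul_apply, Module.End.mul_apply, hy, map_smul] at h3
    rw [mul_smul, h3, smul_smul, inv_mul_cancel₀ hc0, one_smul]
  have hsmall : ∀ μ : K, p * finrank K ((ρ a).eigenspace μ) ≤ n := by
    intro μ
    by_cases hμ : μ = 0
    · subst hμ
      have hb : (ρ a).eigenspace 0 = ⊥ := by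
        rw [eq_bot_iff]
        intro y hy
        rw [Module.End.mem_eigenspace_iff, zero_smul] at hy
        rw [Submodule.mem_bot]
        calc y = ρ (a⁻¹ * a) y := by rw [inv_mul_cancel, map_one, Module.End.one_apply]
          _ = 0 := by rw [map_mul, Module.End.mul_apply, hy, map_zero]
      rw [hb, finrank_bot, mul_zero]; exact Nat.zero_le _
    have hle : ∀ j : ℕ, finrank K ((ρ a).eigenspace μ) ≤ finrank K ((ρ a).eigenspace (c⁻¹ ^ j * μ)) := by
      intro j
      induction j with
      | zero => rw [pow_zero, one_mul]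
      | succ j ihj => rw [pow_succ', mul_assoc]; exact ihj.trans (hstep _)
    have hinj : Function.Injective fun j : Fin p => c⁻¹ ^ (j : ℕ) * μ := by
      intro u v huv
      have h1 : c ^ (u : ℕ) = c ^ (v : ℕ) := by
        have := mul_right_cancel₀ hμ huv
        rw [inv_pow, inv_pow, inv_inj] at this
        exact this
      have key : ∀ u v : Fin p, (u : ℕ) < v → c ^ (u : ℕ) ≠ c ^ (v : ℕ) := by
        intro u v huv e
        refine hcne ((v : ℕ) - u) (by omega) (by omega) ?_
        apply mul_left_cancel₀ (pow_ne_zero (u : ℕ) hc0)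
        rw [← pow_add, mul_one, Nat.add_sub_cancel' huv.le, e]
      rcases lt_trichotomy (u : ℕ) (v : ℕ) with hlt | he | hlt
      · exact absurd h1 (key u v hlt)
      · exact Fin.ext he
      · exact absurd h1.symm (key v u hlt)
    refine hn ▸ mul_finrank_le (fun j : Fin p => (ρ a).eigenspace (c⁻¹ ^ (j : ℕ) * μ))
      ((ρ a).eigenspaces_iSupIndep.comp hinj) _ (fun j => hle j)
  have hnp : p ≤ n := by
    by_contra hlt
    apply hh
    have hall : ∀ μ : K, (ρ a).eigenspace μ = ⊥ := fun μ =>
      Submodule.finrank_eq_zero.1 (by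
        by_contra h0
        have h1 := Nat.le_mul_of_pos_right p (Nat.pos_of_ne_zero h0)
        have := hsmall μ
        omega)
    have h8 := hdiag a
    simp only [hall, iSup_bot] at h8
    have : Subsingleton (Submodule K V) := subsingleton_iff_bot_eq_top.1 h8
    have : Subsingleton V := (Submodule.subsingleton_iff K).1 this
    exact LinearMap.ext fun y => Subsingleton.elim _ _
  have hlog : Nat.log p n = Nat.log p (n / p) + 1 := by
    rw [Nat.log_div_base, Nat.sub_add_cancel (Nat.log_pos hp.out.one_lt hnp)]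
  obtain ⟨⟨x', hxC⟩, hx', rfl⟩ := derivedSeries_succ_le_map C hC (Nat.log p n) hx
  rw [← sub_eq_zero, ← LinearMap.ker_eq_top, ← top_le_iff, ← hdiag a, iSup_le_iff]
  intro μ y hy
  have hinv : ∀ g : C, ∀ y ∈ (ρ a).eigenspace μ, ρ.comp C.subtype g y ∈ (ρ a).eigenspace μ := by
    intro g y hy
    rw [Module.End.mem_eigenspace_iff] at hy ⊢
    show ρ a (ρ (g : P) y) = μ • ρ (g : P) y
    rw [← Module.End.mul_apply, ← (show ρ (g : P) * ρ a = ρ a * ρ (g : P) from g.2), Module.End.mul_apply, hy, map_smul]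
  have hle2 : finrank K ((ρ a).eigenspace μ) ≤ n / p := by
    rw [Nat.le_div_iff_mul_le hp.out.pos, mul_comm]; exact hsmall μ
  have hlt : finrank K ((ρ a).eigenspace μ) < n :=
    hle2.trans_lt (Nat.div_lt_self (hp.out.pos.trans_le hnp) hp.out.one_lt)
  rw [hlog] at hx'
  have e := ih _ hlt _ rfl C (hP.to_subgroup C) (restrictRep (ρ.comp C.subtype) _ hinv) ⟨x', hxC⟩
    (derivedSeries_antitone _ (Nat.add_le_add_right (Nat.log_mono_right hle2) 1) hx')
  rw [LinearMap.mem_ker, LinearMap.sub_apply, sub_eq_zero]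
  exact congrArg Subtype.val (LinearMap.congr_fun e ⟨y, hy⟩)

section FiniteField

set_option maxHeartbeats 1000000

variable {F : Type u} [Field F] [Fintype F] {p : ℕ} [hp : Fact p.Prime]

omit [Fintype F] in
theorem pow_card_unipotent {V : Type v} [AddCommGroup V] [Module F V] (hpF : (p : F) ≠ 0)
    (T : End F V) (hT : ∃ k, T ^ p ^ k = 1) (h : (T - 1) * (T - 1) = 0) : T = 1 := by
  obtain ⟨k, hk⟩ := hT
  have key : ∀ j : ℕ, T ^ j = 1 + j • (T - 1) := by
    intro j
    induction j with
    | zero => simp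
    | succ j ih =>
      have hT' : T = 1 + (T - 1) := by abel
      rw [pow_succ, ih]
      conv_lhs => arg 2; rw [hT']
      rw [mul_add, mul_one, add_mul, one_mul, smul_mul_assoc, h, smul_zero, add_zero, succ_nsmul]
      abel
  have h1 := key (p ^ k)
  rw [hk, left_eq_add, ← Nat.cast_smul_eq_nsmul F] at h1
  rcases smul_eq_zero.1 h1 with h2 | h2
  · rw [Nat.cast_pow] at h2
    exact absurd h2 (pow_ne_zero k hpF)
  · exact sub_eq_zero.1 h2

/-- An eigenspace for a `p`-th root of unity of a rational matrix has dimension at most `n / e`. -/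
theorem eigenspace_bound {L : Type*} [Field L] [Algebra F L] [Algebra.IsAlgebraic F L] {q n : ℕ}
    (hq : Fintype.card F = q) (A : Matrix (Fin n) (Fin n) F) {μ : L} (hμ : orderOf μ = p) :
    orderOf (q : ZMod p) *
      finrank L (Module.End.eigenspace (Matrix.toLin' (A.map (algebraMap F L))) μ) ≤ n := by
  classical
  set T := Matrix.toLin' (A.map (algebraMap F L)) with hTdef
  set e := orderOf (q : ZMod p)
  let φ : L →ₐ[F] L := FiniteField.frobeniusAlgHom F L
  have hφ : Function.Bijective φ := Algebra.IsAlgebraic.algHom_bijective φ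
  have hφq : ∀ c : L, φ c = c ^ q := fun c => by rw [← hq]; rfl
  let j : (Fin n → L) →+ (Fin n → L) := φ.toRingHom.toAddMonoidHom.compLeft (Fin n)
  have hja : ∀ y i, j y i = φ (y i) := fun y i => rfl
  have hj : ∀ y, j (T y) = T (j y) := by
    intro y
    funext i
    rw [hja, hTdef, Matrix.toLin'_apply, Matrix.toLin'_apply]
    have h1 := RingHom.map_mulVec φ.toRingHom (A.map (algebraMap F L)) y i
    rw [Matrix.map_map, show (⇑φ.toRingHom ∘ ⇑(algebraMap F L)) = ⇑(algebraMap F L) from
      funext fun c => φ.commutes c] at h1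
    exact h1
  have hjs : ∀ (c : L) (y : Fin n → L), j (c • y) = φ c • j y := fun c y => by
    funext i
    rw [hja, Pi.smul_apply, Pi.smul_apply, smul_eq_mul, smul_eq_mul, map_mul, hja]
  have hjinj : Function.Injective j := fun y y' h => funext fun i => hφ.1 (congrFun h i)
  have hfrob : ∀ ν : L, finrank L (Module.End.eigenspace T ν) ≤ finrank L (Module.End.eigenspace T (ν ^ q)) := by
    intro ν
    let B := Module.finBasis L (Module.End.eigenspace T ν)
    have hli : LinearIndependent L (fun i => ((B i : Module.End.eigenspace T ν) : Fin n → L)) :=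
      B.linearIndependent.map' _ (Submodule.ker_subtype _)
    have hli' : LinearIndependent L (fun i => j ((B i : Module.End.eigenspace T ν) : Fin n → L)) :=
      hli.map_of_surjective_injective φ j hφ.2 (fun m hm => hjinj (hm.trans (map_zero j).symm)) hjs
    have hmem : ∀ i, j ((B i : Module.End.eigenspace T ν) : Fin n → L) ∈ Module.End.eigenspace T (ν ^ q) := by
      intro i
      rw [Module.End.mem_eigenspace_iff, ← hj, Module.End.mem_eigenspace_iff.1 (B i).2, hjs, hφq]
    have hli'' : LinearIndependent L (fun i => (⟨_, hmem i⟩ : Module.End.eigenspace T (ν ^ q))) :=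
      LinearIndependent.of_comp (Submodule.subtype _) hli'
    simpa using hli''.fintype_card_le_finrank
  have hle : ∀ i : ℕ, finrank L (Module.End.eigenspace T μ) ≤ finrank L (Module.End.eigenspace T (μ ^ q ^ i)) := by
    intro i
    induction i with
    | zero => rw [pow_zero, pow_one]
    | succ i ihi => rw [pow_succ, pow_mul]; exact ihi.trans (hfrob _)
  have hinjq : Function.Injective fun i : Fin e => μ ^ q ^ (i : ℕ) := by
    intro u v huv
    have h1 : q ^ (u : ℕ) ≡ q ^ (v : ℕ) [MOD orderOf μ] :=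
      (IsOfFinOrder.pow_eq_pow_iff_modEq (orderOf_pos_iff.1 (hμ ▸ hp.out.pos))).1 huv
    rw [hμ] at h1
    have h2 : ((q : ZMod p)) ^ (u : ℕ) = (q : ZMod p) ^ (v : ℕ) := by
      rw [← Nat.cast_pow, ← Nat.cast_pow]
      exact (ZMod.natCast_eq_natCast_iff _ _ p).2 h1
    exact Fin.ext (pow_injOn_Iio_orderOf u.2 v.2 h2)
  have := mul_finrank_le (fun i : Fin e => Module.End.eigenspace T (μ ^ q ^ (i : ℕ)))
    ((Module.End.eigenspaces_iSupIndep T).comp hinjq) _ (fun i => hle i)
  rwa [Module.finrank_fintype_fun_eq_card, Fintype.card_fin] at this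

theorem orderOf_cast_pos {q : ℕ} (hpq : ¬ p ∣ q) : 0 < orderOf (q : ZMod p) :=
  orderOf_pos_iff.2 (isOfFinOrder_iff_pow_eq_one.2 ⟨p - 1, by have := hp.out.two_le; omega,
    ZMod.pow_card_sub_one_eq_one fun h => hpq ((ZMod.natCast_eq_zero_iff q p).1 h)⟩)

/-- The case of a central element without fixed points. -/
theorem derived_fpf {q n : ℕ} (hq : Fintype.card F = q) (hpq : ¬ p ∣ q) (hpF : (p : F) ≠ 0)
    {P : Type w} [Group P] [Finite P] (hP : IsPGroup p P) (r : P →* Matrix (Fin n) (Fin n) F) (z : P)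
    (hzc : ∀ g, g * z = z * g) (hz : z ^ p = 1) (hu : IsUnit (r z - 1)) :
    ∀ x ∈ derivedSeries P (Nat.log p (n / orderOf (q : ZMod p)) + 1), r x = 1 := by
  intro x hx
  set L := AlgebraicClosure F
  have hpL : (p : L) ≠ 0 := by
    rw [← map_natCast (algebraMap F L) p]
    exact (map_ne_zero _).2 hpF
  obtain ⟨σ, hσ⟩ : ∃ σ : P →* End L (Fin n → L), ∀ g, σ g = Matrix.toLin' ((r g).map (algebraMap F L)) :=
    ⟨((Matrix.toLinAlgEquiv' (R := L) (n := Fin n)).toAlgHom.toRingHom.comp
      (algebraMap F L).mapMatrix).toMonoidHom.comp r, fun g => rfl⟩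
  have hfix : ∀ y, σ z y = y → y = 0 := by
    intro y hy
    obtain ⟨u, hu⟩ := hu
    have h1 := hy
    rw [hσ, Matrix.toLin'_apply] at h1
    have h2 : ((r z - 1).map (algebraMap F L)).mulVec y = 0 := by
      rw [Matrix.map_sub _ (map_sub _), Matrix.map_one _ (map_zero _) (map_one _), Matrix.sub_mulVec,
        Matrix.one_mulVec, h1, sub_self]
    have h3 : ((↑u⁻¹ : Matrix (Fin n) (Fin n) F).map (algebraMap F L)) * (r z - 1).map (algebraMap F L) = 1 := by
      rw [← Matrix.map_mul, ← hu, ← Units.val_mul, inv_mul_cancel, Units.val_one,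
        Matrix.map_one _ (map_zero _) (map_one _)]
    have h4 := Matrix.mulVec_mulVec y ((↑u⁻¹ : Matrix (Fin n) (Fin n) F).map (algebraMap F L))
      ((r z - 1).map (algebraMap F L))
    rw [h2, h3, Matrix.mulVec_zero, Matrix.one_mulVec] at h4
    exact h4.symm
  have hzp : σ z ^ p = 1 := by rw [← map_pow, hz, map_one]
  have hdiag : ⨆ μ : L, (σ z).eigenspace μ = ⊤ := by
    have hss : (σ z).IsSemisimple :=
      Module.End.isSemisimple_of_squarefree_aeval_eq_zero
        (Polynomial.separable_X_pow_sub_C (1 : L) (n := p) hpL one_ne_zero).squarefree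
        (by rw [map_sub, map_pow, Polynomial.aeval_X, Polynomial.aeval_C, map_one, hzp, sub_self])
    simp_rw [← hss.isFinitelySemisimple.maxGenEigenspace_eq_eigenspace]
    exact Module.End.iSup_maxGenEigenspace_eq_top (σ z)
  suffices h : σ x = 1 by
    rw [hσ, Module.End.one_eq_id, ← Matrix.toLin'_one, EquivLike.apply_eq_iff_eq] at h
    exact Matrix.map_injective (algebraMap F L).injective
      (h.trans (Matrix.map_one _ (map_zero _) (map_one _)).symm)
  rw [← sub_eq_zero, ← LinearMap.ker_eq_top, ← top_le_iff, ← hdiag, iSup_le_iff]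
  intro μ y hy
  rw [LinearMap.mem_ker, LinearMap.sub_apply, sub_eq_zero]
  by_cases hy0 : y = 0
  · rw [hy0, map_zero, map_zero]
  have hsm := Module.End.mem_eigenspace_iff.1 hy
  have hμ1 : μ ≠ 1 := fun h1 => hy0 (hfix y (by rw [hsm, h1, one_smul]))
  have hμp : μ ^ p = 1 := by
    have hpow : ∀ k : ℕ, (σ z ^ k) y = μ ^ k • y := by
      intro k
      induction k with
      | zero => simp
      | succ k ihk => rw [pow_succ', Module.End.mul_apply, ihk, map_smul, hsm, smul_smul, pow_succ]
    have h1 := hpow p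
    rw [hzp, Module.End.one_apply] at h1
    exact smul_left_injective L hy0 (h1.symm.trans (one_smul L y).symm)
  have hinv : ∀ g, ∀ y ∈ (σ z).eigenspace μ, σ g y ∈ (σ z).eigenspace μ := by
    intro g y hy
    rw [Module.End.mem_eigenspace_iff] at hy ⊢
    have hc : σ g * σ z = σ z * σ g := by rw [← map_mul σ, ← map_mul σ, hzc g]
    rw [← Module.End.mul_apply, ← hc, Module.End.mul_apply, hy, map_smul]
  have hb : orderOf (q : ZMod p) * finrank L ((σ z).eigenspace μ) ≤ n := by
    rw [hσ]
    exact eigenspace_bound hq (r z) (orderOf_eq_prime hμp hμ1)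
  have hd : finrank L ((σ z).eigenspace μ) ≤ n / orderOf (q : ZMod p) := by
    rw [Nat.le_div_iff_mul_le (orderOf_cast_pos hpq), mul_comm]; exact hb
  have e1 := derived_trivial_logp hpL _ _ rfl P hP (restrictRep σ _ hinv) x
    (derivedSeries_antitone _ (Nat.add_le_add_right (Nat.log_mono_right hd) 1) hx)
  exact congrArg Subtype.val (LinearMap.congr_fun e1 ⟨y, hy⟩)

/-- Over a finite field of `q` elements a `p`-group has derived length at most
`log_p (n / e) + 1`, with `e` the order of `q` modulo `p`. -/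
theorem derived_trivial_finite {q : ℕ} (hq : Fintype.card F = q) (hpq : ¬ p ∣ q) (n : ℕ) :
    ∀ (V : Type v) [AddCommGroup V] [Module F V] [FiniteDimensional F V], finrank F V = n →
      ∀ (P : Type w) [Group P] [Finite P], IsPGroup p P → ∀ ρ : P →* End F V,
        ∀ x ∈ derivedSeries P (Nat.log p (n / orderOf (q : ZMod p)) + 1), ρ x = 1 := by
  have hpF : (p : F) ≠ 0 := by
    intro h
    obtain ⟨r, hr⟩ := CharP.exists F
    have hrp : r.Prime := (CharP.char_is_prime_or_zero F r).resolve_right (CharP.char_ne_zero_of_finite F r)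
    have h1 : r ∣ p := (CharP.cast_eq_zero_iff F r p).1 h
    obtain ⟨-, m, -, hm⟩ := FiniteField.card' F |>.imp fun r h => h
    have hrq : r ∣ q := by
      rw [← hq]
      exact (CharP.cast_eq_zero_iff F r _).1 (Nat.cast_card_eq_zero F)
    exact hpq ((Nat.prime_dvd_prime_iff_eq hrp hp.out).1 h1 ▸ hrq)
  set e := orderOf (q : ZMod p)
  induction n using Nat.strong_induction_on with
  | _ n ih =>
  intro V _ _ _ hn
  -- reduction to faithful actions
  suffices main : ∀ (P : Type w) [Group P] [Finite P], IsPGroup p P → ∀ ρ : P →* End F V,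
      Function.Injective ρ → ∀ x ∈ derivedSeries P (Nat.log p (n / e) + 1), ρ x = 1 by
    intro P _ _ hP ρ x hx
    have hinj : Function.Injective ((Units.coeHom (End F V)).comp (QuotientGroup.kerLift ρ.toHomUnits)) :=
      Units.val_injective.comp (QuotientGroup.kerLift_injective ρ.toHomUnits)
    exact main (P ⧸ ρ.toHomUnits.ker) (hP.to_quotient _) _ hinj (QuotientGroup.mk' ρ.toHomUnits.ker x)
      (map_derivedSeries_le_derivedSeries _ _ (Subgroup.mem_map_of_mem _ hx))
  intro P _ _ hP ρ hρ x hx
  rcases subsingleton_or_nontrivial P with hs | hnt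
  · rw [Subsingleton.elim x 1, map_one]
  have := hP.center_nontrivial
  obtain ⟨a, ha⟩ : ∃ a, Nat.card (Subgroup.center P) = p ^ a := (hP.to_subgroup _).exists_card_eq
  have hdvd : p ∣ Nat.card (Subgroup.center P) := by
    rcases a with - | a
    · rw [pow_zero] at ha
      exact absurd ha (Finite.one_lt_card).ne'
    · exact ha ▸ dvd_pow_self p (Nat.succ_ne_zero a)
  obtain ⟨⟨z, hzc⟩, hz⟩ := exists_prime_orderOf_dvd_card' p hdvd
  rw [Subgroup.orderOf_mk] at hz
  have hzg : ∀ g : P, ρ g * ρ z = ρ z * ρ g := fun g => by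
    rw [← map_mul, ← map_mul, Subgroup.mem_center_iff.1 hzc g]
  by_cases hW : LinearMap.ker (ρ z - 1) = ⊥
  · -- `z` fixes no nonzero vector
    let b := Module.finBasisOfFinrankEq F V hn
    let τ : End F V ≃ₐ[F] Matrix (Fin n) (Fin n) F := LinearMap.toMatrixAlgEquiv b
    have hu : IsUnit (τ (ρ z) - 1) := by
      have h1 : IsUnit (ρ z - 1) := (Module.End.isUnit_iff _).2
        ⟨LinearMap.ker_eq_bot.1 hW, LinearMap.injective_iff_surjective.1 (LinearMap.ker_eq_bot.1 hW)⟩
      have h2 := h1.map τ
      rwa [map_sub, map_one] at h2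
    have h1 := derived_fpf hq hpq hpF hP (τ.toAlgHom.toRingHom.toMonoidHom.comp ρ) z
      (fun g => Subgroup.mem_center_iff.1 hzc g) (hz ▸ pow_orderOf_eq_one z) hu x hx
    exact τ.injective (h1.trans (map_one τ).symm)
  · -- a fixed space
    set W := LinearMap.ker (ρ z - 1)
    have hWmem : ∀ y, y ∈ W ↔ ρ z y = y := fun y => by
      rw [LinearMap.mem_ker, LinearMap.sub_apply, sub_eq_zero, Module.End.one_apply]
    have hinv : ∀ g, ∀ y ∈ W, ρ g y ∈ W := by
      intro g y hy
      rw [hWmem] at hy ⊢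
      rw [← Module.End.mul_apply, ← hzg g, Module.End.mul_apply, hy]
    have hWt : W ≠ ⊤ := by
      intro h
      have h1 : z = 1 := hρ (by
        rw [map_one]
        exact LinearMap.ext fun y => (hWmem y).1 (h ▸ Submodule.mem_top))
      rw [h1, orderOf_one] at hz
      exact hp.out.ne_one hz.symm
    have hlt1 : finrank F W < n := hn ▸ Submodule.finrank_lt hWt
    have hlt2 : finrank F (V ⧸ W) < n := by
      have h1 := W.finrank_quotient_add_finrank
      have h2 : 1 ≤ finrank F W := Submodule.one_le_finrank_iff.2 hW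
      omega
    have mono : ∀ m, m ≤ n → x ∈ derivedSeries P (Nat.log p (m / e) + 1) := fun m hm =>
      derivedSeries_antitone _ (Nat.add_le_add_right (Nat.log_mono_right (Nat.div_le_div_right hm)) 1) hx
    have e1 := ih _ hlt1 W rfl P hP (restrictRep ρ W hinv) x (mono _ hlt1.le)
    have e2 := ih _ hlt2 (V ⧸ W) rfl P hP (quotientRep ρ W hinv) x (mono _ hlt2.le)
    refine pow_card_unipotent hpF (ρ x) ?_ ?_
    · obtain ⟨k, hk⟩ := hP x
      exact ⟨k, by rw [← map_pow, hk, map_one]⟩
    · refine LinearMap.ext fun y => ?_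
      have h3 := (Submodule.Quotient.eq W).1 (LinearMap.congr_fun e2 (Submodule.Quotient.mk y))
      have h4 : ρ x (ρ x y - y) = ρ x y - y := congrArg Subtype.val (LinearMap.congr_fun e1 ⟨_, h3⟩)
      rw [Module.End.mul_apply, LinearMap.sub_apply, LinearMap.sub_apply, Module.End.one_apply, Module.End.one_apply, h4,
        sub_self, LinearMap.zero_apply]

/-- Some `p`-group with nontrivial `k`-th derived subgroup acts faithfully in dimension `e * p ^ k`. -/
theorem exists_wreath_rep {q : ℕ} (hq : Fintype.card F = q) (hpq : ¬ p ∣ q) (k : ℕ) :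
    ∃ (W : Type) (_ : Group W) (_ : Finite W) (V : Type u) (_ : AddCommGroup V) (_ : Module F V),
      IsPGroup p W ∧ derivedSeries W k ≠ ⊥ ∧ FiniteDimensional F V ∧
      finrank F V = orderOf (q : ZMod p) * p ^ k ∧ ∃ ρ : W →* End F V, Function.Injective ρ := by
  classical
  induction k with
  | zero =>
    set e := orderOf (q : ZMod p)
    have hq0 : (q : ZMod p) ≠ 0 := fun h => hpq ((ZMod.natCast_eq_zero_iff q p).1 h)
    have he : 0 < e := orderOf_pos_iff.2 (isOfFinOrder_iff_pow_eq_one.2
      ⟨p - 1, by have := hp.out.two_le; omega, ZMod.pow_card_sub_one_eq_one hq0⟩)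
    have hdvd : p ∣ Nat.card (GL (Fin e) F) := by
      rw [Matrix.card_GL_field]
      refine dvd_trans ?_ (Finset.dvd_prod_of_mem _ (Finset.mem_univ (⟨0, he⟩ : Fin e)))
      rw [hq, pow_zero, ← ZMod.natCast_eq_zero_iff, Nat.cast_sub (Nat.one_le_pow _ _ (hq ▸ Fintype.card_pos)),
        Nat.cast_pow, Nat.cast_one, pow_orderOf_eq_one, sub_self]
    obtain ⟨g, hg⟩ := exists_prime_orderOf_dvd_card' p hdvd
    let G := Multiplicative (ZMod p)
    have hG : Nat.card G = p := by simp [G]
    have hH : Nat.card (Subgroup.zpowers g) = p := by rw [Nat.card_zpowers, hg]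
    let iso : G ≃* Subgroup.zpowers g := mulEquivOfPrimeCardEq (p := p) hG hH
    refine ⟨G, inferInstance, inferInstance, Fin e → F, inferInstance, inferInstance,
      IsPGroup.of_card (n := 1) (by rw [hG, pow_one]), ?_, inferInstance,
      by rw [Module.finrank_fintype_fun_eq_card, Fintype.card_fin, pow_zero, mul_one],
      (Matrix.toLinAlgEquiv' (R := F) (n := Fin e)).toAlgHom.toRingHom.toMonoidHom.comp
        ((Units.coeHom _).comp ((Subgroup.zpowers g).subtype.comp iso.toMonoidHom)), ?_⟩
    · rw [derivedSeries_zero]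
      haveI : Nontrivial G := Finite.one_lt_card_iff_nontrivial.1 (hG.symm ▸ hp.out.one_lt)
      exact top_ne_bot
    · exact (Matrix.toLinAlgEquiv' (R := F) (n := Fin e)).injective.comp
        (Units.val_injective.comp ((Subgroup.subtype_injective _).comp iso.injective))
  | succ k ih =>
    obtain ⟨D, _, _, V, _, _, hD, hDk, _, hV, ρ, hρ⟩ := ih
    let Q := Multiplicative (ZMod p)
    have hQ : Nat.card Q = p := by simp [Q]
    haveI : Nontrivial Q := Finite.one_lt_card_iff_nontrivial.1 (hQ.symm ▸ hp.out.one_lt)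
    haveI : Finite (D ≀ᵣ Q) := Finite.of_equiv _ (RegularWreathProduct.equivProd D Q).symm
    let σ : D ≀ᵣ Q →* End F (Q → V) :=
      { toFun := fun a => LinearMap.pi fun t => (ρ (a.left t)).comp (LinearMap.proj (a.right⁻¹ * t))
        map_one' := LinearMap.ext fun f => funext fun t => by simp
        map_mul' := fun a b => LinearMap.ext fun f => funext fun t => by
          show ρ ((a * b).left t) (f ((a * b).right⁻¹ * t)) =
            ρ (a.left t) (ρ (b.left (a.right⁻¹ * t)) (f (b.right⁻¹ * (a.right⁻¹ * t))))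
          rw [RegularWreathProduct.mul_left, Pi.mul_apply, map_mul, Module.End.mul_apply,
            RegularWreathProduct.mul_right, mul_inv_rev, mul_assoc] }
    have hfun : ∀ (a : D ≀ᵣ Q) f t, σ a f t = ρ (a.left t) (f (a.right⁻¹ * t)) := fun a f t => rfl
    refine ⟨D ≀ᵣ Q, inferInstance, inferInstance, Q → V, inferInstance, inferInstance, ?_,
      derivedSeries_wreath_ne_bot hDk, inferInstance,
      by rw [Module.finrank_pi_fintype, Finset.sum_const, Finset.card_univ, hV, smul_eq_mul,
        ← Nat.card_eq_fintype_card, hQ, pow_succ]; ring, σ, ?_⟩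
    · obtain ⟨a, ha⟩ := hD.exists_card_eq
      exact IsPGroup.of_card (n := a * p + 1) (by rw [RegularWreathProduct.card, ha, hQ, pow_succ, ← pow_mul])
    · refine (injective_iff_map_eq_one σ).2 fun a ha => ?_
      have hV0 : 0 < finrank F V := by
        rw [hV]
        have hq0 : (q : ZMod p) ≠ 0 := fun h => hpq ((ZMod.natCast_eq_zero_iff q p).1 h)
        have he : 0 < orderOf (q : ZMod p) := orderOf_pos_iff.2 (isOfFinOrder_iff_pow_eq_one.2
          ⟨p - 1, by have := hp.out.two_le; omega, ZMod.pow_card_sub_one_eq_one hq0⟩)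
        exact Nat.mul_pos he (pow_pos hp.out.pos k)
      haveI := Module.finrank_pos_iff.1 hV0
      obtain ⟨v, hv⟩ := exists_ne (0 : V)
      have hr : a.right = 1 := by
        by_contra hr
        have h1 := congrFun (LinearMap.congr_fun ha (Pi.single 1 v)) 1
        rw [hfun, mul_one, Pi.single_eq_of_ne (inv_ne_one.2 hr), map_zero, Module.End.one_apply,
          Pi.single_eq_same] at h1
        exact hv h1.symm
      ext t
      · refine hρ (LinearMap.ext fun w => ?_)
        have h1 := congrFun (LinearMap.congr_fun ha (Pi.single t w)) t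
        rw [hfun, hr, inv_one, one_mul, Pi.single_eq_same, Module.End.one_apply, Pi.single_eq_same] at h1
        rw [h1, RegularWreathProduct.one_left, Pi.one_apply, map_one, Module.End.one_apply]
      · exact hr

/-- The derived length of a Sylow `p`-subgroup of a general linear group in coprime characteristic. -/
theorem derivedSeries_sylow_GL {q : ℕ} (hq : Fintype.card F = q) (hpq : ¬ p ∣ q) {n : ℕ}
    (hn : orderOf (q : ZMod p) ≤ n) (P : Sylow p (GL (Fin n) F)) :
    derivedSeries (P : Subgroup (GL (Fin n) F)) (Nat.log p (n / orderOf (q : ZMod p)) + 1) = ⊥ ∧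
      derivedSeries (P : Subgroup (GL (Fin n) F)) (Nat.log p (n / orderOf (q : ZMod p))) ≠ ⊥ := by
  constructor
  · rw [Subgroup.eq_bot_iff_forall]
    intro x hx
    let ρ : (P : Subgroup (GL (Fin n) F)) →* End F (Fin n → F) :=
      (Matrix.toLinAlgEquiv' (R := F) (n := Fin n)).toAlgHom.toRingHom.toMonoidHom.comp
        ((Units.coeHom _).comp (P : Subgroup (GL (Fin n) F)).subtype)
    have h1 := derived_trivial_finite hq hpq n (Fin n → F) (by rw [Module.finrank_fintype_fun_eq_card, Fintype.card_fin])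
      _ P.2 ρ x hx
    exact ((Matrix.toLinAlgEquiv' (R := F) (n := Fin n)).injective.comp
      (Units.val_injective.comp (Subgroup.subtype_injective _))) (h1.trans (map_one ρ).symm)
  · set e := orderOf (q : ZMod p)
    set k := Nat.log p (n / e) with hk
    obtain ⟨W, _, _, V, _, _, hW, hWk, _, hV, ρ, hρ⟩ := exists_wreath_rep (p := p) hq hpq k
    have he : 0 < e := by
      have hq0 : (q : ZMod p) ≠ 0 := fun h => hpq ((ZMod.natCast_eq_zero_iff q p).1 h)
      exact orderOf_pos_iff.2 (isOfFinOrder_iff_pow_eq_one.2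
        ⟨p - 1, by have := hp.out.two_le; omega, ZMod.pow_card_sub_one_eq_one hq0⟩)
    change finrank F V = e * p ^ k at hV
    have hk : p ^ k ≤ n / e := by rw [hk]; exact Nat.pow_log_le_self p (Nat.div_pos hn he).ne'
    have hle : e * p ^ k ≤ n := by
      have h1 : p ^ k ≤ n / e := hk
      calc e * p ^ k ≤ e * (n / e) := Nat.mul_le_mul_left e h1
        _ ≤ n := Nat.mul_div_le n e
    let E : (V × (Fin (n - e * p ^ k) → F)) ≃ₗ[F] (Fin n → F) := LinearEquiv.ofFinrankEq _ _ (by
      rw [Module.finrank_prod, hV, Module.finrank_fintype_fun_eq_card, Module.finrank_fintype_fun_eq_card,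
        Fintype.card_fin, Fintype.card_fin]
      omega)
    let θ : W →* End F (Fin n → F) :=
      { toFun := fun w => E.conj ((ρ w).prodMap LinearMap.id)
        map_one' := LinearMap.ext fun y => by simp [LinearEquiv.conj_apply_apply]
        map_mul' := fun a b => LinearMap.ext fun y => by simp [LinearEquiv.conj_apply_apply] }
    have hθ : Function.Injective θ := fun a b hab => hρ (LinearMap.ext fun v => by
      have h1 := LinearMap.congr_fun hab (E (v, 0))
      simp [θ, LinearEquiv.conj_apply_apply] at h1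
      exact h1)
    let γ : W →* GL (Fin n) F :=
      ((LinearMap.toMatrixAlgEquiv' (R := F) (n := Fin n)).toAlgHom.toRingHom.toMonoidHom.comp θ).toHomUnits
    have hγ : Function.Injective γ := fun a b hab => hθ
      ((LinearMap.toMatrixAlgEquiv' (R := F) (n := Fin n)).injective (congrArg Units.val hab))
    have hR : IsPGroup p γ.range := by
      rintro ⟨_, w, rfl⟩
      obtain ⟨i, hi⟩ := hW w
      exact ⟨i, Subtype.ext (by rw [SubmonoidClass.coe_pow, ← map_pow, hi, map_one]; rfl)⟩
    obtain ⟨T, hT⟩ := hR.exists_le_sylow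
    let f : W →* (P : Subgroup (GL (Fin n) F)) :=
      (T.equiv P).toMonoidHom.comp ((Subgroup.inclusion hT).comp γ.rangeRestrict)
    have hf : Function.Injective f := (T.equiv P).injective.comp
      ((Subgroup.inclusion_injective hT).comp fun a b hab => hγ (congrArg Subtype.val hab))
    intro h
    apply hWk
    rw [Subgroup.eq_bot_iff_forall]
    exact fun x hx => hf ((derivedSeries_le_of_hom f k h hx).trans (map_one f).symm)

end FiniteField

end Cfsg.Agent.H86
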