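import Mathlib

/-!
Submodules of a representation linked by operators commuting with a subgroup: a light substitute for
isomorphism classes of irreducible submodules, used for Camina pairs.
-/

set_option autoImplicit false

namespace Cfsg.Agent.H86.Linked

open Subgroup LinearMap

variable {k : Type*} [Field k] {V : Type*} [AddCommGroup V] [Module k V]
  {R : Type*} [Group R]

/-- Invariance of a subspace under a subgroup. -/
def Stable (ρ : R →* Module.End k V) (U : Subgroup R) (W : Submodule k V) : Prop :=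
  ∀ u ∈ U, ∀ w ∈ W, ρ u w ∈ W

/-- Irreducible invariant subspace. -/
def Irred (ρ : R →* Module.End k V) (U : Subgroup R) (W : Submodule k V) : Prop :=
  W ≠ ⊥ ∧ Stable ρ U W ∧ ∀ W' ≤ W, Stable ρ U W' → W' = ⊥ ∨ W' = W

/-- The operator commutes with the action of the subgroup. -/
def Equi (ρ : R →* Module.End k V) (U : Subgroup R) (A : Module.End k V) : Prop :=
  ∀ u ∈ U, ∀ v, A (ρ u v) = ρ u (A v)

/-- Two subspaces joined by an equivariant operator. -/
def Rel (ρ : R →* Module.End k V) (U : Subgroup R) (W W' : Submodule k V) : Prop :=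
  ∃ A, Equi ρ U A ∧ (∀ v, A v ∈ W') ∧ ∃ w ∈ W, A w ≠ 0

variable (ρ : R →* Module.End k V)

theorem rho_inv_apply (g : R) (v : V) : ρ g⁻¹ (ρ g v) = v := by
  rw [← Module.End.mul_apply, ← map_mul, inv_mul_cancel, map_one, Module.End.one_apply]

theorem rho_apply_inv (g : R) (v : V) : ρ g (ρ g⁻¹ v) = v := by
  rw [← Module.End.mul_apply, ← map_mul, mul_inv_cancel, map_one, Module.End.one_apply]

theorem rho_mul_apply (g h : R) (v : V) : ρ (g * h) v = ρ g (ρ h v) := by
  rw [map_mul, Module.End.mul_apply]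

theorem rho_injective (g : R) : Function.Injective (ρ g) :=
  Function.LeftInverse.injective (rho_inv_apply ρ g)

theorem mem_map_rho {g : R} {W : Submodule k V} {v : V} :
    v ∈ W.map (ρ g) ↔ ρ g⁻¹ v ∈ W := by
  constructor
  · rintro ⟨w, hw, rfl⟩
    simpa [rho_inv_apply] using hw
  · exact fun h => ⟨_, h, rho_apply_inv ρ g v⟩

theorem map_one_eq (W : Submodule k V) : W.map (ρ 1) = W := by
  ext v; simp [mem_map_rho]

theorem map_mul_eq (g h : R) (W : Submodule k V) : W.map (ρ (g * h)) = (W.map (ρ h)).map (ρ g) := by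
  ext v
  simp [mem_map_rho, rho_mul_apply]

variable {ρ} {U : Subgroup R}

theorem Stable.map_eq {W : Submodule k V} (hW : Stable ρ U W) {u : R} (hu : u ∈ U) :
    W.map (ρ u) = W := by
  ext v
  rw [mem_map_rho]
  exact ⟨fun h => by simpa [rho_apply_inv] using hW u hu _ h, fun h => hW _ (U.inv_mem hu) _ h⟩

theorem equi_one : Equi ρ U (1 : Module.End k V) := fun _ _ _ => rfl

theorem Equi.mul {A B : Module.End k V} (hA : Equi ρ U A) (hB : Equi ρ U B) : Equi ρ U (A * B) :=
  fun u hu v => by simp only [Module.End.mul_apply]; rw [hB u hu, hA u hu]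

/-- Conjugating an equivariant operator. -/
theorem Equi.conj [U.Normal] {A : Module.End k V} (hA : Equi ρ U A) (g : R) :
    Equi ρ U (ρ g * A * ρ g⁻¹) := fun u hu v => by
  simp only [Module.End.mul_apply]
  have h1 : ρ g⁻¹ (ρ u v) = ρ (g⁻¹ * u * g) (ρ g⁻¹ v) := by
    rw [rho_mul_apply, rho_mul_apply, rho_apply_inv]
  have h2 := Normal.conj_mem' (show U.Normal from inferInstance) u hu g
  rw [h1, hA _ h2, rho_mul_apply, rho_mul_apply, rho_apply_inv]

theorem Irred.map [U.Normal] {W : Submodule k V} (hW : Irred ρ U W) (g : R) :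
    Irred ρ U (W.map (ρ g)) := by
  obtain ⟨hne, hst, hmin⟩ := hW
  have hconj : ∀ (h : R) (X : Submodule k V), Stable ρ U X → Stable ρ U (X.map (ρ h)) := by
    intro h X hX u hu v hv
    rw [mem_map_rho] at hv ⊢
    have h1 : ρ h⁻¹ (ρ u v) = ρ (h⁻¹ * u * h) (ρ h⁻¹ v) := by
      rw [rho_mul_apply, rho_mul_apply, rho_apply_inv]
    rw [h1]
    exact hX _ (Normal.conj_mem' (show U.Normal from inferInstance) u hu h) _ hv
  have hback : ∀ X : Submodule k V, (X.map (ρ g⁻¹)).map (ρ g) = X := fun X => by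
    rw [← map_mul_eq, mul_inv_cancel, map_one_eq]
  refine ⟨fun h => hne ?_, hconj g W hst, fun X hX hXs => ?_⟩
  · rw [Submodule.eq_bot_iff] at h ⊢
    intro w hw
    exact rho_injective ρ g (by rw [h _ ⟨w, hw, rfl⟩, map_zero])
  · have hle : X.map (ρ g⁻¹) ≤ W := by
      rintro v ⟨x, hx, rfl⟩
      have := hX hx
      rwa [mem_map_rho] at this
    rcases hmin _ hle (hconj _ _ hXs) with h | h
    · left; rw [← hback X, h, Submodule.map_bot]
    · right; rw [← hback X, h]

/-- An equivariant operator nonzero on an irreducible subspace is injective there. -/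
theorem Equi.injOn {W : Submodule k V} (hW : Irred ρ U W) {A : Module.End k V} (hA : Equi ρ U A)
    (hA0 : ∃ w ∈ W, A w ≠ 0) : ∀ w ∈ W, A w = 0 → w = 0 := by
  have hs : Stable ρ U (W ⊓ LinearMap.ker A) := by
    intro u hu w hw
    obtain ⟨hw1, hw2⟩ := hw
    rw [SetLike.mem_coe, LinearMap.mem_ker] at hw2
    exact ⟨hW.2.1 u hu w hw1, by simp [hA u hu, hw2]⟩
  rcases hW.2.2 _ inf_le_left hs with h | h
  · intro w hw h0
    have : w ∈ W ⊓ LinearMap.ker A := ⟨hw, h0⟩
    rwa [h, Submodule.mem_bot] at this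
  · obtain ⟨w, hw, h0⟩ := hA0
    rw [← h] at hw
    exact absurd hw.2 h0

/-- An equivariant operator nonzero on `W` maps it onto any irreducible target. -/
theorem Equi.map_eq {W W' : Submodule k V} (hW : Stable ρ U W) (hW' : Irred ρ U W')
    {A : Module.End k V} (hA : Equi ρ U A) (hA0 : ∃ w ∈ W, A w ≠ 0) (hm : ∀ w ∈ W, A w ∈ W') :
    W.map A = W' := by
  refine (hW'.2.2 _ (by rintro _ ⟨w, hw, rfl⟩; exact hm w hw) ?_).resolve_left ?_
  · rintro u hu _ ⟨w, hw, rfl⟩
    exact ⟨ρ u w, hW u hu w hw, hA u hu w⟩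
  · intro h
    obtain ⟨w, hw, h0⟩ := hA0
    exact h0 ((Submodule.eq_bot_iff _).mp h _ ⟨w, hw, rfl⟩)

variable [Finite R] [FiniteDimensional k V]

/-- Sum of conjugates of an operator over the subgroup. -/
noncomputable def avg (ρ : R →* Module.End k V) (U : Subgroup R) (f : Module.End k V) :
    Module.End k V :=
  letI := Fintype.ofFinite U
  ∑ u : U, ρ (u : R)⁻¹ * f * ρ (u : R)

omit [FiniteDimensional k V] in
theorem avg_apply [Fintype U] (f : Module.End k V) (v : V) :
    avg ρ U f v = ∑ u : U, ρ (u : R)⁻¹ (f (ρ (u : R) v)) := by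
  rw [avg, LinearMap.sum_apply]
  exact Finset.sum_congr (by congr; exact Subsingleton.elim _ _) fun u _ => by
    simp [Module.End.mul_apply]

omit [FiniteDimensional k V] in
theorem equi_avg (f : Module.End k V) : Equi ρ U (avg ρ U f) := by
  letI := Fintype.ofFinite U
  intro u hu v
  rw [avg_apply, avg_apply, map_sum]
  refine Fintype.sum_equiv (Equiv.mulRight (⟨u, hu⟩ : U)) _ _ fun x => ?_
  simp only [Equiv.coe_mulRight, Subgroup.coe_mul]
  rw [← rho_mul_apply, ← rho_mul_apply, mul_inv_rev, mul_inv_cancel_left]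

omit [FiniteDimensional k V] in
theorem natCard_ne_zero (hR : (Nat.card R : k) ≠ 0) (U : Subgroup R) : (Nat.card U : k) ≠ 0 := by
  obtain ⟨c, hc⟩ := U.card_subgroup_dvd_card
  intro h
  exact hR (by rw [hc, Nat.cast_mul, h, zero_mul])

omit [FiniteDimensional k V] in
/-- Equivariant projection onto an invariant subspace. -/
theorem exists_equi_proj (hR : (Nat.card R : k) ≠ 0) {W : Submodule k V} (hW : Stable ρ U W) :
    ∃ π, Equi ρ U π ∧ (∀ v, π v ∈ W) ∧ ∀ w ∈ W, π w = w := by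
  letI := Fintype.ofFinite U
  obtain ⟨W2, hW2⟩ := W.exists_isCompl
  set p : Module.End k V := W.subtype ∘ₗ W.projectionOnto W2 hW2
  have hp : ∀ v, p v ∈ W := fun v => (W.projectionOnto W2 hW2 v).2
  have hpw : ∀ w ∈ W, p w = w := fun w hw => by
    simp [p, Submodule.projectionOnto_apply_left hW2 ⟨w, hw⟩]
  refine ⟨(Nat.card U : k)⁻¹ • avg ρ U p, fun u hu v => ?_, fun v => ?_, fun w hw => ?_⟩
  · simp [equi_avg p u hu v]
  · refine W.smul_mem _ ?_
    rw [avg_apply]
    exact Submodule.sum_mem _ fun u _ => hW _ (U.inv_mem u.2) _ (hp _)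
  · rw [LinearMap.smul_apply, avg_apply,
      Finset.sum_congr rfl (fun (u : U) _ => by rw [hpw _ (hW _ u.2 _ hw), rho_inv_apply]),
      Finset.sum_const, Finset.card_univ, ← Nat.card_eq_fintype_card, ← Nat.cast_smul_eq_nsmul k,
      smul_smul, inv_mul_cancel₀ (natCard_ne_zero hR U), one_smul]

omit [Finite R] in
/-- Every nonzero invariant subspace contains an irreducible one. -/
theorem exists_irred_le {W : Submodule k V} (hne : W ≠ ⊥) (hW : Stable ρ U W) :
    ∃ W', W' ≤ W ∧ Irred ρ U W' := by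
  obtain ⟨X, ⟨hX1, hX2, hX3⟩, hmin⟩ :=
    wellFounded_lt.has_min {X : Submodule k V | X ≤ W ∧ X ≠ ⊥ ∧ Stable ρ U X} ⟨W, le_rfl, hne, hW⟩
  refine ⟨X, hX1, hX2, hX3, fun Y hY hYs => ?_⟩
  by_contra h
  push_neg at h
  exact hmin Y ⟨hY.trans hX1, h.1, hYs⟩ (lt_of_le_of_ne hY h.2)

/-- Schur's lemma. -/
theorem schur [IsAlgClosed k] {W : Submodule k V} (hW : Irred ρ U W) {A : Module.End k V}
    (hA : ∀ u ∈ U, ∀ w ∈ W, A (ρ u w) = ρ u (A w)) (hAW : ∀ w ∈ W, A w ∈ W) :
    ∃ c : k, ∀ w ∈ W, A w = c • w := by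
  haveI : Nontrivial W := Submodule.nontrivial_iff_ne_bot.mpr hW.1
  obtain ⟨c, hc⟩ := Module.End.exists_eigenvalue (A.restrict hAW)
  obtain ⟨v, hv⟩ := hc.exists_hasEigenvector
  refine ⟨c, fun w hw => ?_⟩
  set X : Submodule k V := W ⊓ LinearMap.ker (A - c • 1)
  have hXs : Stable ρ U X := by
    intro u hu x hx
    obtain ⟨hx1, hx2⟩ := hx
    refine ⟨hW.2.1 u hu x hx1, ?_⟩
    rw [SetLike.mem_coe, LinearMap.mem_ker] at hx2 ⊢
    simp only [LinearMap.sub_apply, LinearMap.smul_apply, Module.End.one_apply, sub_eq_zero] at hx2 ⊢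
    rw [hA u hu x hx1, hx2, map_smul]
  rcases hW.2.2 X inf_le_left hXs with h | h
  · exfalso
    have h1 : ((v : W) : V) ∈ X := by
      refine ⟨v.2, ?_⟩
      rw [SetLike.mem_coe, LinearMap.mem_ker]
      have h2 := congrArg (Subtype.val) hv.apply_eq_smul
      simpa [sub_eq_zero] using h2
    rw [h, Submodule.mem_bot] at h1
    exact hv.2 (Subtype.ext h1)
  · rw [← h] at hw
    have h2 := hw.2
    rw [SetLike.mem_coe, LinearMap.mem_ker] at h2
    simpa [sub_eq_zero] using h2

omit [FiniteDimensional k V] in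
theorem rel_refl (hR : (Nat.card R : k) ≠ 0) {W : Submodule k V} (hW : Irred ρ U W) :
    Rel ρ U W W := by
  obtain ⟨π, h1, h2, h3⟩ := exists_equi_proj hR hW.2.1
  obtain ⟨w, hw, h0⟩ := Submodule.exists_mem_ne_zero_of_ne_bot hW.1
  exact ⟨π, h1, h2, w, hw, by rwa [h3 w hw]⟩

omit [Finite R] [FiniteDimensional k V] in
theorem Rel.trans {W W' W'' : Submodule k V} (hW : Stable ρ U W) (hW' : Irred ρ U W')
    (h1 : Rel ρ U W W') (h2 : Rel ρ U W' W'') : Rel ρ U W W'' := by
  obtain ⟨A, hA, hAr, hA0⟩ := h1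
  obtain ⟨B, hB, hBr, w', hw', hw'0⟩ := h2
  have hm := Equi.map_eq hW hW' hA hA0 (fun w _ => hAr w)
  rw [← hm] at hw'
  obtain ⟨w, hw, rfl⟩ := hw'
  exact ⟨B * A, hB.mul hA, fun v => hBr _, w, hw, hw'0⟩

omit [Finite R] [FiniteDimensional k V] in
theorem Rel.map [U.Normal] {W W' : Submodule k V} (h : Rel ρ U W W') (g : R) :
    Rel ρ U (W.map (ρ g)) (W'.map (ρ g)) := by
  obtain ⟨A, hA, hAr, w, hw, h0⟩ := h
  refine ⟨ρ g * A * ρ g⁻¹, hA.conj g, fun v => ⟨_, hAr _, rfl⟩, ρ g w, ⟨w, hw, rfl⟩, ?_⟩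
  simp only [Module.End.mul_apply, rho_inv_apply]
  exact fun h => h0 (rho_injective ρ g (by rw [h, map_zero]))

/-- The relation is symmetric on irreducible subspaces. -/
theorem Rel.symm (hR : (Nat.card R : k) ≠ 0) {W W' : Submodule k V} (hW : Irred ρ U W)
    (hW' : Irred ρ U W') (h : Rel ρ U W W') : Rel ρ U W' W := by
  obtain ⟨A, hA, hAr, hA0⟩ := h
  obtain ⟨π', hπ', hπ'r, hπ'w⟩ := exists_equi_proj hR hW'.2.1
  have hm := Equi.map_eq hW.2.1 hW' hA hA0 (fun w _ => hAr w)
  let e : W →ₗ[k] W' := A.restrict (fun w _ => hAr w)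
  have he : Function.Bijective e := by
    constructor
    · rw [injective_iff_map_eq_zero]
      intro w hw
      exact Subtype.ext (Equi.injOn hW hA hA0 w.1 w.2 (congrArg Subtype.val hw))
    · rintro ⟨y, hy⟩
      rw [← hm] at hy
      obtain ⟨w, hw, rfl⟩ := hy
      exact ⟨⟨w, hw⟩, rfl⟩
  let E := LinearEquiv.ofBijective e he
  let B : Module.End k V :=
    W.subtype ∘ₗ E.symm.toLinearMap ∘ₗ π'.codRestrict W' hπ'r
  have hB : ∀ v, A (B v) = π' v := fun v =>
    congrArg Subtype.val (E.apply_symm_apply (π'.codRestrict W' hπ'r v))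
  have hBr : ∀ v, B v ∈ W := fun v => Submodule.coe_mem _
  refine ⟨B, fun u hu v => ?_, hBr, ?_⟩
  · have h1 : A (B (ρ u v) - ρ u (B v)) = 0 := by
      rw [map_sub, hB, hA u hu, hB, hπ' u hu, sub_self]
    exact sub_eq_zero.mp (Equi.injOn hW hA hA0 _ (W.sub_mem (hBr _) (hW.2.1 u hu _ (hBr _))) h1)
  · obtain ⟨w', hw', h0⟩ := Submodule.exists_mem_ne_zero_of_ne_bot hW'.1
    refine ⟨w', hw', fun h => h0 ?_⟩
    rw [← hπ'w w' hw', ← hB w', h, map_zero]

omit [FiniteDimensional k V] in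
/-- The stabiliser of the linkage class of an irreducible subspace. -/
noncomputable def stab (ρ : R →* Module.End k V) (U : Subgroup R) [U.Normal]
    (hR : (Nat.card R : k) ≠ 0) {W : Submodule k V} (hW : Irred ρ U W) : Subgroup R :=
  let S : Submonoid R :=
    { carrier := {g | Rel ρ U W (W.map (ρ g))}
      one_mem' := by
        show Rel ρ U W (W.map (ρ 1))
        rw [map_one_eq]; exact rel_refl hR hW
      mul_mem' := by
        intro g h hg hh
        show Rel ρ U W (W.map (ρ (g * h)))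
        rw [map_mul_eq]
        exact Rel.trans hW.2.1 (hW.map g) hg (hh.map g) }
  { S with
    inv_mem' := by
      intro g hg
      show g⁻¹ ∈ S
      have h1 : g⁻¹ = g ^ (orderOf g - 1) := by
        rw [inv_eq_iff_mul_eq_one, ← pow_succ', Nat.sub_add_cancel (orderOf_pos g),
          pow_orderOf_eq_one]
      rw [h1]
      exact S.pow_mem hg _ }

omit [FiniteDimensional k V] in
theorem mem_stab [U.Normal] {hR : (Nat.card R : k) ≠ 0} {W : Submodule k V}
    {hW : Irred ρ U W} {g : R} : g ∈ stab ρ U hR hW ↔ Rel ρ U W (W.map (ρ g)) := Iff.rfl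

omit [FiniteDimensional k V] in
theorem le_stab [U.Normal] {hR : (Nat.card R : k) ≠ 0} {W : Submodule k V}
    {hW : Irred ρ U W} : U ≤ stab ρ U hR hW := fun u hu => by
  rw [mem_stab, hW.2.1.map_eq hu]; exact rel_refl hR hW

end Cfsg.Agent.H86.Linked
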