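import Cfsg.Agent.H86.StabiliserChain

/-!
An elementary abelian section of rank two above a subgroup fixing an irreducible submodule up to
linkage always has an element with a fixed vector.
-/

set_option autoImplicit false

namespace Cfsg.Agent.H86.Linked

open Subgroup LinearMap

variable {k : Type*} [Field k] [IsAlgClosed k] {V : Type*} [AddCommGroup V] [Module k V]
  [FiniteDimensional k V]

/-- The case of a subgroup acting by scalars. -/
theorem scalar_case {R : Type*} [Group R] [Finite R] (ρ : R →* Module.End k V) {r : ℕ}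
    [hrf : Fact r.Prime] (hr2 : r ≠ 2) {B : Subgroup R} [hB : B.Normal] {lam : R → k} {w0 : V}
    (hw0 : w0 ≠ 0) (hlam : ∀ b ∈ B, ρ b w0 = lam b • w0)
    (hinv : ∀ g : R, ∀ b ∈ B, lam (g⁻¹ * b * g) = lam b)
    {x y : R} (hxr : x ^ r ∈ B) (hyr : y ^ r ∈ B) (hxy : x * y * x⁻¹ * y⁻¹ ∈ B)
    (hfix : ∀ i j : ℕ, i < r → j < r → ¬(i = 0 ∧ j = 0) → ∀ b ∈ B, ∀ v,
      ρ (x ^ i * y ^ j * b) v = v → v = 0) : False := by
  classical
  have hr := hrf.out
  -- the scalars
  have hl1 : lam 1 = 1 := by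
    have h := hlam 1 B.one_mem
    rw [map_one, Module.End.one_apply] at h
    exact (smul_left_injective k hw0 (by simpa using h)).symm
  have hlmul : ∀ a ∈ B, ∀ b ∈ B, lam (a * b) = lam a * lam b := by
    intro a ha b hb
    have h := hlam (a * b) (B.mul_mem ha hb)
    rw [rho_mul_apply, hlam b hb, map_smul, hlam a ha, smul_smul] at h
    exact (smul_left_injective k hw0 h).symm.trans (mul_comm _ _)
  have hlinv : ∀ a ∈ B, lam a⁻¹ * lam a = 1 := fun a ha => by
    rw [← hlmul _ (B.inv_mem ha) a ha, inv_mul_cancel, hl1]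
  let Λ : Finset k := ((B : Set R).toFinite.image lam).toFinset
  have hΛ : ∀ c, c ∈ Λ ↔ ∃ b ∈ B, lam b = c := fun c => by simp [Λ]
  let Lh : B →* kˣ :=
    { toFun := fun b => ⟨lam b.1, lam b.1⁻¹, by rw [mul_comm]; exact hlinv _ b.2, hlinv _ b.2⟩
      map_one' := Units.ext hl1
      map_mul' := fun a b => Units.ext (hlmul _ a.2 _ b.2) }
  haveI : Finite Lh.range := Finite.of_surjective Lh.rangeRestrict Lh.rangeRestrict_surjective
  set t := Nat.card Lh.range
  have hpow : ∀ b ∈ B, lam b ^ t = 1 := by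
    intro b hb
    have h1 : (⟨Lh ⟨b, hb⟩, ⟨_, rfl⟩⟩ : Lh.range) ^ t = 1 := pow_card_eq_one'
    have h2 := congrArg (fun u : Lh.range => ((u : kˣ) : k)) h1
    simpa [Lh] using h2
  have hΛcard : Λ.card = t := by
    rw [← Nat.card_eq_finsetCard]
    refine (Nat.card_congr (Equiv.ofBijective (fun u : Lh.range => (⟨((u : kˣ) : k), ?_⟩ : Λ)) ⟨?_, ?_⟩)).symm
    · obtain ⟨b, hb⟩ := u.2
      exact (hΛ _).mpr ⟨b.1, b.2, congrArg Units.val hb⟩
    · intro u v h
      exact Subtype.ext (Units.ext (congrArg Subtype.val h))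
    · rintro ⟨c, hc⟩
      obtain ⟨b, hb, rfl⟩ := (hΛ c).mp hc
      exact ⟨⟨Lh ⟨b, hb⟩, _, rfl⟩, rfl⟩
  have ht0 : 0 < t := Nat.card_pos
  have hroot : ∀ c : k, c ^ t = 1 → ∃ b ∈ B, lam b = c := by
    intro c hc
    have hsub : Λ ⊆ Polynomial.nthRootsFinset t (1 : k) := fun a ha => by
      obtain ⟨b, hb, rfl⟩ := (hΛ a).mp ha
      exact (Polynomial.mem_nthRootsFinset ht0 1).mpr (hpow b hb)
    have hle : (Polynomial.nthRootsFinset t (1 : k)).card ≤ Λ.card := by
      rw [hΛcard, Polynomial.nthRootsFinset_def]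
      exact (Multiset.toFinset_card_le _).trans (Polynomial.card_nthRoots _ _)
    rw [← hΛ, Finset.eq_of_subset_of_card_le hsub hle]
    exact (Polynomial.mem_nthRootsFinset ht0 1).mpr hc
  -- the common eigenspace of `B`
  let M : Submodule k V :=
    { carrier := {v | ∀ b ∈ B, ρ b v = lam b • v}
      add_mem' := fun {u v} hu hv b hb => by rw [map_add, hu b hb, hv b hb, smul_add]
      zero_mem' := fun b _ => by simp
      smul_mem' := fun c v hv b hb => by rw [map_smul, hv b hb, smul_comm] }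
  have hM : ∀ g : R, ∀ v ∈ M, ρ g v ∈ M := by
    intro g v hv b hb
    rw [← rho_mul_apply, show b * g = g * (g⁻¹ * b * g) by group, rho_mul_apply,
      hv _ (hB.conj_mem' b hb g), hinv g b hb, map_smul]
  have hw0M : w0 ∈ M := hlam
  haveI : Nontrivial M := Submodule.nontrivial_iff_ne_bot.mpr fun h => hw0 (by
    rwa [h, Submodule.mem_bot] at hw0M)
  -- finishing move
  have fin : ∀ i j : ℕ, i < r → j < r → ¬(i = 0 ∧ j = 0) → ∀ g, (x ^ i * y ^ j)⁻¹ * g ∈ B →
      ∀ β : k, β ^ t = 1 → ∀ v ∈ M, v ≠ 0 → ρ g v = β • v → False := by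
    intro i j hi hj hij g hg β hβ v hv hv0 hgv
    obtain ⟨b, hb, hbl⟩ := hroot β hβ
    refine hv0 (hfix i j hi hj hij _ (B.mul_mem hg (B.inv_mem hb)) v ?_)
    have hbv : ρ b⁻¹ v = lam b⁻¹ • v := hv _ (B.inv_mem hb)
    rw [← mul_assoc, mul_inv_cancel_left, rho_mul_apply, hbv, map_smul, hgv, smul_smul, ← hbl,
      hlinv b hb, one_smul]
  set c := lam (x ^ r)
  set d := lam (y ^ r)
  set ζ := lam (x * y * x⁻¹ * y⁻¹)
  have hxyv : ∀ v ∈ M, ρ x (ρ y v) = ζ • ρ y (ρ x v) := by
    intro v hv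
    rw [← rho_mul_apply, show x * y = (x * y * x⁻¹ * y⁻¹) * (y * x) by group,
      rho_mul_apply ρ (x * y * x⁻¹ * y⁻¹) (y * x), rho_mul_apply ρ y x, hM y _ (hM x v hv) _ hxy]
  have hxv : ∀ v ∈ M, ∀ n : ℕ, ρ (x ^ n) (ρ y v) = ζ ^ n • ρ y (ρ (x ^ n) v) := by
    intro v hv n
    induction n with
    | zero => simp
    | succ n ih =>
      rw [pow_succ' x, rho_mul_apply, ih, map_smul, hxyv _ (hM _ v hv), smul_smul, rho_mul_apply,
        ← pow_succ]
  have hζr : ζ ^ r = 1 := by
    have h := hxv w0 hw0M r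
    rw [hM y w0 hw0M _ hxr, hw0M _ hxr, map_smul, smul_smul] at h
    have hc0 : c ≠ 0 := fun h0 => by
      have := hlinv _ hxr
      rw [show lam (x ^ r) = c from rfl, h0, mul_zero] at this
      exact zero_ne_one this
    have hy0 : ρ y w0 ≠ 0 := fun h0 => hw0 (rho_injective ρ y (by rw [h0, map_zero]))
    have h2 := smul_left_injective k hy0 h
    exact (mul_eq_right₀ hc0).mp h2.symm
  have hpowr : ∀ (g : R) (a : k) (v : V), ρ g v = a • v → ∀ n : ℕ, ρ (g ^ n) v = a ^ n • v := by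
    intro g a v h n
    induction n with
    | zero => simp
    | succ n ih => rw [pow_succ', rho_mul_apply, ih, map_smul, h, smul_smul, ← pow_succ]
  have hprim : ∀ a : k, a ^ r = 1 → a ≠ 1 → IsPrimitiveRoot a r := fun a ha ha1 => by
    rw [← ((Nat.dvd_prime hr).mp (orderOf_dvd_of_pow_eq_one ha)).resolve_left
      (fun h => ha1 (orderOf_eq_one_iff.mp h))]
    exact IsPrimitiveRoot.orderOf a
  by_cases hζ : ζ = 1
  · -- commuting operators
    set fx := (ρ x).restrict (hM x)
    obtain ⟨a, ha⟩ := Module.End.exists_eigenvalue fx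
    obtain ⟨v0, hv0⟩ := ha.exists_hasEigenvector
    let E : Submodule k V :=
      { carrier := {v | v ∈ M ∧ ρ x v = a • v}
        add_mem' := fun {u v} hu hv => ⟨M.add_mem hu.1 hv.1, by rw [map_add, hu.2, hv.2, smul_add]⟩
        zero_mem' := ⟨M.zero_mem, by simp⟩
        smul_mem' := fun s v hv => ⟨M.smul_mem s hv.1, by rw [map_smul, hv.2, smul_comm]⟩ }
    have hE : ∀ v ∈ E, ρ y v ∈ E := fun v hv => ⟨hM y v hv.1, by
      rw [hxyv v hv.1, hζ, one_smul, hv.2, map_smul]⟩
    have hv0E : (v0 : V) ∈ E := ⟨v0.2, congrArg Subtype.val hv0.apply_eq_smul⟩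
    haveI : Nontrivial E := Submodule.nontrivial_iff_ne_bot.mpr fun h => hv0.2 (Subtype.ext (by
      rwa [h, Submodule.mem_bot] at hv0E))
    obtain ⟨b, hb⟩ := Module.End.exists_eigenvalue ((ρ y).restrict hE)
    obtain ⟨⟨v, hvM, hvx⟩, hvb⟩ := hb.exists_hasEigenvector
    have hvy : ρ y v = b • v := congrArg Subtype.val hvb.apply_eq_smul
    have hvne : v ≠ 0 := fun h => hvb.2 (Subtype.ext h)
    have hac : a ^ r = c := smul_left_injective k hvne ((hpowr x a v hvx r).symm.trans (hvM _ hxr))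
    have hbd : b ^ r = d := smul_left_injective k hvne ((hpowr y b v hvy r).symm.trans (hvM _ hyr))
    have har : (a ^ t) ^ r = 1 := by rw [← pow_mul, mul_comm, pow_mul, hac, hpow _ hxr]
    have hbr : (b ^ t) ^ r = 1 := by rw [← pow_mul, mul_comm, pow_mul, hbd, hpow _ hyr]
    by_cases hat : a ^ t = 1
    · refine fin 1 0 hr.one_lt hr.pos (by omega) x (by simp) a hat v hvM hvne hvx
    · obtain ⟨i, hi, hie⟩ := (hprim _ har hat).eq_pow_of_pow_eq_one (ξ := (b ^ t)⁻¹)
        (by rw [inv_pow, hbr, inv_one])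
      refine fin i 1 hi hr.one_lt (by omega) (x ^ i * y) (by simp) (a ^ i * b) ?_ v hvM hvne ?_
      · have hb0 : b ^ t ≠ 0 := fun h => by rw [h, zero_pow hr.ne_zero] at hbr; exact zero_ne_one hbr
        rw [mul_pow, ← pow_mul, mul_comm i, pow_mul a, hie, inv_mul_cancel₀ hb0]
      · rw [rho_mul_apply, hvy, map_smul, hpowr x a v hvx i, smul_smul, mul_comm]
  · -- non-commuting operators
    have hζt : ζ ^ t = 1 := hpow _ hxy
    have hζp := hprim ζ hζr hζ
    obtain ⟨t', ht'⟩ : r ∣ t := hζp.dvd_of_pow_eq_one t hζt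
    -- shifting eigenvalues
    have shift : ∀ i j : ℕ, i < r → j < r → ¬(i = 0 ∧ j = 0) → ∀ g h : R,
        (x ^ i * y ^ j)⁻¹ * g ∈ B → ∀ q : k, IsPrimitiveRoot q r →
        (∀ v ∈ M, ρ h (ρ g v) = q • ρ g (ρ h v)) →
        ∀ C : k, C ^ t' = 1 → (∀ v ∈ M, ρ (g ^ r) v = C • v) → False := by
      intro i j hi hj hij g h hg q hq hcomm C hC hgr
      obtain ⟨β, hβ⟩ := IsAlgClosed.exists_pow_nat_eq C hr.pos
      obtain ⟨a, ha⟩ := Module.End.exists_eigenvalue ((ρ g).restrict (hM g))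
      obtain ⟨v0, hv0⟩ := ha.exists_hasEigenvector
      have hgv : ρ g (v0 : V) = a • (v0 : V) := congrArg Subtype.val hv0.apply_eq_smul
      have hv00 : (v0 : V) ≠ 0 := fun h => hv0.2 (Subtype.ext h)
      have haC : a ^ r = C := smul_left_injective k hv00 ((hpowr g a _ hgv r).symm.trans (hgr _ v0.2))
      have hqne : q ≠ 0 := hq.ne_zero hr.ne_zero
      have ha0 : a ≠ 0 := fun h0 => hv00 (rho_injective ρ g (by rw [hgv, h0, zero_smul, map_zero]))
      obtain ⟨n, -, hn⟩ := hq.eq_pow_of_pow_eq_one (ξ := a / β) (by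
        rw [div_pow, haC, hβ, div_self]
        rw [← haC]; exact pow_ne_zero r ha0)
      have hs : ∀ n : ℕ, ∀ v ∈ M, ρ g v = a • v →
          ρ (h ^ n) v ∈ M ∧ q ^ n • ρ g (ρ (h ^ n) v) = a • ρ (h ^ n) v := by
        intro n v hv hgv
        induction n with
        | zero => simpa using ⟨hv, hgv⟩
        | succ n ih =>
          obtain ⟨ih1, ih2⟩ := ih
          refine ⟨hM _ v hv, ?_⟩
          rw [pow_succ' h, rho_mul_apply, pow_succ, mul_smul, ← hcomm _ ih1, ← map_smul, ih2,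
            map_smul]
      obtain ⟨h1, h2⟩ := hs n v0 v0.2 hgv
      have hqa : a = β * q ^ n := by
        have hβ0 : β ≠ 0 := fun h0 => pow_ne_zero r ha0 (by rw [haC, ← hβ, h0, zero_pow hr.ne_zero])
        rw [hn, mul_div_cancel₀ _ hβ0]
      refine fin i j hi hj hij g hg β (by rw [ht', pow_mul, hβ, hC]) _ h1
        (fun h0 => hv00 (rho_injective ρ (h ^ n) (by rw [h0, map_zero]))) ?_
      rw [hqa, mul_comm, mul_smul] at h2
      exact smul_right_injective V (pow_ne_zero n hqne) h2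
    have hC : ∀ b ∈ B, (lam b ^ t') ^ r = 1 := fun b hb => by
      rw [← pow_mul, mul_comm, ← ht', hpow b hb]
    by_cases hc : c ^ t' = 1
    · refine shift 1 0 hr.one_lt hr.pos (by omega) x y (by simp) ζ⁻¹ hζp.inv (fun v hv => ?_) c hc
        (fun v hv => hv _ hxr)
      rw [hxyv v hv, smul_smul, inv_mul_cancel₀ (hζp.ne_zero hr.ne_zero), one_smul]
    · obtain ⟨i, hi, hie⟩ := (hprim _ (hC _ hxr) hc).eq_pow_of_pow_eq_one (ξ := (d ^ t')⁻¹)
        (by rw [inv_pow, hC _ hyr, inv_one])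
      have hd0 : d ^ t' ≠ 0 := fun h => by
        have := hC _ hyr
        rw [show lam (y ^ r) = d from rfl, h, zero_pow hr.ne_zero] at this
        exact zero_ne_one this
      set g := y * x ^ i
      have hgB : (x ^ i * y ^ 1)⁻¹ * g ∈ B := by
        have hcq : Commute (x : R ⧸ B) (y : R ⧸ B) := by
          have h1 := (QuotientGroup.eq_one_iff _).mpr hxy
          rw [QuotientGroup.mk_mul, QuotientGroup.mk_mul, QuotientGroup.mk_mul, QuotientGroup.mk_inv,
            QuotientGroup.mk_inv, mul_inv_eq_one, mul_inv_eq_iff_eq_mul] at h1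
          exact h1
        rw [pow_one, ← QuotientGroup.eq, QuotientGroup.mk_mul, QuotientGroup.mk_mul,
          QuotientGroup.mk_pow]
        exact (hcq.pow_left i).eq
      have hxy1 : ∀ v ∈ M, ρ x (ρ g v) = ζ • ρ g (ρ x v) := fun v hv => by
        rw [rho_mul_apply ρ y (x ^ i), rho_mul_apply ρ y (x ^ i), hxyv _ (hM _ v hv),
          ← rho_mul_apply ρ x (x ^ i), ← rho_mul_apply ρ (x ^ i) x, ← pow_succ', pow_succ]
      refine shift i 1 hi hr.one_lt (by omega) g x hgB ζ hζp hxy1 (d * c ^ i) ?_ fun v hv => ?_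
      · rw [mul_pow, ← pow_mul, mul_comm i, pow_mul, hie, mul_inv_cancel₀ hd0]
      · -- power formula
        have hxi : ∀ n : ℕ, ∀ v ∈ M,
            ρ (x ^ i) (ρ (y ^ n) v) = ζ ^ (i * n) • ρ (y ^ n) (ρ (x ^ i) v) := by
          intro n
          induction n with
          | zero => intro v _; simp
          | succ n ihn =>
            intro v hv
            rw [pow_succ' y, rho_mul_apply, hxv _ (hM _ v hv) i, ihn v hv, map_smul, smul_smul,
              rho_mul_apply, ← pow_add]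
            congr 2
            ring
        have hgn : ∀ n : ℕ, ∀ v ∈ M, ρ (g ^ n) v =
            ζ ^ (i * ∑ m ∈ Finset.range n, m) • ρ (y ^ n) (ρ ((x ^ i) ^ n) v) := by
          intro n
          induction n with
          | zero => intro v _; simp
          | succ n ihn =>
            intro v hv
            rw [pow_succ' g, rho_mul_apply, ihn v hv, map_smul, rho_mul_apply,
              hxi n _ (hM _ v hv), map_smul, smul_smul, pow_succ' y, rho_mul_apply,
              pow_succ' (x ^ i), rho_mul_apply, ← pow_add, Finset.sum_range_succ, mul_add]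
        rw [hgn r v hv, show (x ^ i) ^ r = (x ^ r) ^ i by rw [← pow_mul, mul_comm, pow_mul],
          hpowr (x ^ r) c v (hv _ hxr) i, map_smul, hv _ hyr, smul_smul, smul_smul, Finset.sum_range_id]
        have hodd : ζ ^ (i * (r * (r - 1) / 2)) = 1 := by
          obtain ⟨e, he⟩ := (hr.odd_of_ne_two hr2)
          rw [show r * (r - 1) / 2 = r * e by
            rw [show r - 1 = 2 * e by omega, show r * (2 * e) = r * e * 2 by ring,
              Nat.mul_div_cancel _ two_pos],
            show i * (r * e) = r * (i * e) by ring, pow_mul, hζr, one_pow]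
        rw [hodd, one_mul, mul_comm]

omit [IsAlgClosed k] [FiniteDimensional k V] in
theorem irred_subgroupOf {R : Type*} [Group R] {ρ : R →* Module.End k V} {B J : Subgroup R}
    (hBJ : B ≤ J) {W : Submodule k V} (hW : Irred ρ B W) :
    Irred (ρ.comp J.subtype) (B.subgroupOf J) W :=
  ⟨hW.1, fun u hu w hw => hW.2.1 u.1 hu w hw,
    fun X hX hXs => hW.2.2 X hX fun u hu w hw => hXs ⟨u, hBJ hu⟩ hu w hw⟩

omit [IsAlgClosed k] [FiniteDimensional k V] in
theorem rel_subgroupOf {R : Type*} [Group R] {ρ : R →* Module.End k V} {B J : Subgroup R}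
    {W W' : Submodule k V} (h : Rel ρ B W W') : Rel (ρ.comp J.subtype) (B.subgroupOf J) W W' := by
  obtain ⟨A, hA, h1, h2⟩ := h
  exact ⟨A, fun u hu v => hA u.1 hu v, h1, h2⟩

/-- Some element of a rank two section fixing the linkage class has a fixed vector. -/
theorem exists_fixed_vector {R : Type*} [Group R] [Finite R] (ρ : R →* Module.End k V)
    (hR : (Nat.card R : k) ≠ 0) {r : ℕ} [Fact r.Prime] (hr2 : r ≠ 2) (hp : IsPGroup r R)
    {B : Subgroup R} [B.Normal] {W : Submodule k V} (hW : Irred ρ B W) {x y : R}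
    (hx : x ∈ stab ρ B hR hW) (hy : y ∈ stab ρ B hR hW)
    (hxr : x ^ r ∈ B) (hyr : y ^ r ∈ B) (hxy : x * y * x⁻¹ * y⁻¹ ∈ B)
    (hfix : ∀ i j : ℕ, i < r → j < r → ¬(i = 0 ∧ j = 0) → ∀ b ∈ B, ∀ v,
      ρ (x ^ i * y ^ j * b) v = v → v = 0) : False := by
  classical
  obtain ⟨n, hn⟩ : ∃ n, Module.finrank k W = n := ⟨_, rfl⟩
  induction n using Nat.strong_induction_on generalizing R B W with
  | _ n ih =>
    -- restrict to the stabiliser
    set J := stab ρ B hR hW
    have hBJ : B ≤ J := le_stab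
    set σ := ρ.comp J.subtype
    set BJ := B.subgroupOf J
    have hRJ : (Nat.card J : k) ≠ 0 := natCard_ne_zero hR J
    have hWJ := irred_subgroupOf hBJ hW
    have hall : ∀ g : J, Rel σ BJ W (W.map (σ g)) := fun g => rel_subgroupOf (mem_stab.mp g.2)
    have hpJ : IsPGroup r J := hp.to_subgroup J
    by_cases hsc : ∀ b : J, b ∈ BJ → ∃ c : k, ∀ w ∈ W, σ b w = c • w
    · obtain ⟨w0, hw0W, hw0⟩ := Submodule.exists_mem_ne_zero_of_ne_bot hW.1
      choose! lam hlam using hsc
      have hspan : W = k ∙ w0 := by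
        rcases hWJ.2.2 (k ∙ w0) ((Submodule.span_singleton_le_iff_mem _ _).mpr hw0W)
          (fun u hu v hv => by
            rw [hlam u hu v ((Submodule.span_singleton_le_iff_mem _ _).mpr hw0W hv)]
            exact Submodule.smul_mem _ _ hv) with h | h
        · exact absurd (Submodule.span_singleton_eq_bot.mp h) hw0
        · exact h.symm
      refine scalar_case σ hr2 hw0 (lam := lam) (fun b hb => hlam b hb w0 hw0W) (fun g b hb => ?_)
        (x := ⟨x, hx⟩) (y := ⟨y, hy⟩) hxr hyr hxy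
        (fun i j hi hj hij b hb v hv => hfix i j hi hj hij b.1 hb v hv)
      obtain ⟨A, hA, hAr, w, hw, hwne⟩ := hall g
      obtain ⟨a, rfl⟩ := Submodule.mem_span_singleton.mp (hspan ▸ hw)
      have hA0 : A w0 ≠ 0 := fun h => hwne (by rw [map_smul, h, smul_zero])
      obtain ⟨z, hz, hz'⟩ := hAr w0
      obtain ⟨a', rfl⟩ := Submodule.mem_span_singleton.mp (hspan ▸ hz)
      have h1 := hA b hb w0
      rw [hlam b hb w0 hw0W, map_smul, ← hz', map_smul, map_smul, ← rho_mul_apply,
        show b * g = g * (g⁻¹ * b * g) by group, rho_mul_apply,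
        hlam _ (Normal.conj_mem' (show BJ.Normal from inferInstance) b hb g) w0 hw0W, map_smul,
        smul_smul, smul_smul] at h1
      have ha' : a' ≠ 0 := fun h0 => hA0 (by rw [← hz', h0, zero_smul, map_zero])
      have hg0 : σ g w0 ≠ 0 := fun h0 => hw0 (rho_injective σ g (by rw [h0, map_zero]))
      have h2 := smul_left_injective k hg0 h1
      rw [mul_comm] at h2
      exact (mul_left_cancel₀ ha' h2).symm
    -- a twist of order `r`
    let Z : Subgroup BJ :=
      { carrier := {b | ∃ c : k, ∀ w ∈ W, σ b.1 w = c • w}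
        one_mem' := ⟨1, fun w _ => by simp⟩
        mul_mem' := fun {a b} => by
          rintro ⟨c, hc⟩ ⟨d, hd⟩
          exact ⟨d * c, fun w hw => by
            rw [Subgroup.coe_mul, rho_mul_apply, hd w hw, map_smul, hc w hw, smul_smul]⟩
        inv_mem' := fun {a} => by
          rintro ⟨c, hc⟩
          refine ⟨c⁻¹, fun w hw => rho_injective σ a.1 ?_⟩
          rw [Subgroup.coe_inv, rho_apply_inv, map_smul, hc w hw, smul_smul]
          rcases eq_or_ne c 0 with rfl | hc0
          · have h := hc w hw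
            rw [zero_smul] at h
            rw [rho_injective σ a.1 (h.trans (map_zero _).symm), smul_zero]
          · rw [inv_mul_cancel₀ hc0, one_smul] }
    haveI : Z.Normal := ⟨fun a ⟨c, hc⟩ g => ⟨c, fun w hw => by
      rw [Subgroup.coe_mul, Subgroup.coe_mul, rho_mul_apply, rho_mul_apply, Subgroup.coe_inv,
        hc _ (hWJ.2.1 _ (BJ.inv_mem g.2) w hw), map_smul, rho_apply_inv]⟩⟩
    haveI : Nontrivial (BJ ⧸ Z) := by
      rw [QuotientGroup.nontrivial_iff]
      intro h
      exact hsc fun b hb => (h ▸ Subgroup.mem_top _ : (⟨b, hb⟩ : BJ) ∈ Z)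
    haveI : Nontrivial (Subgroup.center (BJ ⧸ Z)) := ((hpJ.to_subgroup BJ).to_quotient Z).center_nontrivial
    obtain ⟨zb, hzb⟩ := exists_ne (1 : Subgroup.center (BJ ⧸ Z))
    obtain ⟨a, ha⟩ := QuotientGroup.mk_surjective (zb : BJ ⧸ Z)
    have haZ : a ∉ Z := fun h => hzb (Subtype.ext (by rw [← ha, (QuotientGroup.eq_one_iff a).mpr h]; rfl))
    have hcomm : ∀ b : BJ, a * b * a⁻¹ * b⁻¹ ∈ Z := fun b => by
      rw [← QuotientGroup.eq_one_iff, QuotientGroup.mk_mul, QuotientGroup.mk_mul, QuotientGroup.mk_mul,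
        QuotientGroup.mk_inv, QuotientGroup.mk_inv, ha, ← Subgroup.mem_center_iff.mp zb.2 (b : BJ ⧸ Z),
        mul_inv_cancel_right, mul_inv_cancel]
    choose sv hsv using hcomm
    have hsab : ∀ b : BJ, ∀ w ∈ W, σ a.1 (σ b.1 w) = sv b • σ b.1 (σ a.1 w) := by
      intro b w hw
      rw [← rho_mul_apply, show a.1 * b.1 = (a * b * a⁻¹ * b⁻¹ : BJ).1 * (b.1 * a.1) by
        simp only [Subgroup.coe_mul, Subgroup.coe_inv]; group, rho_mul_apply, rho_mul_apply,
        hsv b _ (hWJ.2.1 _ b.2 _ (hWJ.2.1 _ a.2 w hw))]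
    obtain ⟨w0, hw0W, hw0⟩ := Submodule.exists_mem_ne_zero_of_ne_bot hW.1
    have hba : ∀ b : BJ, σ b.1 (σ a.1 w0) ≠ 0 := fun b h =>
      hw0 (rho_injective σ a.1 (rho_injective σ b.1 (by rw [h, map_zero, map_zero])))
    have hsmul : ∀ b b' : BJ, sv (b * b') = sv b * sv b' := by
      intro b b'
      have h1 := hsab (b * b') w0 hw0W
      rw [Subgroup.coe_mul, rho_mul_apply, hsab b _ (hWJ.2.1 _ b'.2 w0 hw0W), hsab b' w0 hw0W,
        map_smul, smul_smul, ← rho_mul_apply σ b.1] at h1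
      exact (smul_left_injective k (hba (b * b')) h1).symm
    have hsone : sv 1 = 1 := by
      have h1 := hsab 1 w0 hw0W
      rw [OneMemClass.coe_one, map_one, Module.End.one_apply, Module.End.one_apply] at h1
      exact smul_left_injective k (by simpa using hba 1) (h1.symm.trans (one_smul k _).symm)
    let s1 : BJ →* k := { toFun := sv, map_one' := hsone, map_mul' := hsmul }
    have hs1 : s1 ≠ 1 := by
      intro h
      apply haZ
      obtain ⟨c, hc⟩ := schur hWJ (A := σ a.1) (fun u hu w hw => by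
        have h1 := hsab ⟨u, hu⟩ w hw
        rwa [show sv ⟨u, hu⟩ = 1 from DFunLike.congr_fun h ⟨u, hu⟩, one_smul] at h1)
        (fun w hw => hWJ.2.1 _ a.2 w hw)
      exact ⟨c, hc⟩
    -- all twists of order dividing `r`
    let T : Submonoid (BJ →* rootsOfUnity r k) :=
      { carrier := {f | ∃ Φ : Module.End k V, (∀ w ∈ W, Φ w ∈ W) ∧ (∀ w ∈ W, Φ w = 0 → w = 0) ∧
          ∀ b : BJ, ∀ w ∈ W, Φ (σ b.1 w) = ((f b : kˣ) : k) • σ b.1 (Φ w)}
        one_mem' := ⟨1, fun w hw => hw, fun w _ h => h, fun b w _ => by simp⟩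
        mul_mem' := fun {f g} => by
          rintro ⟨Φ, h1, h2, h3⟩ ⟨Ψ, e1, e2, e3⟩
          exact ⟨Φ * Ψ, fun w hw => h1 _ (e1 w hw), fun w hw h => e2 w hw (h2 _ (e1 w hw) h),
            fun b w hw => by
              simp only [Module.End.mul_apply, MonoidHom.mul_apply, Subgroup.coe_mul, Units.val_mul]
              rw [e3 b w hw, map_smul, h3 b _ (e1 w hw), smul_smul, mul_comm]⟩ }
    have hr := (Fact.out : r.Prime)
    haveI : NeZero r := ⟨hr.ne_zero⟩
    haveI : Finite (BJ →* rootsOfUnity r k) := Finite.of_injective _ DFunLike.coe_injective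
    have hf1 : ∃ f ∈ T, f ≠ 1 := by
      obtain ⟨e, he⟩ := IsPGroup.iff_card.mp hpJ
      have hse : s1 ^ r ^ e = 1 := by
        refine MonoidHom.ext fun b => ?_
        rw [MonoidHom.pow_apply, MonoidHom.one_apply, ← map_pow,
          show b ^ r ^ e = 1 from Subtype.ext (by
            rw [SubmonoidClass.coe_pow, ← he, pow_card_eq_one', OneMemClass.coe_one]), map_one]
      have hex : ∃ j, s1 ^ r ^ j = 1 := ⟨e, hse⟩
      have hm0 : Nat.find hex ≠ 0 := fun h => hs1 (by simpa [h] using Nat.find_spec hex)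
      set j := Nat.find hex - 1
      have hj : s1 ^ r ^ j ≠ 1 := Nat.find_min hex (by omega)
      have hjr : ∀ b, (sv b ^ r ^ j) ^ r = 1 := fun b => by
        rw [← pow_mul, ← pow_succ, show j + 1 = Nat.find hex by omega]
        exact DFunLike.congr_fun (Nat.find_spec hex) b
      let f : BJ →* rootsOfUnity r k :=
        { toFun := fun b => rootsOfUnity.mkOfPowEq (sv b ^ r ^ j) (hjr b)
          map_one' := Subtype.ext (Units.ext (by simp [hsone]))
          map_mul' := fun b b' => Subtype.ext (Units.ext (by simp [hsmul, mul_pow])) }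
      have hpw : ∀ n : ℕ, ∀ b : BJ, ∀ w ∈ W,
          (σ a.1 ^ n) (σ b.1 w) = sv b ^ n • σ b.1 ((σ a.1 ^ n) w) ∧ (σ a.1 ^ n) w ∈ W := by
        intro n
        induction n with
        | zero => intro b w hw; simpa using hw
        | succ n ihn =>
          intro b w hw
          obtain ⟨e1, e2⟩ := ihn b w hw
          rw [pow_succ', Module.End.mul_apply, Module.End.mul_apply, e1, map_smul, hsab b _ e2,
            smul_smul, pow_succ]
          exact ⟨rfl, hWJ.2.1 _ a.2 _ e2⟩
      refine ⟨f, ⟨σ a.1 ^ r ^ j, fun w hw => (hpw _ 1 w hw).2, fun w _ h => ?_, fun b w hw => ?_⟩, fun h => hj ?_⟩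
      · rw [← map_pow] at h
        exact rho_injective σ _ (h.trans (map_zero _).symm)
      · simpa [f] using (hpw _ b w hw).1
      · refine MonoidHom.ext fun b => ?_
        have h1 := congrArg (fun u : rootsOfUnity r k => ((u : kˣ) : k)) (DFunLike.congr_fun h b)
        simpa [f, s1] using h1
    -- a twist fixed by the stabiliser
    let cj : J → BJ →* BJ := fun g =>
      { toFun := fun b => ⟨g⁻¹ * b.1 * g, Normal.conj_mem' (show BJ.Normal from inferInstance) _ b.2 g⟩
        map_one' := Subtype.ext (by simp)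
        map_mul' := fun b b' => Subtype.ext (by simp [mul_assoc]) }
    have hcl : ∀ g : J, ∀ f ∈ T, f.comp (cj g) ∈ T := by
      rintro g f ⟨Φ, h1, h2, h3⟩
      obtain ⟨A, hA, hAr, hA0⟩ := hall g
      obtain ⟨A', hA', hA'r, hA'0⟩ := Rel.symm hRJ hWJ (hWJ.map g) (hall g)
      refine ⟨A' * σ g * Φ * σ g⁻¹ * A, fun w _ => hA'r _, fun w hw h => ?_, fun b w hw => ?_⟩
      · obtain ⟨z, hz, hz'⟩ := hAr w
        simp only [Module.End.mul_apply, ← hz', rho_inv_apply] at h
        have h4 := Equi.injOn (hWJ.map g) hA' hA'0 _ ⟨_, h1 z hz, rfl⟩ h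
        have h5 := h2 z hz (rho_injective σ g (h4.trans (map_zero _).symm))
        exact Equi.injOn hWJ hA hA0 w hw (by rw [← hz', h5, map_zero])
      · obtain ⟨z, hz, hz'⟩ := hAr w
        simp only [Module.End.mul_apply]
        rw [hA _ b.2, ← hz', rho_inv_apply]
        have e1 : σ g⁻¹ (σ b.1 (σ g z)) = σ (cj g b).1 z := by
          show _ = σ (g⁻¹ * b.1 * g) z
          rw [rho_mul_apply, rho_mul_apply]
        rw [e1, h3 (cj g b) z hz, map_smul, map_smul, ← rho_mul_apply σ g,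
          show g * (cj g b).1 = b.1 * g by show g * (g⁻¹ * b.1 * g) = _; group, rho_mul_apply,
          hA' _ b.2]
        rfl
    letI : MulAction J T :=
      { smul := fun g f => ⟨f.1.comp (cj g), hcl g f.1 f.2⟩
        one_smul := fun f => Subtype.ext (MonoidHom.ext fun b => by
          show f.1 (cj 1 b) = f.1 b
          congr 1
          exact Subtype.ext (by show (1 : J)⁻¹ * b.1 * 1 = b.1; group))
        mul_smul := fun g h f => Subtype.ext (MonoidHom.ext fun b => by
          show f.1 (cj (g * h) b) = f.1 (cj h (cj g b))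
          congr 1
          exact Subtype.ext (by show (g * h)⁻¹ * b.1 * (g * h) = h⁻¹ * (g⁻¹ * b.1 * g) * h; group)) }
    let TG : Subgroup (BJ →* rootsOfUnity r k) :=
      { T with
        inv_mem' := fun {f} hf => by
          show f⁻¹ ∈ T
          rw [show f⁻¹ = f ^ (orderOf f - 1) by
            rw [inv_eq_iff_mul_eq_one, ← pow_succ', Nat.sub_add_cancel (orderOf_pos f), pow_orderOf_eq_one]]
          exact T.pow_mem hf _ }
    have hdvd : r ∣ Nat.card T := by
      obtain ⟨f, hf, hf1⟩ := hf1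
      refine dvd_trans ?_ (orderOf_dvd_natCard (⟨f, hf⟩ : TG))
      rw [show orderOf (⟨f, hf⟩ : TG) = r from ?_]
      rw [← Subgroup.orderOf_coe]
      refine orderOf_eq_prime (MonoidHom.ext fun b => Subtype.ext (Units.ext ?_)) hf1
      rw [MonoidHom.pow_apply, SubmonoidClass.coe_pow, Units.val_pow_eq_pow_val]
      simpa using congrArg Units.val ((mem_rootsOfUnity r _).mp (f b).2)
    obtain ⟨⟨f, Φ, hΦ1, hΦ2, hΦ3⟩, hf, hf1'⟩ := hpJ.exists_fixed_point_of_prime_dvd_card_of_fixed_point T hdvd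
      (a := 1) (fun g => Subtype.ext (MonoidHom.ext fun b => rfl))
    have hfne : f ≠ 1 := fun h => hf1' (Subtype.ext h.symm)
    have hfinv : ∀ g : J, ∀ b, f (cj g b) = f b := fun g b =>
      DFunLike.congr_fun (congrArg Subtype.val (hf g)) b
    set U : Subgroup J := f.ker.map BJ.subtype
    have hUn : U.Normal := ⟨by
      rintro _ ⟨b, hb, rfl⟩ g
      refine ⟨cj g⁻¹ b, ?_, ?_⟩
      · show f _ = 1
        rw [hfinv]; exact hb
      · show (g⁻¹)⁻¹ * b.1 * g⁻¹ = g * b.1 * g⁻¹
        rw [inv_inv]⟩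
    have hUB : U ≤ BJ := by rintro _ ⟨b, -, rfl⟩; exact b.2
    have hUmem : ∀ b : BJ, b.1 ∈ U ↔ f b = 1 := fun b => by
      constructor
      · rintro ⟨b', hb', he⟩
        rw [← Subtype.ext he]; exact hb'
      · exact fun h => ⟨b, h, rfl⟩
    obtain ⟨W', hWW, hW'⟩ := exists_irred_le (ρ := σ) (U := U) hW.1 (fun u hu => hWJ.2.1 u (hUB hu))
    have hlt : W' ≠ W := by
      rintro rfl
      apply hfne
      obtain ⟨c, hc⟩ := schur hW' (A := Φ) (fun u hu w hw => by
        obtain ⟨b, hb, rfl⟩ := hu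
        have h1 := hΦ3 b w hw
        rw [show f b = 1 from hb] at h1
        simpa using h1) hΦ1
      refine MonoidHom.ext fun b => Subtype.ext (Units.ext ?_)
      have h1 := hΦ3 b w0 hw0W
      rw [hc _ (hWJ.2.1 _ b.2 _ hw0W), hc _ hw0W, map_smul, smul_smul] at h1
      have hc0 : c ≠ 0 := fun h => hw0 (hΦ2 w0 hw0W (by rw [hc _ hw0W, h, zero_smul]))
      have h2 := smul_left_injective k (fun h => hw0 (rho_injective σ b.1 (h.trans (map_zero _).symm))) h1
      simpa using ((mul_eq_right₀ hc0).mp h2.symm)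
    -- the stabiliser below meets `BJ` in `U`
    have hdis : ∀ b ∈ stab σ U hRJ hW', b ∈ BJ → b ∈ U := by
      intro b hb hbB
      by_contra hbU
      apply hlt
      refine eq_of_linked hRJ hUB hbB (fun u hu => ?_) hWJ hW' hWW (mem_stab.mp hb)
      have hfb : ((f ⟨b, hbB⟩ : kˣ) : k) ≠ 1 := fun h =>
        hbU ((hUmem ⟨b, hbB⟩).mpr (Subtype.ext (Units.ext h)))
      have hpr : ∀ c : BJ, (((f c : kˣ) : k)) ^ r = 1 := fun c => by
        simpa using congrArg Units.val ((mem_rootsOfUnity r _).mp (f c).2)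
      have hprim : IsPrimitiveRoot ((f ⟨b, hbB⟩ : kˣ) : k) r := by
        exact IsPrimitiveRoot.iff_orderOf.mpr (orderOf_eq_prime (hpr ⟨b, hbB⟩) hfb)
      obtain ⟨i, -, hi⟩ := hprim.eq_pow_of_pow_eq_one (hpr ⟨u, hu⟩)
      refine ⟨i, u * (b ^ i)⁻¹, ?_, by group⟩
      refine (hUmem (⟨u, hu⟩ * (⟨b, hbB⟩ ^ i)⁻¹)).mpr ?_
      rw [map_mul, map_inv, map_pow, mul_inv_eq_one]
      exact Subtype.ext (Units.ext (by simpa using hi.symm))
    -- moving `x` and `y` into the stabiliser below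
    have hmove : ∀ g : J, ∃ b ∈ BJ, b * g ∈ stab σ U hRJ hW' := by
      intro g
      obtain ⟨A', hA', hA'r, hA'0⟩ := Rel.symm hRJ hWJ (hWJ.map g) (hall g)
      obtain ⟨π, hπ, hπr, hπw⟩ := exists_equi_proj hRJ hW'.2.1
      obtain ⟨z, hz, hz0⟩ := Submodule.exists_mem_ne_zero_of_ne_bot (hW'.map g).1
      have hAz : A' z ≠ 0 := fun h =>
        hz0 (Equi.injOn (hWJ.map g) hA' hA'0 z (Submodule.map_mono hWW hz) h)
      let N : Submodule k V :=
        { carrier := {v | v ∈ W ∧ ∀ b ∈ BJ, π (σ b v) = 0}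
          add_mem' := fun {u v} hu hv => ⟨W.add_mem hu.1 hv.1, fun b hb => by
            rw [map_add, map_add, hu.2 b hb, hv.2 b hb, add_zero]⟩
          zero_mem' := ⟨W.zero_mem, fun b _ => by simp⟩
          smul_mem' := fun c v hv => ⟨W.smul_mem c hv.1, fun b hb => by
            rw [map_smul, map_smul, hv.2 b hb, smul_zero]⟩ }
      have hNbot : N = ⊥ := (hWJ.2.2 N (fun v hv => hv.1) (fun u hu v hv =>
        ⟨hWJ.2.1 u hu v hv.1, fun b hb => by
          rw [← rho_mul_apply]; exact hv.2 _ (BJ.mul_mem hb hu)⟩)).resolve_right fun h => by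
        obtain ⟨w, hw, hw'⟩ := Submodule.exists_mem_ne_zero_of_ne_bot hW'.1
        have h1 : w ∈ N := by rw [h]; exact hWW hw
        have h2 := h1.2 1 BJ.one_mem
        rw [map_one, Module.End.one_apply, hπw w hw] at h2
        exact hw' h2
      obtain ⟨b, hb, hb0⟩ : ∃ b ∈ BJ, π (σ b (A' z)) ≠ 0 := by
        by_contra h
        push_neg at h
        have h1 : A' z ∈ N := ⟨hA'r z, h⟩
        rw [hNbot, Submodule.mem_bot] at h1
        exact hAz h1
      have hrel : Rel σ U (W'.map (σ g)) (W'.map (σ b⁻¹)) := by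
        refine ⟨σ b⁻¹ * π * σ b * A', ?_, fun v => ⟨_, hπr _, rfl⟩, z, hz, fun h => hb0 ?_⟩
        · have h1 := Equi.conj (hπ) b⁻¹
          rw [inv_inv] at h1
          exact h1.mul (fun u hu => hA' u (hUB hu))
        · exact rho_injective σ b⁻¹ (h.trans (map_zero _).symm)
      have hrel' := hrel.map b
      rw [← map_mul_eq, ← map_mul_eq, mul_inv_cancel, map_one_eq] at hrel'
      exact ⟨b, hb, mem_stab.mpr (hrel'.symm hRJ (hW'.map _) hW')⟩
    obtain ⟨b1, hb1, hx'⟩ := hmove ⟨x, hx⟩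
    obtain ⟨b2, hb2, hy'⟩ := hmove ⟨y, hy⟩
    set x' := b1 * ⟨x, hx⟩
    set y' := b2 * ⟨y, hy⟩
    have hq1 : (x' : J ⧸ BJ) = ((⟨x, hx⟩ : J) : J ⧸ BJ) := by
      rw [QuotientGroup.mk_mul, (QuotientGroup.eq_one_iff b1).mpr hb1, one_mul]
    have hq2 : (y' : J ⧸ BJ) = ((⟨y, hy⟩ : J) : J ⧸ BJ) := by
      rw [QuotientGroup.mk_mul, (QuotientGroup.eq_one_iff b2).mpr hb2, one_mul]
    have hxr' : x' ^ r ∈ U := hdis _ (Subgroup.pow_mem _ hx' r) (by
      rw [← QuotientGroup.eq_one_iff, QuotientGroup.mk_pow, hq1, ← QuotientGroup.mk_pow,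
        QuotientGroup.eq_one_iff]; exact hxr)
    have hyr' : y' ^ r ∈ U := hdis _ (Subgroup.pow_mem _ hy' r) (by
      rw [← QuotientGroup.eq_one_iff, QuotientGroup.mk_pow, hq2, ← QuotientGroup.mk_pow,
        QuotientGroup.eq_one_iff]; exact hyr)
    have hxy' : x' * y' * x'⁻¹ * y'⁻¹ ∈ U := hdis _
      (Subgroup.mul_mem _ (Subgroup.mul_mem _ (Subgroup.mul_mem _ hx' hy') (Subgroup.inv_mem _ hx'))
        (Subgroup.inv_mem _ hy')) (by
      rw [← QuotientGroup.eq_one_iff, QuotientGroup.mk_mul, QuotientGroup.mk_mul, QuotientGroup.mk_mul,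
        QuotientGroup.mk_inv, QuotientGroup.mk_inv, hq1, hq2, ← QuotientGroup.mk_inv,
        ← QuotientGroup.mk_inv, ← QuotientGroup.mk_mul, ← QuotientGroup.mk_mul,
        ← QuotientGroup.mk_mul, QuotientGroup.eq_one_iff]
      exact hxy)
    haveI := hUn
    refine ih (Module.finrank k W') ?_ σ hRJ hpJ hW' hx' hy' hxr' hyr' hxy'
      (fun i j hi hj hij u hu v hv => ?_) rfl
    · rw [← hn]
      exact Submodule.finrank_lt_finrank_of_lt (lt_of_le_of_ne hWW hlt)
    · obtain ⟨b, hb, hbe⟩ : ∃ b ∈ BJ, x' ^ i * y' ^ j * u = ⟨x, hx⟩ ^ i * ⟨y, hy⟩ ^ j * b := by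
        refine ⟨((⟨x, hx⟩ : J) ^ i * (⟨y, hy⟩ : J) ^ j)⁻¹ * (x' ^ i * y' ^ j * u), ?_, by group⟩
        rw [← QuotientGroup.eq_one_iff, QuotientGroup.mk_mul, QuotientGroup.mk_mul, QuotientGroup.mk_inv,
          QuotientGroup.mk_mul, QuotientGroup.mk_mul, QuotientGroup.mk_pow, QuotientGroup.mk_pow,
          QuotientGroup.mk_pow, QuotientGroup.mk_pow, hq1, hq2,
          (QuotientGroup.eq_one_iff u).mpr (hUB hu), mul_one, inv_mul_cancel]
      rw [hbe] at hv
      exact hfix i j hi hj hij b.1 hb v hv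

end Cfsg.Agent.H86.Linked
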