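import Mathlib.GroupTheory.Frattini
import Mathlib.GroupTheory.GroupAction.ConjAct
import Mathlib.GroupTheory.PGroup
import Cfsg.Agent.H19.Frattini
import Mathlib.Algebra.Order.Chebyshev

/-!
The number of classes of real elements bounds `P / Φ(P)` from above in a `2`-group.
-/

namespace Cfsg.Agent.H86

open Finset

variable {P : Type*} [Group P] [Finite P]

theorem card_carrier_mul_card_centralizer (x : P) :
    Nat.card (ConjClasses.mk x).carrier * Nat.card (Subgroup.centralizer {x}) = Nat.card P := by
  have h : Nat.card (MulAction.stabilizer (ConjAct P) x) = Nat.card (Subgroup.centralizer {x}) := by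
    rw [ConjAct.stabilizer_eq_centralizer]; rfl
  rw [← ConjAct.orbit_eq_carrier_conjClasses, Nat.card_coe_set_eq, ← MulAction.index_stabilizer, ← h,
    Subgroup.index_mul_card]
  rfl

theorem sq_mem_frattini_of_two_group (hP : IsPGroup 2 P) (x : P) : x ^ 2 ∈ frattini P :=
  have := Fact.mk Nat.prime_two
  (H19.commutator_pow_mem_frattini hP).2 x

/-- If no element is inverted by an element that does not centralize it, the classes of elements
squaring to `1` are at least as many as the elements of `P / Φ(P)`. -/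
theorem card_quotient_frattini_le (hP : IsPGroup 2 P)
    (hirr : ∀ x u : P, u * x * u⁻¹ = x⁻¹ → u * x = x * u) [Fintype P] [DecidableEq (ConjClasses P)]
    [DecidableEq P] :
    Nat.card (P ⧸ frattini P) ≤ ((univ.filter fun x : P => x ^ 2 = 1).image ConjClasses.mk).card := by
  classical
  set X := univ.filter fun x : P => x ^ 2 = 1 with hX
  set F := univ.filter fun g : P => g ∈ frattini P with hF
  set r : P → ℕ := fun g => (univ.filter fun u : P => u ^ 2 = g).card with hr
  have hFc : F.card = Nat.card (frattini P) := by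
    rw [Nat.card_eq_fintype_card, Fintype.card_subtype]
  have hsum : ∑ g ∈ F, r g = Fintype.card P :=
    (card_eq_sum_card_fiberwise (f := fun u : P => u ^ 2) (s := univ) (t := F)
      fun u _ => mem_filter.2 ⟨mem_univ _, sq_mem_frattini_of_two_group hP u⟩).symm
  have hpairs : ∑ g ∈ F, r g ^ 2 = ∑ x ∈ X, Nat.card (Subgroup.centralizer {x}) := by
    have h1 : ∀ g : P, r g ^ 2 = ((univ.filter fun p : P × P => p.1 ^ 2 = g ∧ p.2 ^ 2 = g).card) := by
      intro g
      rw [sq, hr]; dsimp only
      rw [← card_product]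
      congr 1; ext p; simp
    simp only [h1]
    have h2 : ∑ x ∈ X, Nat.card (Subgroup.centralizer {x}) =
        (univ.filter fun p : P × P => p.2 ^ 2 = 1 ∧ p.1 * p.2 = p.2 * p.1).card := by
      rw [card_eq_sum_card_fiberwise (f := fun p : P × P => p.2) (t := X)
        (fun p hp => mem_filter.2 ⟨mem_univ _, (mem_filter.1 hp).2.1⟩)]
      refine sum_congr rfl fun x hx => ?_
      rw [Nat.card_eq_fintype_card, Fintype.card_subtype]
      refine card_bij (fun u _ => (u, x)) (fun u hu => ?_) (fun u _ v _ h => (Prod.ext_iff.1 h).1) ?_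
      · simp only [mem_filter, mem_univ, true_and, Subgroup.mem_centralizer_singleton_iff] at hu hx ⊢
        simp [hX] at hx
        exact ⟨⟨hx, hu⟩, trivial⟩
      · rintro ⟨u, y⟩ h
        simp only [mem_filter, mem_univ, true_and] at h
        obtain ⟨⟨-, hc⟩, rfl⟩ := h
        exact ⟨u, by simpa [Subgroup.mem_centralizer_singleton_iff] using hc, rfl⟩
    have h3 : ∑ g ∈ F, (univ.filter fun p : P × P => p.1 ^ 2 = g ∧ p.2 ^ 2 = g).card =
        (univ.filter fun p : P × P => p.1 ^ 2 = p.2 ^ 2).card := by
      rw [card_eq_sum_card_fiberwise (f := fun p : P × P => p.1 ^ 2) (t := F)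
        (fun p _ => mem_filter.2 ⟨mem_univ _, sq_mem_frattini_of_two_group hP p.1⟩)]
      refine sum_congr rfl fun g _ => ?_
      congr 1; ext p; simp only [mem_filter, mem_univ, true_and]
      constructor
      · rintro ⟨a, b⟩; exact ⟨a.trans b.symm, a⟩
      · rintro ⟨a, b⟩; exact ⟨b, a ▸ b⟩
    rw [h2, h3]
    refine card_bij' (fun p _ => (p.1, p.1⁻¹ * p.2)) (fun p _ => (p.1, p.1 * p.2)) ?_ ?_ ?_ ?_
    · rintro ⟨u, v⟩ h
      simp only [mem_filter, mem_univ, true_and] at h ⊢
      have hc : Commute u (u⁻¹ * v) := by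
        refine hirr _ _ ?_
        rw [mul_inv_cancel_left, mul_inv_rev, inv_inv, eq_inv_mul_iff_mul_eq, ← mul_assoc, ← sq, ← h, sq, mul_assoc,
          mul_inv_cancel, mul_one]
      refine ⟨?_, hc⟩
      have h' := hc.mul_pow 2
      rw [mul_inv_cancel_left, ← h] at h'
      exact mul_eq_left.1 h'.symm
    · rintro ⟨u, x⟩ h
      simp only [mem_filter, mem_univ, true_and] at h ⊢
      rw [(show Commute u x from h.2).mul_pow, h.1, mul_one]
    · rintro ⟨u, v⟩ _; simp
    · rintro ⟨u, x⟩ _; simp
  have hclass : ∑ x ∈ X, Nat.card (Subgroup.centralizer {x}) = (X.image ConjClasses.mk).card * Nat.card P := by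
    rw [← sum_fiberwise_of_maps_to (g := ConjClasses.mk) (t := X.image ConjClasses.mk) fun x hx => mem_image_of_mem _ hx,
      ← smul_eq_mul, ← sum_const]
    refine sum_congr rfl fun c hc => ?_
    obtain ⟨x, hx, rfl⟩ := mem_image.1 hc
    have hfib : X.filter (fun y => ConjClasses.mk y = ConjClasses.mk x) =
        univ.filter fun y => ConjClasses.mk y = ConjClasses.mk x := by
      ext y
      simp only [mem_filter, mem_univ, true_and, and_iff_right_iff_imp]
      intro h
      obtain ⟨g, hg⟩ := isConj_iff.1 (ConjClasses.mk_eq_mk_iff_isConj.1 h.symm)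
      simp only [hX, mem_filter, mem_univ, true_and] at hx ⊢
      rw [← hg, conj_pow, hx, mul_one, mul_inv_cancel]
    rw [hfib, sum_congr rfl fun y hy => ?_]
    · rw [sum_const, smul_eq_mul]
      rw [← card_carrier_mul_card_centralizer x]
      congr 1
      rw [Nat.card_eq_fintype_card, Fintype.card_of_subtype]
      intro y; simp [ConjClasses.mem_carrier_iff_mk_eq]
    · have hy' : ConjClasses.mk y = ConjClasses.mk x := (mem_filter.1 hy).2
      have h1 := card_carrier_mul_card_centralizer y
      rw [hy', ← card_carrier_mul_card_centralizer x] at h1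
      exact Nat.eq_of_mul_eq_mul_left (Nat.card_pos_iff.2 ⟨⟨⟨x, ConjClasses.mem_carrier_mk⟩⟩, inferInstance⟩) h1
  have hcs : (∑ g ∈ F, r g) ^ 2 ≤ F.card * ∑ g ∈ F, r g ^ 2 := sq_sum_le_card_mul_sum_sq
  rw [hsum, hpairs, hclass, hFc, ← Nat.card_eq_fintype_card, sq] at hcs
  conv_lhs at hcs => rw [Subgroup.card_eq_card_quotient_mul_card_subgroup (frattini P)]
  refine Nat.le_of_mul_le_mul_right ?_ (show 0 < Nat.card (frattini P) * Nat.card P from Nat.mul_pos Nat.card_pos Nat.card_pos)
  calc Nat.card (P ⧸ frattini P) * (Nat.card (frattini P) * Nat.card P)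
      = Nat.card (P ⧸ frattini P) * Nat.card (frattini P) * (Nat.card (P ⧸ frattini P) * Nat.card (frattini P)) := by
        rw [← Subgroup.card_eq_card_quotient_mul_card_subgroup]
        rw [← mul_assoc, ← Subgroup.card_eq_card_quotient_mul_card_subgroup]
    _ ≤ _ := by rw [mul_left_comm] at hcs ⊢; exact hcs.trans_eq (by ring)

end Cfsg.Agent.H86
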