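import Cfsg.Agent.H86.LinearDerivedP
import Cfsg.Agent.H2.PrimeGraphOdd
import Cfsg.Agent.H77.PSL2Aut

/-!
The derived length of a Sylow 2-subgroup of a symplectic group in odd characteristic.
-/

namespace Cfsg.Agent.H86

open Module Matrix

universe u

variable {F : Type u} [Field F] [Fintype F]

theorem exists_nonabelian_two_sl2 (h2 : (2 : F) ≠ 0) :
    ∃ W : Subgroup (Matrix.SpecialLinearGroup (Fin 2) F), IsPGroup 2 W ∧ derivedSeries W 1 ≠ ⊥ := by
  obtain ⟨a, b, hab⟩ := H77.PSL2Aut.exists_sq_add_sq h2 (-1 : F)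
  let I : Matrix.SpecialLinearGroup (Fin 2) F := ⟨!![0, 1; -1, 0], by simp [Matrix.det_fin_two]⟩
  let J : Matrix.SpecialLinearGroup (Fin 2) F :=
    ⟨!![a, b; b, -a], by simp [Matrix.det_fin_two]; linear_combination -hab⟩
  have four : ∀ g : Matrix.SpecialLinearGroup (Fin 2) F,
      (g : Matrix (Fin 2) (Fin 2) F) * g = -1 → g ^ (2 ^ 2) = 1 := fun g hg => by
    apply Subtype.ext
    rw [show (2 : ℕ) ^ 2 = 1 + 1 + (1 + 1) from rfl, pow_add, pow_add, pow_one,
      Matrix.SpecialLinearGroup.coe_mul, Matrix.SpecialLinearGroup.coe_mul, hg]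
    simp
  have hI4 : I ^ (2 ^ 2) = 1 := four I (by
    show (!![0, 1; -1, 0] : Matrix (Fin 2) (Fin 2) F) * !![0, 1; -1, 0] = -1
    ext i j
    fin_cases i <;> fin_cases j <;> simp [Matrix.mul_apply, Fin.sum_univ_two])
  have hJ4 : J ^ (2 ^ 2) = 1 := four J (by
    show (!![a, b; b, -a] : Matrix (Fin 2) (Fin 2) F) * !![a, b; b, -a] = -1
    ext i j
    fin_cases i <;> fin_cases j <;> simp [Matrix.mul_apply, Fin.sum_univ_two] <;>
      first
        | ring1
        | linear_combination hab)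
  have hJI : J * I * J⁻¹ = I⁻¹ := by
    rw [mul_inv_eq_iff_eq_mul]
    apply Subtype.ext
    show (!![a, b; b, -a] : Matrix (Fin 2) (Fin 2) F) * !![0, 1; -1, 0] =
      (!![0, 1; -1, 0] : Matrix (Fin 2) (Fin 2) F).adjugate * !![a, b; b, -a]
    rw [Matrix.adjugate_fin_two]
    ext i j
    fin_cases i <;> fin_cases j <;> simp [Matrix.mul_apply, Fin.sum_univ_two]
  have hp : ∀ g : Matrix.SpecialLinearGroup (Fin 2) F, g ^ (2 ^ 2) = 1 → IsPGroup 2 (Subgroup.zpowers g) := by
    intro g hg x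
    obtain ⟨x, i, hi⟩ := x
    refine ⟨2, Subtype.ext ?_⟩
    rw [SubmonoidClass.coe_pow, OneMemClass.coe_one]
    show x ^ 2 ^ 2 = 1
    rw [← hi]
    show (g ^ i) ^ 2 ^ 2 = 1
    rw [← zpow_natCast, ← _root_.zpow_mul, mul_comm i, _root_.zpow_mul, zpow_natCast, hg, _root_.one_zpow]
  have hmem : J ∈ Subgroup.normalizer ((Subgroup.zpowers I : Subgroup _) : Set (Matrix.SpecialLinearGroup (Fin 2) F)) := by
    rw [Subgroup.mem_normalizer_iff]
    have key : ∀ i : ℤ, J * I ^ i * J⁻¹ = I ^ (-i) := fun i => by rw [← conj_zpow, hJI, _root_.inv_zpow, _root_.zpow_neg]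
    intro g
    constructor
    · rintro ⟨i, rfl⟩
      exact ⟨-i, (key i).symm⟩
    · rintro ⟨i, hi⟩
      refine ⟨-i, mul_left_cancel (a := J) (mul_right_cancel (b := J⁻¹) ?_)⟩
      rw [key, neg_neg]
      exact hi
  refine ⟨Subgroup.zpowers J ⊔ Subgroup.zpowers I,
    (hp J hJ4).to_sup_of_normal_right' (hp I hI4) (Subgroup.zpowers_le.2 hmem), fun h => ?_⟩
  rw [derivedSeries_one, commutator_def, Subgroup.commutator_eq_bot_iff_le_centralizer] at h
  have hc := congrArg Subtype.val (Subgroup.mem_centralizer_iff.1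
    (h (Subgroup.mem_top (⟨J, Subgroup.mem_sup_left (Subgroup.mem_zpowers J)⟩ : ↥(Subgroup.zpowers J ⊔ Subgroup.zpowers I))))
    ⟨I, Subgroup.mem_sup_right (Subgroup.mem_zpowers I)⟩ (Subgroup.mem_top _))
  simp only [Subgroup.coe_mul] at hc
  have h2' : I⁻¹ = I := by rw [← hJI, ← hc, mul_inv_cancel_right]
  have h3 := congrArg (fun g : Matrix.SpecialLinearGroup (Fin 2) F => g.1 0 1) h2'
  change (!![0, 1; -1, 0] : Matrix (Fin 2) (Fin 2) F).adjugate 0 1 = 1 at h3
  rw [Matrix.adjugate_fin_two] at h3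
  simp at h3
  exact h2 (by linear_combination (-1 : F) * h3)

/-- A 2-subgroup of `Sp(2 ^ (j + 1))` of derived length above `j + 1`. -/
theorem exists_two_group_sp (h2 : (2 : F) ≠ 0) (j : ℕ) :
    ∃ (W : Type u) (_ : Group W) (_ : Finite W),
      IsPGroup 2 W ∧ derivedSeries W (j + 1) ≠ ⊥ ∧
      ∃ f : W →* Matrix.symplecticGroup (Fin (2 ^ j)) F, Function.Injective f := by
  classical
  induction j with
  | zero =>
    obtain ⟨W, hW, hW'⟩ := exists_nonabelian_two_sl2 h2
    obtain ⟨e, he⟩ := H2.exists_sl2_embedding (F := F) F (d := 1) (Module.finrank_self F)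
    exact ⟨W, inferInstance, inferInstance, hW, hW', e.comp W.subtype,
      he.comp (Subgroup.subtype_injective W)⟩
  | succ j ih =>
    obtain ⟨D, _, _, hD, hDj, f, hf⟩ := ih
    let Q := Multiplicative (ZMod 2)
    have hQ : Nat.card Q = 2 := by simp [Q]
    haveI : Nontrivial Q := Finite.one_lt_card_iff_nontrivial.1 (by omega)
    haveI : Finite (D ≀ᵣ Q) := Finite.of_equiv _ (RegularWreathProduct.equivProd D Q).symm
    obtain ⟨m, hm⟩ : ∃ m, m = 2 ^ j := ⟨_, rfl⟩
    revert f
    rw [← hm]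
    intro f hf
    let B : LinearMap.BilinForm F (Q → Fin m ⊕ Fin m → F) :=
      ∑ t : Q, (H2.sympBilin m F).compl₁₂ (LinearMap.proj t) (LinearMap.proj t)
    have hB : ∀ u v, B u v = ∑ t : Q, H2.sympBilin m F (u t) (v t) := fun u v => by
      simp [B, LinearMap.sum_apply]
    have hA : B.IsAlt := fun u => by
      rw [hB]; exact Finset.sum_eq_zero fun t _ => H2.sympBilin_isAlt m F (u t)
    have key : ∀ u, (∀ v, B u v = 0) → u = 0 := fun u hu => funext fun t =>
      H2.sympForm_eq_zero_forall fun v => by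
        have h := hu (Pi.single t v)
        rw [hB, Finset.sum_eq_single t (fun s _ hs => by rw [Pi.single_eq_of_ne hs, map_zero])
          (fun h => absurd (Finset.mem_univ t) h), Pi.single_eq_same, H2.sympBilin_apply] at h
        exact h
    have hN : B.Nondegenerate := ⟨key, fun v hv => key v fun u => by rw [← hA.neg_eq, hv u, neg_zero]⟩
    obtain ⟨φ⟩ := H2.isometries_equiv_sp B hN hA (m := 2 ^ (j + 1)) (by
      rw [Module.finrank_pi_fintype]
      simp [← Nat.card_eq_fintype_card, hQ, Nat.card_fin, hm, pow_succ]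
      ring)
    let σ : D ≀ᵣ Q →* Module.End F (Q → Fin m ⊕ Fin m → F) :=
      { toFun := fun a => LinearMap.pi fun t =>
          (H2.spToLinearEquiv m F (f (a.left t))).toLinearMap.comp (LinearMap.proj (a.right⁻¹ * t))
        map_one' := LinearMap.ext fun u => funext fun t => by simp
        map_mul' := fun a b => LinearMap.ext fun u => funext fun t => by
          show H2.spToLinearEquiv m F (f ((a * b).left t)) (u ((a * b).right⁻¹ * t)) =
            H2.spToLinearEquiv m F (f (a.left t))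
              (H2.spToLinearEquiv m F (f (b.left (a.right⁻¹ * t))) (u (b.right⁻¹ * (a.right⁻¹ * t))))
          rw [RegularWreathProduct.mul_left, Pi.mul_apply, map_mul, map_mul,
            RegularWreathProduct.mul_right, _root_.mul_inv_rev, mul_assoc]
          rfl }
    have hσ : ∀ (a : D ≀ᵣ Q) u t, σ a u t = H2.spToLinearEquiv m F (f (a.left t)) (u (a.right⁻¹ * t)) :=
      fun a u t => rfl
    let g : D ≀ᵣ Q →* ((Q → Fin m ⊕ Fin m → F) ≃ₗ[F] (Q → Fin m ⊕ Fin m → F)) :=
      (LinearMap.GeneralLinearGroup.generalLinearEquiv F _).toMonoidHom.comp σ.toHomUnits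
    have hg : ∀ a u, g a u = σ a u := fun a u => rfl
    let g' : D ≀ᵣ Q →* H2.isometries B := g.codRestrict _ fun a u v => by
      rw [hB, hB, hg, hg, ← Equiv.sum_comp (Equiv.mulLeft a.right⁻¹) (fun t => H2.sympBilin m F (u t) (v t))]
      refine Finset.sum_congr rfl fun t _ => ?_
      rw [hσ, hσ]
      exact ((H2.spEquivIsometries m F) (f (a.left t))).2 _ _
    refine ⟨D ≀ᵣ Q, inferInstance, inferInstance, ?_, derivedSeries_wreath_ne_bot hDj,
      φ.toMonoidHom.comp g', φ.injective.comp fun a b hab => ?_⟩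
    · obtain ⟨c, hc⟩ := hD.exists_card_eq
      exact IsPGroup.of_card (n := c * 2 + 1)
        (by rw [RegularWreathProduct.card, hc, hQ, ← pow_mul, pow_succ])
    have h1 : ∀ u, σ a u = σ b u := fun u => by
      rw [← hg, ← hg]
      exact congrArg (fun e : H2.isometries B =>
        (e : (Q → Fin m ⊕ Fin m → F) ≃ₗ[F] (Q → Fin m ⊕ Fin m → F)) u) hab
    haveI : Nonempty (Fin m) := ⟨⟨0, hm ▸ Nat.two_pow_pos j⟩⟩
    obtain ⟨v, hv⟩ := exists_ne (0 : Fin m ⊕ Fin m → F)
    have hr : a.right = b.right := by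
      by_contra hr
      have h3 := congrFun (h1 (Pi.single 1 v)) b.right
      rw [hσ, hσ, inv_mul_cancel, Pi.single_eq_same,
        Pi.single_eq_of_ne (fun h => hr (inv_mul_eq_one.1 h)), map_zero] at h3
      exact hv ((LinearEquiv.map_eq_zero_iff _).1 h3.symm)
    ext t
    · refine hf (H2.ext_of_mulVec fun w => ?_)
      have h3 := congrFun (h1 (Pi.single (b.right⁻¹ * t) w)) t
      rw [hσ, hσ, hr, Pi.single_eq_same, H2.spToLinearEquiv_apply, H2.spToLinearEquiv_apply] at h3
      exact h3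
    · exact hr

/-- The derived length of a Sylow 2-subgroup of `Sp(2n)` in odd characteristic. -/
theorem derivedSeries_sylow_two_sp [DecidableEq F] {q : ℕ} (hF : Fintype.card F = q) (hq : Odd q)
    {n : ℕ} (hn : 1 ≤ n) (R : Sylow 2 (Matrix.symplecticGroup (Fin n) F)) :
    derivedSeries (R : Subgroup (Matrix.symplecticGroup (Fin n) F)) (Nat.log 2 (2 * n) + 1) = ⊥ ∧
      derivedSeries (R : Subgroup (Matrix.symplecticGroup (Fin n) F)) (Nat.log 2 (2 * n)) ≠ ⊥ := by
  haveI : Fact (Nat.Prime 2) := ⟨Nat.prime_two⟩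
  have hq2 : ¬ 2 ∣ q := fun h => by rw [Nat.odd_iff] at hq; omega
  have h2 : (2 : F) ≠ 0 := by
    intro h
    obtain ⟨r, hr⟩ := CharP.exists F
    have hrp : r.Prime := (CharP.char_is_prime_or_zero F r).resolve_right (CharP.char_ne_zero_of_finite F r)
    have h1 : r ∣ 2 := (CharP.cast_eq_zero_iff F r 2).1 (by exact_mod_cast h)
    obtain rfl := (Nat.prime_dvd_prime_iff_eq hrp Nat.prime_two).1 h1
    exact hq2 ((CharP.cast_eq_zero_iff F 2 q).1 (hF ▸ Nat.cast_card_eq_zero F))
  have he : orderOf (q : ZMod 2) = 1 := by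
    rw [orderOf_eq_one_iff, ZMod.natCast_eq_one_iff_odd]
    exact hq
  constructor
  · rw [Subgroup.eq_bot_iff_forall]
    intro x hx
    let ρ : (R : Subgroup (Matrix.symplecticGroup (Fin n) F)) →* End F (Fin n ⊕ Fin n → F) :=
      ((Matrix.toLinAlgEquiv' (R := F) (n := Fin n ⊕ Fin n)).toAlgHom.toRingHom.toMonoidHom.comp
        (Matrix.symplecticGroup (Fin n) F).subtype).comp
        (R : Subgroup (Matrix.symplecticGroup (Fin n) F)).subtype
    have h1 := derived_trivial_finite (p := 2) hF hq2 (2 * n) (Fin n ⊕ Fin n → F)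
      (by rw [Module.finrank_fintype_fun_eq_card, Fintype.card_sum, Fintype.card_fin]; omega)
      _ R.2 ρ x (by rwa [he, Nat.div_one])
    exact ((Matrix.toLinAlgEquiv' (R := F) (n := Fin n ⊕ Fin n)).injective.comp
      (Subtype.val_injective.comp (Subgroup.subtype_injective _))) (h1.trans (map_one ρ).symm)
  · obtain ⟨j, hj⟩ : ∃ j, Nat.log 2 (2 * n) = j + 1 :=
      ⟨_, (Nat.sub_add_cancel (Nat.log_pos Nat.one_lt_two (by omega))).symm⟩
    have hjn : 2 ^ j ≤ n := by
      have h := Nat.pow_log_le_self 2 (x := 2 * n) (by omega)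
      rw [hj, pow_succ] at h
      omega
    obtain ⟨W, _, _, hW, hWj, f, hf⟩ := exists_two_group_sp (F := F) h2 j
    obtain ⟨r, rfl⟩ := Nat.exists_eq_add_of_le hjn
    obtain ⟨g, hg⟩ := H2.exists_prod_embedding F (2 ^ j) r
    let γ : W →* Matrix.symplecticGroup (Fin (2 ^ j + r)) F := g.comp ((MonoidHom.inl _ _).comp f)
    have hγ : Function.Injective γ := hg.comp fun a b hab => hf (congrArg Prod.fst hab)
    have hR : IsPGroup 2 γ.range := hW.of_surjective γ.rangeRestrict γ.rangeRestrict_surjective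
    obtain ⟨T, hT⟩ := hR.exists_le_sylow
    let e : W →* (R : Subgroup (Matrix.symplecticGroup (Fin (2 ^ j + r)) F)) :=
      (T.equiv R).toMonoidHom.comp ((Subgroup.inclusion hT).comp γ.rangeRestrict)
    have he' : Function.Injective e := (T.equiv R).injective.comp
      ((Subgroup.inclusion_injective hT).comp fun a b hab => hγ (congrArg Subtype.val hab))
    rw [hj]
    intro h
    apply hWj
    rw [Subgroup.eq_bot_iff_forall]
    exact fun x hx => he' ((derivedSeries_le_of_hom e (j + 1) h hx).trans (map_one e).symm)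

end Cfsg.Agent.H86
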