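import Cfsg.Agent.H86.TwistedClasses

/-!
Descending a normal series: in a Camina pair every irreducible submodule of a normal subgroup is
linked with one of its translates from outside the pair subgroup.
-/

set_option autoImplicit false

namespace Cfsg.Agent.H86.Linked

open Subgroup LinearMap

variable {k : Type*} [Field k] [IsAlgClosed k] {V : Type*} [AddCommGroup V] [Module k V]
  [FiniteDimensional k V] {R : Type*} [Group R] [Finite R] {ρ : R →* Module.End k V}

omit [IsAlgClosed k] [FiniteDimensional k V] in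
/-- An irreducible subspace with trivial action is a line. -/
theorem eq_span_of_trivial {U : Subgroup R} {W : Submodule k V} (hW : Irred ρ U W)
    (ht : ∀ u ∈ U, ∀ w ∈ W, ρ u w = w) {w : V} (hw : w ∈ W) (hw0 : w ≠ 0) : W = k ∙ w := by
  rcases hW.2.2 (k ∙ w) ((Submodule.span_singleton_le_iff_mem _ _).mpr hw) (fun u hu y hy => by
      rw [ht u hu y ((Submodule.span_singleton_le_iff_mem _ _).mpr hw hy)]; exact hy) with h | h
  · exact absurd (Submodule.span_singleton_eq_bot.mp h) hw0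
  · exact h.symm

omit [FiniteDimensional k V] [IsAlgClosed k] in
/-- Powers of a group element and powers of operators. -/
theorem mem_of_pow_mem {H : Subgroup R} {g : R} {r i : ℕ} (hr : r.Prime) (hgr : g ^ r ∈ H)
    (hi : g ^ i ∈ H) (hri : ¬ r ∣ i) : g ∈ H := by
  have h := Nat.gcd_eq_gcd_ab r i
  rw [(hr.coprime_iff_not_dvd.mpr hri : Nat.gcd r i = 1)] at h
  rw [← zpow_one g, ← Nat.cast_one, h, zpow_add, zpow_mul, zpow_mul, zpow_natCast, zpow_natCast]
  exact H.mul_mem (H.zpow_mem hgr _) (H.zpow_mem hi _)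

omit [IsAlgClosed k] in
/-- A stabiliser lifts to a subgroup above when it avoids it. -/
theorem stab_le_stab (hR : (Nat.card R : k) ≠ 0) {U U' : Subgroup R} [U.Normal] [U'.Normal]
    (hle : U' ≤ U) {W W' : Submodule k V} (hW : Irred ρ U W) (hW' : Irred ρ U' W')
    (hWW : W' ≤ W) (hdis : stab ρ U' hR hW' ⊓ U ≤ U') :
    stab ρ U' hR hW' ≤ stab ρ U hR hW := by
  classical
  intro h hh
  obtain ⟨A, hA, hAr, w, hw, hw0⟩ := mem_stab.mp hh
  obtain ⟨π, hπ, hπr, hπw⟩ := exists_equi_proj hR hW'.2.1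
  letI := Fintype.ofFinite U
  refine mem_stab.mpr ⟨avg ρ U (A * π), equi_avg _, fun v => ?_, w, hWW hw, ?_⟩
  · rw [avg_apply]
    exact Submodule.sum_mem _ fun u _ =>
      (hW.map h).2.1 _ (U.inv_mem u.2) _ (Submodule.map_mono hWW (hAr _))
  · have hval : ∀ u : U, ρ (u : R)⁻¹ ((A * π) (ρ (u : R) w)) =
        if (u : R) ∈ U' then A w else 0 := by
      intro u
      split_ifs with hu
      · rw [Module.End.mul_apply, hπw _ (hW'.2.1 _ hu _ hw), hA _ hu, rho_inv_apply]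
      · have h0 : π (ρ (u : R) w) = 0 := by
          by_contra h0
          have hrel : Rel ρ U' (W'.map (ρ (u : R))) W' := ⟨π, hπ, hπr, _, ⟨w, hw, rfl⟩, h0⟩
          exact hu (hdis ⟨mem_stab.mpr (hrel.symm hR (hW'.map _) hW'), u.2⟩)
        rw [Module.End.mul_apply, h0, map_zero, map_zero]
    rw [avg_apply, Finset.sum_congr rfl (fun u _ => hval u), Finset.sum_ite, Finset.sum_const_zero,
      add_zero, Finset.sum_const, ← Nat.cast_smul_eq_nsmul k]
    refine smul_ne_zero ?_ hw0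
    have : (Finset.univ.filter (fun u : U => (u : R) ∈ U')).card = Nat.card U' := by
      rw [← Fintype.card_subtype, ← Nat.card_eq_fintype_card]
      exact Nat.card_congr
        { toFun := fun u => ⟨u.1.1, u.2⟩
          invFun := fun u => ⟨⟨u.1, hle u.2⟩, u.2⟩
          left_inv := fun _ => rfl
          right_inv := fun _ => rfl }
    rw [this]
    exact natCard_ne_zero hR U'

/-- An irreducible subspace invariant up to linkage below a cyclic extension is everything. -/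
theorem eq_of_linked (hR : (Nat.card R : k) ≠ 0) {U U' : Subgroup R} [U'.Normal]
    (hle : U' ≤ U) {u0 : R} (hu0 : u0 ∈ U) (hgen : ∀ u ∈ U, ∃ i : ℕ, ∃ v ∈ U', u = v * u0 ^ i)
    {W W' : Submodule k V} (hW : Irred ρ U W) (hW' : Irred ρ U' W') (hWW : W' ≤ W)
    (hrel : Rel ρ U' W' (W'.map (ρ u0))) : W' = W := by
  obtain ⟨A, hA, hAr, hA0⟩ := hrel
  obtain ⟨π, hπ, hπr, hπw⟩ := exists_equi_proj hR hW'.2.1
  set Φ : Module.End k V := ρ u0⁻¹ * A * π
  have hΦr : ∀ v, Φ v ∈ W' := fun v => mem_map_rho ρ |>.mp (hAr _)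
  have hΦπ : ∀ v, Φ (π v) = Φ v := fun v => by
    simp only [Φ, Module.End.mul_apply, hπw _ (hπr v)]
  have hΦ : ∀ v ∈ U', ∀ y, Φ (ρ v y) = ρ (u0⁻¹ * v * u0) (Φ y) := fun v hv y => by
    simp only [Φ, Module.End.mul_apply]
    rw [hπ v hv, hA v hv, rho_mul_apply, rho_mul_apply, rho_apply_inv]
  have hΦon : ∀ y ∈ W', ∃ z ∈ W', Φ z = y := by
    intro y hy
    have h1 := Equi.map_eq hW'.2.1 (hW'.map u0) hA hA0 (fun w _ => hAr w)
    obtain ⟨z, hz, hz'⟩ : ρ u0 y ∈ W'.map A := by rw [h1]; exact ⟨y, hy, rfl⟩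
    refine ⟨z, hz, ?_⟩
    simp only [Φ, Module.End.mul_apply, hπw z hz, hz', rho_inv_apply]
  let K : Submodule k (Module.End k V) :=
    { carrier := {a | Equi ρ U' a ∧ (∀ v, a v ∈ W) ∧ ∀ v, a (π v) = a v}
      add_mem' := fun {a b} ha hb => ⟨fun u hu v => by simp [ha.1 u hu v, hb.1 u hu v],
        fun v => W.add_mem (ha.2.1 v) (hb.2.1 v), fun v => by simp [ha.2.2 v, hb.2.2 v]⟩
      zero_mem' := ⟨fun u _ v => by simp, fun v => W.zero_mem, fun v => rfl⟩
      smul_mem' := fun c a ha => ⟨fun u hu v => by simp [ha.1 u hu v],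
        fun v => W.smul_mem c (ha.2.1 v), fun v => by simp [ha.2.2 v]⟩ }
  have hL : ∀ a ∈ K, ρ u0 * a * Φ ∈ K := by
    rintro a ⟨ha1, ha2, ha3⟩
    refine ⟨fun v hv y => ?_, fun v => hW.2.1 _ hu0 _ (ha2 _), fun v => ?_⟩
    · simp only [Module.End.mul_apply]
      rw [hΦ v hv, ha1 _ (Normal.conj_mem' (show U'.Normal from inferInstance) v hv u0),
        rho_mul_apply, rho_mul_apply, rho_apply_inv]
    · simp only [Module.End.mul_apply, hΦπ]
  let L : Module.End k K :=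
    { toFun := fun a => ⟨ρ u0 * a.1 * Φ, hL a.1 a.2⟩
      map_add' := fun a b => Subtype.ext (by simp [mul_add, add_mul])
      map_smul' := fun c a => Subtype.ext (by simp) }
  haveI : Nontrivial K := by
    obtain ⟨w, hw, hw0⟩ := Submodule.exists_mem_ne_zero_of_ne_bot hW'.1
    refine ⟨⟨π, hπ, fun v => hWW (hπr v), fun v => hπw _ (hπr v)⟩, 0, fun h => hw0 ?_⟩
    have h1 := congrArg (fun a : K => (a : Module.End k V) w) h
    simpa [hπw w hw] using h1
  obtain ⟨c, hc⟩ := Module.End.exists_eigenvalue L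
  obtain ⟨⟨a, ha1, ha2, ha3⟩, hv⟩ := hc.exists_hasEigenvector
  have hev : ∀ v, ρ u0 (a (Φ v)) = c • a v := fun v => by
    have h1 := congrArg (fun b : K => (b : Module.End k V) v) hv.apply_eq_smul
    simpa [L] using h1
  have hne : ∃ w ∈ W', a w ≠ 0 := by
    by_contra h
    push_neg at h
    refine hv.2 (Subtype.ext (LinearMap.ext fun v => ?_))
    show a v = 0
    rw [← ha3 v]
    exact h _ (hπr v)
  have hXstab : Stable ρ U (W'.map a) := by
    have hu : ∀ y ∈ W'.map a, ρ u0 y ∈ W'.map a := by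
      rintro _ ⟨w, hw, rfl⟩
      obtain ⟨z, hz, rfl⟩ := hΦon w hw
      rw [hev z]
      exact Submodule.smul_mem _ _ ⟨z, hz, rfl⟩
    have hv' : ∀ v ∈ U', ∀ y ∈ W'.map a, ρ v y ∈ W'.map a := by
      rintro v hv' _ ⟨w, hw, rfl⟩
      exact ⟨ρ v w, hW'.2.1 v hv' w hw, ha1 v hv' w⟩
    intro u hu' y hy
    obtain ⟨i, v, hv1, rfl⟩ := hgen u hu'
    rw [rho_mul_apply]
    refine hv' v hv1 _ ?_
    clear hu'
    induction i with
    | zero => simpa using hy
    | succ i ih => rw [pow_succ', rho_mul_apply]; exact hu _ ih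
  have hX : W'.map a = W := by
    refine (hW.2.2 _ (by rintro _ ⟨w, -, rfl⟩; exact ha2 w) hXstab).resolve_left ?_
    intro h
    obtain ⟨w, hw, h0⟩ := hne
    exact h0 ((Submodule.eq_bot_iff _).mp h _ ⟨w, hw, rfl⟩)
  refine Submodule.eq_of_le_of_finrank_le hWW ?_
  calc Module.finrank k W = Module.finrank k (W'.map a) := by rw [hX]
    _ ≤ Module.finrank k W' := Submodule.finrank_map_le _ _

omit [IsAlgClosed k] in
/-- Operators commuting on `W` extend to linkage. -/
theorem rel_of_commute_on (hR : (Nat.card R : k) ≠ 0) {U : Subgroup R} {W W' : Submodule k V}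
    (hW : Irred ρ U W) {A : Module.End k V} (hA : ∀ u ∈ U, ∀ w ∈ W, A (ρ u w) = ρ u (A w))
    (hAr : ∀ w ∈ W, A w ∈ W') (h0 : ∃ w ∈ W, A w ≠ 0) : Rel ρ U W W' := by
  obtain ⟨π, hπ, hπr, hπw⟩ := exists_equi_proj hR hW.2.1
  obtain ⟨w, hw, hw0⟩ := h0
  exact ⟨A * π, fun u hu v => by simp [hπ u hu v, hA u hu _ (hπr v)],
    fun v => hAr _ (hπr v), w, hw, by simpa [hπw w hw] using hw0⟩

omit [IsAlgClosed k] [FiniteDimensional k V] in
/-- A normal subgroup of a prime power group has a normal subgroup of prime index below it. -/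
theorem exists_chief_step {r : ℕ} [Fact r.Prime] (hp : IsPGroup r R) {U : Subgroup R} [U.Normal]
    (hU : U ≠ ⊥) : ∃ U' : Subgroup R, U'.Normal ∧ U' ≤ U ∧ ∃ u0 ∈ U, u0 ∉ U' ∧ u0 ^ r ∈ U' ∧
      (∀ g, g⁻¹ * u0 * g * u0⁻¹ ∈ U') ∧ ∀ u ∈ U, ∃ i : ℕ, ∃ v ∈ U', u = v * u0 ^ i := by
  obtain ⟨U', ⟨hn, hlt⟩, hmax⟩ :=
    wellFounded_gt.has_min {X : Subgroup R | X.Normal ∧ X < U} ⟨⊥, inferInstance, bot_lt_iff_ne_bot.mpr hU⟩
  haveI := hn
  set π := QuotientGroup.mk' U'
  set Ub := U.map π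
  haveI : Ub.Normal := Subgroup.Normal.map inferInstance π (QuotientGroup.mk'_surjective U')
  haveI : Nontrivial Ub := by
    rw [Subgroup.nontrivial_iff_ne_bot]
    intro h
    rw [Subgroup.map_eq_bot_iff, QuotientGroup.ker_mk'] at h
    exact hlt.not_ge h
  have hpQ : IsPGroup r (R ⧸ U') := hp.to_quotient U'
  have hd : r ∣ Nat.card Ub := by
    obtain ⟨e, he⟩ := IsPGroup.iff_card.mp (hpQ.to_subgroup Ub)
    rcases Nat.eq_zero_or_pos e with rfl | he0
    · exact absurd he (by simpa using (Finite.one_lt_card (α := Ub)).ne')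
    · rw [he]; exact dvd_pow_self r he0.ne'
  obtain ⟨z, hz, hz1⟩ := IsPGroup.exists_fixed_point_of_prime_dvd_card_of_fixed_point
    ((hpQ.of_surjective ConjAct.toConjAct.toMonoidHom ConjAct.toConjAct.surjective)) Ub hd
    (a := 1) (fun g => smul_one g)
  obtain ⟨o, ho⟩ := IsPGroup.iff_orderOf.mp (hpQ.to_subgroup Ub) z
  have ho0 : o ≠ 0 := by
    rintro rfl
    exact hz1 (orderOf_eq_one_iff.mp (by simpa using ho)).symm
  set z1 := z ^ r ^ (o - 1)
  have hz1r : z1 ^ r = 1 := by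
    rw [← pow_mul, ← pow_succ, Nat.sub_add_cancel (Nat.pos_of_ne_zero ho0), ← ho, pow_orderOf_eq_one]
  have hz1ne : z1 ≠ 1 := fun h => by
    have h1 := orderOf_dvd_of_pow_eq_one h
    rw [ho, Nat.pow_dvd_pow_iff_le_right (Nat.Prime.one_lt Fact.out)] at h1
    omega
  obtain ⟨u0, hu0, hu0z⟩ := Subgroup.mem_map.mp z1.2
  have hcomm : ∀ g, g⁻¹ * u0 * g * u0⁻¹ ∈ U' := by
    intro g
    have h1 := congrArg Subtype.val (hz (ConjAct.toConjAct (π g)⁻¹))
    rw [ConjAct.Subgroup.val_conj_smul, ConjAct.smul_def, ConjAct.ofConjAct_toConjAct, inv_inv] at h1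
    have h2 : (π g)⁻¹ * (z : R ⧸ U') ^ r ^ (o - 1) * π g = (z : R ⧸ U') ^ r ^ (o - 1) := by
      have h3 := congrArg (· ^ r ^ (o - 1)) h1
      rw [show (π g)⁻¹ * (z : R ⧸ U') * π g = (π g)⁻¹ * (z : R ⧸ U') * ((π g)⁻¹)⁻¹ by rw [inv_inv],
        conj_pow, inv_inv] at h3
      exact h3
    rw [← QuotientGroup.eq_one_iff, ← QuotientGroup.mk'_apply, map_mul, map_mul, map_mul, map_inv,
      map_inv, hu0z, SubmonoidClass.coe_pow, h2, mul_inv_cancel]
  have hu0U' : u0 ∉ U' := fun h => hz1ne (Subtype.ext (by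
    rw [← hu0z]; exact (QuotientGroup.eq_one_iff u0).mpr h))
  have hu0r : u0 ^ r ∈ U' := by
    rw [← QuotientGroup.eq_one_iff, ← QuotientGroup.mk'_apply, map_pow, hu0z,
      ← SubmonoidClass.coe_pow, hz1r, OneMemClass.coe_one]
  refine ⟨U', hn, hlt.le, u0, hu0, hu0U', hu0r, hcomm, ?_⟩
  set X := U' ⊔ zpowers u0
  have hXn : X.Normal := ⟨fun a ha g => by
    obtain ⟨v, hv, w, hw, rfl⟩ := mem_sup_of_normal_left.mp ha
    rw [show g * (v * w) * g⁻¹ = g * v * g⁻¹ * (g * w * g⁻¹) by group]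
    refine X.mul_mem (mem_sup_left (hn.conj_mem v hv g)) ?_
    obtain ⟨i, rfl⟩ := mem_zpowers_iff.mp hw
    rw [← conj_zpow]
    refine X.zpow_mem ?_ i
    have h1 := hcomm g⁻¹
    rw [inv_inv] at h1
    rw [show g * u0 * g⁻¹ = (g * u0 * g⁻¹ * u0⁻¹) * u0 by group]
    exact X.mul_mem (mem_sup_left h1) (mem_sup_right (mem_zpowers u0))⟩
  have hXU : X = U := by
    by_contra h
    have hXle : X ≤ U := sup_le hlt.le (zpowers_le.mpr hu0)
    refine hmax X ⟨hXn, lt_of_le_of_ne hXle h⟩ (lt_of_le_of_ne le_sup_left fun he => hu0U' ?_)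
    rw [he]
    exact mem_sup_right (mem_zpowers u0)
  intro u hu
  rw [← hXU] at hu
  obtain ⟨v, hv, w, hw, rfl⟩ := mem_sup_of_normal_left.mp hu
  obtain ⟨i, rfl⟩ := mem_powers_iff_mem_zpowers.mpr hw
  exact ⟨i, v, hv, rfl⟩

/-- Every irreducible subspace of a normal subgroup is linked to a translate from outside `P`. -/
theorem not_stab_le {r : ℕ} [Fact r.Prime] (hp : IsPGroup r R) (hR : (Nat.card R : k) ≠ 0)
    {P : Subgroup R} (hPt : P ≠ ⊤) (hclass : ∀ x, x ∉ P → ∀ u ∈ P, ∃ y, y * x * y⁻¹ = x * u)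
    {U : Subgroup R} [U.Normal] (hUP : U ≤ P) {W : Submodule k V} (hW : Irred ρ U W) :
    ¬ stab ρ U hR hW ≤ P := by
  classical
  suffices H : ∀ (n : ℕ) (U : Subgroup R), Nat.card U = n → ∀ [U.Normal], U ≤ P →
      ∀ (W : Submodule k V) (hW : Irred ρ U W), ¬ stab ρ U hR hW ≤ P from
    H _ U rfl hUP W hW
  intro n
  induction n using Nat.strong_induction_on with
  | _ n ih =>
    intro U hn hUnorm hUP W hW hJ
    -- a trivial action makes every translate linked
    have htriv : ∀ (U' : Subgroup R) [U'.Normal], U' ≤ U → Irred ρ U' W →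
        (∀ u ∈ U', ∀ w ∈ W, ρ u w = w) →
        (∀ g : R, ∀ u ∈ U, g⁻¹ * u * g * u⁻¹ ∈ U') → False := by
      intro U' _ hle hWU' ht hc
      obtain ⟨w, hw, hw0⟩ := Submodule.exists_mem_ne_zero_of_ne_bot hW.1
      have hspan := eq_span_of_trivial hWU' ht hw hw0
      obtain ⟨φ, hφ⟩ := not_forall.mp (mt (Module.forall_dual_apply_eq_zero_iff k w).mp hw0)
      refine hPt (eq_top_iff.mpr fun g _ => hJ (mem_stab.mpr ?_))
      refine rel_of_commute_on hR hW (A := φ.smulRight (ρ g w)) (fun u hu y hy => ?_)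
        (fun y _ => by
          rw [LinearMap.smulRight_apply]; exact Submodule.smul_mem _ _ ⟨w, hw, rfl⟩)
        ⟨w, hw, by rw [LinearMap.smulRight_apply]; exact smul_ne_zero hφ (fun h => hw0 (rho_injective ρ g (h.trans (map_zero _).symm)))⟩
      obtain ⟨a, rfl⟩ := Submodule.mem_span_singleton.mp (hspan ▸ hy)
      obtain ⟨l, hl⟩ := Submodule.mem_span_singleton.mp (hspan ▸ hW.2.1 u hu w hw)
      have hgw : ρ u (ρ g w) = l • ρ g w := by
        rw [← rho_mul_apply, show u * g = g * ((g⁻¹ * u * g * u⁻¹) * u) by group, rho_mul_apply,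
          rho_mul_apply, ht _ (hc g u hu) _ (hW.2.1 u hu w hw), ← hl, map_smul]
      simp only [map_smul, ← hl, LinearMap.smulRight_apply, hgw]
      simp [smul_smul, mul_comm, mul_assoc, mul_left_comm]
    rcases eq_or_ne U ⊥ with hbot | hbot
    · subst hbot
      exact htriv ⊥ le_rfl hW (fun u hu w _ => by simp [(Subgroup.mem_bot).mp hu])
        (fun g u hu => by simp [(Subgroup.mem_bot).mp hu])
    obtain ⟨U', hn', hle, u0, hu0, hu0', hu0r, hcomm, hgen⟩ := exists_chief_step hp hbot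
    haveI := hn'
    have hlt : Nat.card U' < n := by
      rw [← hn]
      refine lt_of_le_of_ne (Subgroup.card_le_of_le hle) fun h => hu0' ?_
      rwa [Subgroup.eq_of_le_of_card_ge hle h.ge]
    obtain ⟨W', hWW, hW'⟩ := exists_irred_le (U := U') hW.1 (fun u hu => hW.2.1 u (hle hu))
    rcases eq_or_ne W' W with rfl | hne
    swap
    · refine ih _ hlt U' rfl (hle.trans hUP) W' hW' (le_trans (stab_le_stab hR hle hW hW' hWW ?_) hJ)
      rintro u ⟨hu1, hu2⟩
      by_contra hu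
      obtain ⟨i, v, hv, rfl⟩ := hgen u hu2
      have hi : u0 ^ i ∈ stab ρ U' hR hW' := by
        have h1 := Subgroup.mul_mem _ (Subgroup.inv_mem _ (le_stab (hR := hR) (hW := hW') hv)) hu1
        rwa [inv_mul_cancel_left] at h1
      have hri : ¬ r ∣ i := fun ⟨j, hj⟩ => hu (U'.mul_mem hv (by
        rw [hj, pow_mul]; exact U'.pow_mem hu0r _))
      exact hne (eq_of_linked hR hle hu0 hgen hW hW' hWW (mem_stab.mp (mem_of_pow_mem Fact.out
        (le_stab (hR := hR) (hW := hW') hu0r) hi hri)))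
    by_cases hJ' : stab ρ U' hR hW' ≤ P
    · exact ih _ hlt U' rfl (hle.trans hUP) W' hW' hJ'
    obtain ⟨x, hx, hxP⟩ := Set.not_subset.mp hJ'
    by_cases hnt : ∃ u ∈ U', ∃ w ∈ W', ρ u w ≠ w
    swap
    · push_neg at hnt
      refine htriv U' hle hW' hnt fun g u hu => ?_
      obtain ⟨i, v, hv, rfl⟩ := hgen u hu
      have h1 : (g⁻¹ * u0 * g) ^ i * (u0 ^ i)⁻¹ ∈ U' := by
        rw [← QuotientGroup.eq_one_iff, QuotientGroup.mk_mul, QuotientGroup.mk_inv,
          QuotientGroup.mk_pow, QuotientGroup.mk_pow, mul_inv_eq_one]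
        congr 1
        rw [← mul_inv_eq_one, ← QuotientGroup.mk_inv, ← QuotientGroup.mk_mul,
          QuotientGroup.eq_one_iff]
        exact hcomm g
      rw [show (g⁻¹ * u0 * g) ^ i = g⁻¹ * u0 ^ i * g by simpa using conj_pow (a := g⁻¹) (b := u0)] at h1
      rw [show g⁻¹ * (v * u0 ^ i) * g * (v * u0 ^ i)⁻¹ =
        (g⁻¹ * v * g) * (g⁻¹ * u0 ^ i * g * (u0 ^ i)⁻¹) * v⁻¹ by group]
      exact U'.mul_mem (U'.mul_mem (Normal.conj_mem' hn' v hv g) h1) (U'.inv_mem hv)
    -- the scalar by which a linking operator fails to commute with `u0`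
    let Tw : R → k → Prop := fun h c => ∃ A, Equi ρ U' A ∧ (∀ v, A v ∈ W'.map (ρ h)) ∧
      (∃ w ∈ W', A w ≠ 0) ∧ ∀ w ∈ W', A (ρ u0 w) = c • ρ u0 (A w)
    have hmulT : ∀ g h c d, Tw g c → Tw h d → Tw (g * h) (c * d) := by
      rintro g h c d ⟨A, hA, hAr, hA0, hAc⟩ ⟨B, hB, hBr, ⟨wb, hwb, hwb0⟩, hBc⟩
      refine ⟨ρ g * B * ρ g⁻¹ * A, (hB.conj g).mul hA, fun v => ?_, ?_, fun w hw => ?_⟩
      · rw [map_mul_eq]; exact ⟨_, hBr _, rfl⟩
      · obtain ⟨w, hw, hw'⟩ : ρ g wb ∈ W'.map A := by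
          rw [Equi.map_eq hW'.2.1 (hW'.map g) hA hA0 (fun w _ => hAr w)]; exact ⟨wb, hwb, rfl⟩
        refine ⟨w, hw, ?_⟩
        simp only [Module.End.mul_apply, hw', rho_inv_apply]
        exact fun h => hwb0 (rho_injective ρ g (by rw [h, map_zero]))
      · obtain ⟨y, hy, hy'⟩ := hAr w
        simp only [Module.End.mul_apply]
        rw [hAc w hw, map_smul, map_smul, map_smul, ← hy', rho_inv_apply,
          ← rho_mul_apply ρ u0 g, show u0 * g = g * ((g⁻¹ * u0 * g * u0⁻¹) * u0) by group,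
          rho_mul_apply, rho_inv_apply, rho_mul_apply, hB _ (hcomm g), hBc y hy, map_smul, map_smul,
          smul_smul, ← rho_mul_apply, ← rho_mul_apply, ← rho_mul_apply ρ u0 g]
        congr 2
        group
    have hone : ∀ h, Tw h 1 → h ∈ P := by
      rintro h ⟨A, hA, hAr, hA0, hAc⟩
      refine hJ (mem_stab.mpr (rel_of_commute_on hR hW (A := A) (fun u hu w hw => ?_)
        (fun w _ => hAr w) hA0))
      obtain ⟨i, v, hv, rfl⟩ := hgen u hu
      have hpow : ∀ j : ℕ, A (ρ (u0 ^ j) w) = ρ (u0 ^ j) (A w) := by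
        intro j
        induction j with
        | zero => simp
        | succ j ihj =>
          rw [pow_succ', rho_mul_apply, rho_mul_apply,
            hAc _ (hW.2.1 _ (U.pow_mem hu0 j) _ hw), one_smul, ihj]
      rw [rho_mul_apply, rho_mul_apply, hA v hv, hpow i]
    have hexT : ∀ h ∈ stab ρ U' hR hW', ∃ c, c ^ r = 1 ∧ Tw h c := by
      intro h hh
      obtain ⟨A, hA, hAr, hA0⟩ := mem_stab.mp hh
      obtain ⟨B, hB, hBr, hB0⟩ := Rel.symm hR hW' (hW'.map h) ⟨A, hA, hAr, hA0⟩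
      have hAinj := Equi.injOn hW' hA hA0
      have hBinj := Equi.injOn (hW'.map h) hB hB0
      obtain ⟨e, he⟩ := schur hW' (A := B * A) (fun u hu w _ => hB.mul hA u hu w) (fun w _ => hBr _)
      have hst0 : ∀ y ∈ W'.map (ρ h), ρ u0⁻¹ y ∈ W'.map (ρ h) := fun y hy =>
        (hW.map h).2.1 _ (U.inv_mem hu0) y hy
      obtain ⟨c0, hc0⟩ := schur hW' (A := B * ρ u0⁻¹ * A * ρ u0) (fun v hv w _ => by
        simp only [Module.End.mul_apply]
        have h1 : u0 * v * u0⁻¹ ∈ U' := Normal.conj_mem hn' v hv u0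
        rw [← rho_mul_apply ρ u0 v, show u0 * v = (u0 * v * u0⁻¹) * u0 by group, rho_mul_apply,
          hA _ h1, ← rho_mul_apply, show u0⁻¹ * (u0 * v * u0⁻¹) = v * u0⁻¹ by group, rho_mul_apply,
          hB v hv]) (fun w _ => hBr _)
      obtain ⟨w1, hw1, hw10⟩ := Submodule.exists_mem_ne_zero_of_ne_bot hW'.1
      have he0 : e ≠ 0 := by
        rintro rfl
        refine hw10 (hAinj w1 hw1 (hBinj _ (hAr w1) ?_))
        simpa using he w1 hw1
      have hc : ∀ w ∈ W', A (ρ u0 w) = (c0 / e) • ρ u0 (A w) := by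
        intro w hw
        have h1 := hBinj (ρ u0⁻¹ (A (ρ u0 w)) - (c0 / e) • A w)
          (Submodule.sub_mem _ (hst0 _ (hAr _)) (Submodule.smul_mem _ _ (hAr _))) (by
            have h2 := hc0 w hw
            have h3 := he w hw
            simp only [Module.End.mul_apply] at h2 h3
            rw [map_sub, map_smul, h2, h3, smul_smul, div_mul_cancel₀ _ he0, sub_self])
        have h4 := congrArg (ρ u0) (sub_eq_zero.mp h1)
        rwa [rho_apply_inv, map_smul] at h4
      refine ⟨c0 / e, ?_, A, hA, hAr, hA0, hc⟩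
      have hpow : ∀ j : ℕ, A (ρ (u0 ^ j) w1) = (c0 / e) ^ j • ρ (u0 ^ j) (A w1) := by
        intro j
        induction j with
        | zero => simp
        | succ j ihj =>
          rw [pow_succ' u0 j, rho_mul_apply, rho_mul_apply,
            hc _ (hW.2.1 _ (U.pow_mem hu0 j) _ hw1), ihj, map_smul, smul_smul, ← pow_succ']
      have h5 := hpow r
      rw [hA _ hu0r] at h5
      have h6 : (1 - (c0 / e) ^ r) • ρ (u0 ^ r) (A w1) = 0 := by
        rw [sub_smul, one_smul, ← h5, sub_self]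
      rcases smul_eq_zero.mp h6 with h7 | h7
      · exact (sub_eq_zero.mp h7).symm
      · exact absurd (hAinj w1 hw1 (rho_injective ρ _ (by rw [h7, map_zero]))) hw10
    obtain ⟨c, hcr, hcT⟩ := hexT x hx
    have hpowT : ∀ i : ℕ, Tw (x ^ i) (c ^ i) := by
      intro i
      induction i with
      | zero =>
        obtain ⟨π, hπ, hπr, hπw⟩ := exists_equi_proj hR hW'.2.1
        obtain ⟨w, hw, hw0⟩ := Submodule.exists_mem_ne_zero_of_ne_bot hW'.1
        refine ⟨π, hπ, fun v => by rw [pow_zero, map_one_eq]; exact hπr v, ⟨w, hw, by rwa [hπw w hw]⟩,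
          fun w hw => ?_⟩
        rw [pow_zero, one_smul, hπw w hw, hπw _ (hW.2.1 _ hu0 _ hw)]
      | succ i ihi =>
        rw [pow_succ, pow_succ]
        exact hmulT _ _ _ _ ihi hcT
    have hc1 : c ≠ 1 := fun h => hxP (hone x (h ▸ hcT))
    have hprim : IsPrimitiveRoot c r := by
      rw [← (Fact.out : r.Prime).eq_one_or_self_of_dvd _ (orderOf_dvd_of_pow_eq_one hcr) |>.resolve_left
        (fun h => hc1 (orderOf_eq_one_iff.mp h))]
      exact IsPrimitiveRoot.orderOf c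
    have hxr : x ^ r ∈ P := hone _ (hcr ▸ hpowT r)
    refine stab_not_cyclic hR hclass (hle.trans hUP) hW' hnt hxP hx (m := r) (fun i => ?_) fun h hh => ?_
    · refine ⟨fun hi => by_contra fun hri => hxP (mem_of_pow_mem Fact.out hxr hi hri), ?_⟩
      rintro ⟨j, rfl⟩
      rw [pow_mul]; exact P.pow_mem hxr j
    · obtain ⟨d, hdr, hdT⟩ := hexT h hh
      obtain ⟨i, -, hi⟩ := hprim.eq_pow_of_pow_eq_one (ξ := d⁻¹) (by rw [inv_pow, hdr, inv_one])
      refine ⟨i, hone _ ?_⟩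
      have h1 := hmulT _ _ _ _ hdT (hpowT i)
      have hd0 : d ≠ 0 := fun h => by rw [h, zero_pow (Fact.out : r.Prime).ne_zero] at hdr; exact zero_ne_one hdr
      rwa [hi, mul_inv_cancel₀ hd0] at h1

end Cfsg.Agent.H86.Linked
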