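import Cfsg.Agent.H86.LinkedModules

/-!
Counting twisted classes against linked irreducible submodules: in a Camina pair no nontrivial
irreducible submodule of a normal subgroup has a stabiliser that is cyclic modulo the pair subgroup.
-/

set_option autoImplicit false

namespace Cfsg.Agent.H86.Linked

open Subgroup LinearMap

variable {k : Type*} [Field k] [IsAlgClosed k] {V : Type*} [AddCommGroup V] [Module k V]
  [FiniteDimensional k V] {R : Type*} [Group R] [Finite R] {ρ : R →* Module.End k V}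
  {U : Subgroup R}

/-- Fourier sum of the function `u ↦ trace (X ρ u)`. -/
noncomputable def fsum (ρ : R →* Module.End k V) (U : Subgroup R) (X : Module.End k V) :
    Module.End k V :=
  letI := Fintype.ofFinite U
  ∑ u : U, trace k V (X * ρ (u : R)) • ρ (u : R)⁻¹

omit [IsAlgClosed k] [FiniteDimensional k V] in
theorem fsum_apply [Fintype U] (X : Module.End k V) (v : V) :
    fsum ρ U X v = ∑ u : U, trace k V (X * ρ (u : R)) • ρ (u : R)⁻¹ v := by
  rw [fsum, LinearMap.sum_apply]
  exact Finset.sum_congr (by congr; exact Subsingleton.elim _ _) fun u _ => rfl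

omit [IsAlgClosed k] in
/-- The Fourier sum as a combination of averaged rank-one operators. -/
theorem fsum_eq_avg {W : Submodule k V} (X : Module.End k V) (hX : ∀ v, X v ∈ W) :
    ∃ φ : Fin (Module.finrank k W) → V →ₗ[k] k,
      (∀ v, X v = ∑ i, φ i v • ((Module.finBasis k W i : W) : V)) ∧
      ∀ v, fsum ρ U X v =
        ∑ i, avg ρ U ((φ i).smulRight v) ((Module.finBasis k W i : W) : V) := by
  letI := Fintype.ofFinite U
  set b := Module.finBasis k W
  set φ : Fin (Module.finrank k W) → V →ₗ[k] k := fun i => (b.coord i) ∘ₗ X.codRestrict W hX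
  have hdec : ∀ v, X v = ∑ i, φ i v • ((b i : W) : V) := by
    intro v
    have h := congrArg Subtype.val (b.sum_repr (X.codRestrict W hX v))
    simp only [Submodule.coe_sum, Submodule.coe_smul] at h
    exact h.symm
  refine ⟨φ, hdec, fun v => ?_⟩
  have htr : ∀ u : R, trace k V (X * ρ u) = ∑ i, φ i (ρ u ((b i : W) : V)) := by
    intro u
    have : X * ρ u = ∑ i, (φ i ∘ₗ ρ u).smulRight ((b i : W) : V) := by
      ext y
      simp [hdec (ρ u y), LinearMap.sum_apply]
    rw [this, map_sum]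
    exact Finset.sum_congr rfl fun i _ => by rw [trace_smulRight]; rfl
  rw [fsum_apply]
  simp only [avg_apply, htr, Finset.sum_smul, LinearMap.smulRight_apply, map_smul]
  exact Finset.sum_comm

omit [IsAlgClosed k] in
theorem fsum_eq_zero {W W' : Submodule k V} (hW' : Stable ρ U W') (hrel : ¬ Rel ρ U W W')
    {X : Module.End k V} (hX : ∀ v, X v ∈ W) {v : V} (hv : v ∈ W') : fsum ρ U X v = 0 := by
  letI := Fintype.ofFinite U
  obtain ⟨φ, -, h⟩ := fsum_eq_avg (ρ := ρ) (U := U) X hX
  rw [h v]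
  refine Finset.sum_eq_zero fun i _ => ?_
  by_contra h0
  refine hrel ⟨_, equi_avg ((φ i).smulRight v), fun y => ?_, _, Submodule.coe_mem _, h0⟩
  rw [avg_apply]
  exact Submodule.sum_mem _ fun u _ => hW' _ (U.inv_mem u.2) _ (by
    rw [LinearMap.smulRight_apply]; exact W'.smul_mem _ hv)

theorem fsum_ne_zero (hR : (Nat.card R : k) ≠ 0) {W : Submodule k V} (hW : Irred ρ U W)
    {X : Module.End k V} (hX : ∀ v, X v ∈ W) :
    ∃ c : k, c ≠ 0 ∧ ∀ v ∈ W, fsum ρ U X v = c • X v := by
  letI := Fintype.ofFinite U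
  obtain ⟨π, hπ, hπr, hπw⟩ := exists_equi_proj hR hW.2.1
  -- averaged rank-one operators are scalar on `W`
  have key : ∀ (φ : V →ₗ[k] k), ∀ v ∈ W, ∃ c : k, c * trace k V π = Nat.card U * φ v ∧
      ∀ w ∈ W, avg ρ U (φ.smulRight v) w = c • w := by
    intro φ v hv
    set L := avg ρ U (φ.smulRight v)
    have hL : ∀ y, L y ∈ W := fun y => by
      rw [show L y = _ from avg_apply _ y]
      exact Submodule.sum_mem _ fun u _ => hW.2.1 _ (U.inv_mem u.2) _ (by
        rw [LinearMap.smulRight_apply]; exact W.smul_mem _ hv)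
    obtain ⟨c, hc⟩ := schur hW (A := L) (fun u hu w _ => equi_avg _ u hu w) (fun w _ => hL w)
    refine ⟨c, ?_, hc⟩
    have h1 : L * π = c • π := by ext y; simp [hc _ (hπr y)]
    have h2 : ∀ u : U, trace k V (ρ (u : R)⁻¹ * φ.smulRight v * ρ (u : R) * π) = φ v := by
      intro u
      have h3 : ρ (u : R) * π = π * ρ (u : R) := by
        ext y; simp [hπ _ u.2 y]
      have h4 : π * ρ (u : R) * ρ (u : R)⁻¹ = π := by
        rw [mul_assoc, ← map_mul, mul_inv_cancel, map_one, mul_one]
      rw [mul_assoc, h3, mul_assoc, trace_mul_comm, mul_assoc, h4]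
      have h5 : φ.smulRight v * π = (φ ∘ₗ π).smulRight v := by ext y; simp
      rw [h5, trace_smulRight, LinearMap.comp_apply, hπw v hv]
    have h3 := congrArg (trace k V) h1
    rw [map_smul, smul_eq_mul] at h3
    rw [← h3, show L = avg ρ U (φ.smulRight v) from rfl, avg]
    simp only [Finset.sum_mul, map_sum]
    rw [Finset.sum_congr (by congr) (fun (u : U) _ => h2 u),
      Finset.sum_const, Finset.card_univ, nsmul_eq_mul, Nat.card_eq_fintype_card]
  have hτ : trace k V π ≠ 0 := by
    intro h0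
    obtain ⟨w, hw, hw0⟩ := Submodule.exists_mem_ne_zero_of_ne_bot hW.1
    obtain ⟨φ, hφ⟩ := not_forall.mp (mt (Module.forall_dual_apply_eq_zero_iff k w).mp hw0)
    obtain ⟨c, hc, -⟩ := key φ w hw
    rw [h0, mul_zero] at hc
    exact mul_ne_zero (natCard_ne_zero hR U) hφ hc.symm
  refine ⟨Nat.card U * (trace k V π)⁻¹, mul_ne_zero (natCard_ne_zero hR U) (inv_ne_zero hτ),
    fun v hv => ?_⟩
  obtain ⟨φ, hdec, h⟩ := fsum_eq_avg (ρ := ρ) (U := U) X hX
  rw [h v, hdec v, Finset.smul_sum]
  refine Finset.sum_congr rfl fun i _ => ?_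
  obtain ⟨c, hc, hc'⟩ := key (φ i) v hv
  rw [hc' _ (Submodule.coe_mem _), smul_smul]
  congr 1
  rw [show c = Nat.card U * φ i v * (trace k V π)⁻¹ by rw [← hc, mul_inv_cancel_right₀ hτ]]
  ring

omit [IsAlgClosed k] [FiniteDimensional k V] in
/-- Nontrivial irreducible subspaces have no fixed vectors. -/
theorem sum_inv_eq_zero [Fintype U] {W : Submodule k V} (hW : Irred ρ U W)
    (hnt : ∃ u ∈ U, ∃ w ∈ W, ρ u w ≠ w) {v : V} (hv : v ∈ W) :
    ∑ u : U, ρ (u : R)⁻¹ v = 0 := by
  set z := ∑ u : U, ρ (u : R)⁻¹ v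
  have hzW : z ∈ W := Submodule.sum_mem _ fun u _ => hW.2.1 _ (U.inv_mem u.2) _ hv
  have hfix : ∀ q ∈ U, ρ q z = z := by
    intro q hq
    rw [map_sum]
    refine Fintype.sum_equiv (Equiv.mulRight (⟨q, hq⟩ : U)⁻¹) _ _ fun u => ?_
    simp only [Equiv.coe_mulRight, Subgroup.coe_mul, Subgroup.coe_inv, mul_inv_rev, inv_inv]
    rw [rho_mul_apply]
  let X : Submodule k V :=
    { carrier := {y | y ∈ W ∧ ∀ q ∈ U, ρ q y = y}
      add_mem' := fun {a b} ha hb =>
        ⟨W.add_mem ha.1 hb.1, fun q hq => by rw [map_add, ha.2 q hq, hb.2 q hq]⟩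
      zero_mem' := ⟨W.zero_mem, fun q _ => map_zero _⟩
      smul_mem' := fun c y hy => ⟨W.smul_mem c hy.1, fun q hq => by rw [map_smul, hy.2 q hq]⟩ }
  rcases hW.2.2 X (fun y hy => hy.1) (fun q hq y hy => by rw [hy.2 q hq]; exact hy) with h | h
  · have : z ∈ X := ⟨hzW, hfix⟩
    rwa [h, Submodule.mem_bot] at this
  · obtain ⟨u, hu, w, hw, hne⟩ := hnt
    rw [← h] at hw
    exact absurd (hw.2 u hu) hne

/-- The counting contradiction. -/
theorem stab_not_cyclic (hR : (Nat.card R : k) ≠ 0) {P : Subgroup R}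
    (hclass : ∀ x, x ∉ P → ∀ u ∈ P, ∃ y, y * x * y⁻¹ = x * u)
    [U.Normal] (hUP : U ≤ P) {W : Submodule k V} (hW : Irred ρ U W)
    (hnt : ∃ u ∈ U, ∃ w ∈ W, ρ u w ≠ w) {x : R} (hxP : x ∉ P) (hxJ : x ∈ stab ρ U hR hW)
    {m : ℕ} (hm : ∀ i, x ^ i ∈ P ↔ m ∣ i)
    (hJ : ∀ h ∈ stab ρ U hR hW, ∃ i, h * x ^ i ∈ P) : False := by
  classical
  set J := stab ρ U hR hW
  letI := Fintype.ofFinite U
  have hm0 : 0 < m := by
    rcases Nat.eq_zero_or_pos m with h | h
    · exfalso
      subst h
      have := (hm (orderOf x)).mp (by rw [pow_orderOf_eq_one]; exact P.one_mem)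
      exact absurd (zero_dvd_iff.mp this) (orderOf_pos x).ne'
    · exact h
  set C := centralizer ({x} : Set R)
  -- step 1
  have h1 : m * Nat.card ↥(U ⊓ C) ≤ Nat.card C := by
    let f : Fin m × ↥(U ⊓ C) → C := fun q =>
      ⟨x ^ q.1.1 * q.2.1, C.mul_mem (C.pow_mem (mem_centralizer_singleton_iff.mpr rfl) _) q.2.2.2⟩
    have hf : Function.Injective f := by
      rintro ⟨i, c⟩ ⟨j, d⟩ h
      have h' : x ^ i.1 * c.1 = x ^ j.1 * d.1 := congrArg Subtype.val h
      have key : ∀ (a b : ℕ) (c d : R), c ∈ P → d ∈ P → a ≤ b → b < m →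
          x ^ a * c = x ^ b * d → a = b := by
        intro a b c d hc hd hab hb he
        obtain ⟨e, rfl⟩ := Nat.exists_eq_add_of_le hab
        rw [pow_add, mul_assoc, mul_left_cancel_iff] at he
        have : x ^ e ∈ P := by
          rw [show x ^ e = c * d⁻¹ by rw [he, mul_inv_cancel_right]]
          exact P.mul_mem hc (P.inv_mem hd)
        have h0 := Nat.eq_zero_of_dvd_of_lt ((hm e).mp this) (by omega)
        omega
      have hij : i.1 = j.1 := by
        rcases le_total i.1 j.1 with hle | hle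
        · exact key _ _ _ _ (hUP c.2.1) (hUP d.2.1) hle j.2 h'
        · exact (key _ _ _ _ (hUP d.2.1) (hUP c.2.1) hle i.2 h'.symm).symm
      rw [hij, mul_left_cancel_iff] at h'
      rw [Fin.ext hij, Subtype.ext h']
    have := Nat.card_le_card_of_injective f hf
    rwa [Nat.card_prod, Nat.card_eq_fintype_card (α := Fin m), Fintype.card_fin] at this
  -- step 2
  have h2 : Nat.card J ≤ m * Nat.card ↥(J ⊓ P) := by
    choose i hi using hJ
    let f : J → Fin m × ↥(J ⊓ P) := fun h =>
      (⟨i h.1 h.2 % m, Nat.mod_lt _ hm0⟩, ⟨h.1 * x ^ (i h.1 h.2 % m),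
        J.mul_mem h.2 (J.pow_mem hxJ _), by
          have h3 := hi h.1 h.2
          rw [← Nat.div_add_mod (i h.1 h.2) m, add_comm, pow_add, ← mul_assoc] at h3
          exact (P.mul_mem_cancel_right ((hm _).mpr (Dvd.intro _ rfl))).mp h3⟩)
    have hf : Function.Injective f := by
      intro a b h
      obtain ⟨e1, e2⟩ := Prod.ext_iff.mp h
      have e3 : a.1 * x ^ (i a.1 a.2 % m) = b.1 * x ^ (i b.1 b.2 % m) := congrArg Subtype.val e2
      rw [show i a.1 a.2 % m = i b.1 b.2 % m from congrArg Fin.val e1, mul_left_inj] at e3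
      exact Subtype.ext e3
    have := Nat.card_le_card_of_injective f hf
    rwa [Nat.card_prod, Nat.card_eq_fintype_card (α := Fin m), Fintype.card_fin] at this
  -- step 3
  set S : Set R := {g | g⁻¹ * x * g ∈ J}
  have h3 : Nat.card ↥(J ⊓ P) * Nat.card C ≤ Nat.card S := by
    choose y hy using fun p : ↥(J ⊓ P) => hclass x hxP p.1 p.2.2
    have hconj : ∀ (p : ↥(J ⊓ P)) (c : C),
        (c.1 * (y p)⁻¹)⁻¹ * x * (c.1 * (y p)⁻¹) = x * p.1 := by
      intro p c
      have hc : c.1 * x = x * c.1 := mem_centralizer_singleton_iff.mp c.2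
      rw [← hy p, mul_inv_rev, inv_inv]
      calc y p * c.1⁻¹ * x * (c.1 * (y p)⁻¹) = y p * c.1⁻¹ * (x * c.1) * (y p)⁻¹ := by group
        _ = y p * x * (y p)⁻¹ := by rw [← hc]; group
    let f : ↥(J ⊓ P) × C → S := fun q => ⟨q.2.1 * (y q.1)⁻¹, by
      show _ ∈ J
      rw [hconj]
      exact J.mul_mem hxJ q.1.2.1⟩
    have hf : Function.Injective f := by
      rintro ⟨p, c⟩ ⟨p', c'⟩ h
      have h' : c.1 * (y p)⁻¹ = c'.1 * (y p')⁻¹ := congrArg Subtype.val h
      have hp : p = p' := Subtype.ext (mul_left_cancel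
        (a := x) (by rw [← hconj p c, h', hconj p' c']))
      subst hp
      rw [mul_left_inj] at h'
      rw [Subtype.ext h']
    have := Nat.card_le_card_of_injective f hf
    rwa [Nat.card_prod] at this
  -- step 4
  set O : Set (R ⧸ J) := (QuotientGroup.mk : R → R ⧸ J) '' S
  have h4 : Nat.card S ≤ Nat.card O * Nat.card J := by
    let f : S → O × J := fun s =>
      (⟨(s.1 : R ⧸ J), s.1, s.2, rfl⟩, ⟨(s.1 : R ⧸ J).out⁻¹ * s.1,
        QuotientGroup.eq.mp (Quotient.out_eq _)⟩)
    have hf : Function.Injective f := by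
      intro a b h
      obtain ⟨e1, e2⟩ := Prod.ext_iff.mp h
      have e3 : (a.1 : R ⧸ J).out⁻¹ * a.1 = (b.1 : R ⧸ J).out⁻¹ * b.1 := congrArg Subtype.val e2
      rw [show (a.1 : R ⧸ J) = (b.1 : R ⧸ J) from congrArg Subtype.val e1, mul_right_inj] at e3
      exact Subtype.ext e3
    have := Nat.card_le_card_of_injective f hf
    rwa [Nat.card_prod] at this
  -- classes of the coset `x U` under conjugation by `U`
  let α : Type _ := {y : R // x⁻¹ * y ∈ U}
  letI : MulAction U α :=
    { smul := fun q y => ⟨q.1 * y.1 * q.1⁻¹, by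
        rw [show x⁻¹ * (q.1 * y.1 * q.1⁻¹) = x⁻¹ * q.1 * x * (x⁻¹ * y.1) * q.1⁻¹ by group]
        exact U.mul_mem (U.mul_mem (Normal.conj_mem' (show U.Normal from inferInstance) _ q.2 x)
          y.2) (U.inv_mem q.2)⟩
      one_smul := fun y => Subtype.ext (by show 1 * y.1 * 1⁻¹ = y.1; group)
      mul_smul := fun a b y => Subtype.ext (by
        show (a.1 * b.1) * y.1 * (a.1 * b.1)⁻¹ = a.1 * (b.1 * y.1 * b.1⁻¹) * a.1⁻¹
        group) }
  have hsmul : ∀ (q : U) (y : α), (q • y).1 = q.1 * y.1 * q.1⁻¹ := fun _ _ => rfl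
  set Ω := MulAction.orbitRel.Quotient U α
  have hΩ : Nat.card Ω = Nat.card ↥(U ⊓ C) := by
    letI := Fintype.ofFinite Ω
    have hstab : ∀ u : α, Nat.card (MulAction.stabilizer U u) = Nat.card ↥(U ⊓ C) := by
      intro u
      obtain ⟨y, hy⟩ := hclass x hxP _ (hUP u.2)
      rw [mul_inv_cancel_left] at hy
      have hq : ∀ q : U, q ∈ MulAction.stabilizer U u ↔ y⁻¹ * q.1 * y ∈ C := by
        intro q
        rw [MulAction.mem_stabilizer_iff, Subtype.ext_iff, hsmul, mem_centralizer_singleton_iff,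
          mul_inv_eq_iff_eq_mul, ← hy]
        constructor
        · intro h
          calc y⁻¹ * q.1 * y * x = y⁻¹ * (q.1 * (y * x * y⁻¹)) * y := by group
            _ = y⁻¹ * (y * x * y⁻¹ * q.1) * y := by rw [h]
            _ = x * (y⁻¹ * q.1 * y) := by group
        · intro h
          calc q.1 * (y * x * y⁻¹) = y * (y⁻¹ * q.1 * y * x) * y⁻¹ := by group
            _ = y * (x * (y⁻¹ * q.1 * y)) * y⁻¹ := by rw [h]
            _ = y * x * y⁻¹ * q.1 := by group
      refine Nat.card_congr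
        { toFun := fun q => ⟨y⁻¹ * q.1.1 * y,
            Normal.conj_mem' (show U.Normal from inferInstance) _ q.1.2 y, (hq q.1).mp q.2⟩
          invFun := fun c => ⟨⟨y * c.1 * y⁻¹,
            Normal.conj_mem (show U.Normal from inferInstance) _ c.2.1 y⟩, (hq _).mpr (by
              show y⁻¹ * (y * c.1 * y⁻¹) * y ∈ C
              rw [show y⁻¹ * (y * c.1 * y⁻¹) * y = c.1 by group]
              exact c.2.2)⟩
          left_inv := fun q => Subtype.ext (Subtype.ext (by
            show y * (y⁻¹ * q.1.1 * y) * y⁻¹ = q.1.1; group))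
          right_inv := fun c => Subtype.ext (by
            show y⁻¹ * (y * c.1 * y⁻¹) * y = c.1; group) }
    have hsum : Nat.card U = ∑ ω : Ω, Nat.card (MulAction.orbitRel.Quotient.orbit ω) := by
      rw [← Nat.card_sigma]
      exact (Nat.card_congr (Equiv.subtypeEquiv (Equiv.mulLeft x) (fun u : R => by simp))).trans
        (Nat.card_congr (MulAction.selfEquivSigmaOrbits' U α))
    have hpt : ∀ ω : Ω, Nat.card (MulAction.orbitRel.Quotient.orbit ω) * Nat.card ↥(U ⊓ C) =
        Nat.card U := by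
      intro ω
      induction ω using Quotient.inductionOn' with
      | h u =>
        rw [MulAction.orbitRel.Quotient.orbit_mk, ← hstab u,
          Nat.card_congr (MulAction.orbitEquivQuotientStabilizer U u),
          ← Subgroup.card_eq_card_quotient_mul_card_subgroup]
    have := congrArg (· * Nat.card ↥(U ⊓ C)) hsum
    simp only [Finset.sum_mul, hpt, Finset.sum_const, Finset.card_univ, smul_eq_mul] at this
    rw [← Nat.card_eq_fintype_card, mul_comm (Nat.card Ω)] at this
    exact (Nat.eq_of_mul_eq_mul_left Nat.card_pos this).symm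
  -- functions attached to the classes
  have hex : ∀ o : O, ∃ A, Equi ρ U A ∧ (∀ v, A v ∈ W.map (ρ (o.1.out : R))) ∧
      ∃ w ∈ W.map (ρ (o.1.out : R)), A (ρ x w) ≠ 0 := by
    intro o
    obtain ⟨s, hs, hso⟩ := o.2
    set g : R := o.1.out
    have hg : (g : R ⧸ J) = (s : R ⧸ J) := by rw [hso]; exact Quotient.out_eq _
    have hgS : g⁻¹ * x * g ∈ J := by
      have h5 := QuotientGroup.eq.mp hg.symm
      have : g⁻¹ * x * g = (s⁻¹ * g)⁻¹ * (s⁻¹ * x * s) * (s⁻¹ * g) := by group
      rw [this]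
      exact J.mul_mem (J.mul_mem (J.inv_mem h5) hs) h5
    have h6 := (mem_stab.mp hgS).map g
    rw [← map_mul_eq, show g * (g⁻¹ * x * g) = x * g by group, map_mul_eq] at h6
    obtain ⟨A, hA, hAr, w, hw, hw0⟩ := h6.symm hR (hW.map g) ((hW.map g).map x)
    obtain ⟨w', hw', rfl⟩ := hw
    exact ⟨A, hA, hAr, w', hw', hw0⟩
  choose A hA hAr w hw hw0 using hex
  set X : O → Module.End k V := fun o => A o * ρ x
  have hXinv : ∀ (o : O) (q : U) (y : α), trace k V (A o * ρ (q • y).1) =
      trace k V (A o * ρ y.1) := by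
    intro o q y
    have hcomm : A o * ρ q.1 = ρ q.1 * A o := LinearMap.ext fun v => hA o _ q.2 v
    rw [hsmul, map_mul ρ, map_mul ρ, ← mul_assoc, ← mul_assoc, hcomm, trace_mul_comm,
      ← mul_assoc, ← mul_assoc, ← map_mul, inv_mul_cancel, map_one, one_mul]
  let F : Option O → Ω → k := fun o => match o with
    | none => fun _ => 1
    | some o => Quotient.lift (fun y : α => trace k V (A o * ρ y.1)) (by
        rintro a b ⟨q, rfl⟩
        exact hXinv o q b)
  letI := Fintype.ofFinite O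
  letI := Fintype.ofFinite Ω
  have hind : LinearIndependent k F := by
    rw [Fintype.linearIndependent_iff]
    intro c hc
    have hcu : ∀ u : U, c none + ∑ o : O, c (some o) * trace k V (X o * ρ (u : R)) = 0 := by
      intro u
      have h8 := congrFun hc (Quotient.mk'' (⟨x * u.1, by simp⟩ : α))
      rw [Finset.sum_apply, Fintype.sum_option] at h8
      simp only [Pi.smul_apply, smul_eq_mul, Pi.zero_apply] at h8
      simpa [F, X, map_mul, mul_assoc] using h8
    have hsome : ∀ o : O, c (some o) = 0 := by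
      intro o
      have hWo := hW.map (o.1.out : R)
      obtain ⟨e, he, hev⟩ := fsum_ne_zero hR hWo (X := X o) (fun v => hAr o _)
      have hnt' : ∃ u ∈ U, ∃ v ∈ W.map (ρ (o.1.out : R)), ρ u v ≠ v := by
        obtain ⟨u, hu, v, hv, hne⟩ := hnt
        refine ⟨o.1.out * u * o.1.out⁻¹, Normal.conj_mem (show U.Normal from inferInstance) _ hu _,
          ρ o.1.out v, ⟨v, hv, rfl⟩, fun h => hne (rho_injective ρ o.1.out ?_)⟩
        rw [← rho_mul_apply, inv_mul_cancel_right, rho_mul_apply] at h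
        exact h
      have h9 : ∀ o' : O, o' ≠ o → fsum ρ U (X o') (w o) = 0 := by
        intro o' hne
        refine fsum_eq_zero hWo.2.1 ?_ (X := X o') (fun v => hAr o' _) (hw o)
        intro hrel
        have h10 := hrel.map (o'.1.out : R)⁻¹
        rw [← map_mul_eq, ← map_mul_eq, inv_mul_cancel, map_one_eq] at h10
        have h11 := QuotientGroup.eq.mpr (mem_stab.mpr h10 : (o'.1.out : R)⁻¹ * o.1.out ∈ J)
        rw [QuotientGroup.out_eq', QuotientGroup.out_eq'] at h11
        exact hne (Subtype.ext h11)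
      have h12 : ∑ u : U, (c none + ∑ o' : O, c (some o') * trace k V (X o' * ρ (u : R))) •
          ρ (u : R)⁻¹ (w o) = 0 := Finset.sum_eq_zero fun u _ => by rw [hcu u, zero_smul]
      simp only [add_smul, Finset.sum_add_distrib, ← Finset.smul_sum, Finset.sum_smul,
        mul_smul] at h12
      rw [sum_inv_eq_zero hWo hnt' (hw o), smul_zero, zero_add, Finset.sum_comm] at h12
      simp only [← Finset.smul_sum, ← fsum_apply] at h12
      rw [Finset.sum_eq_single o (fun o' _ hne => by rw [h9 o' hne, smul_zero]) (by simp),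
        hev _ (hw o), smul_smul] at h12
      rcases smul_eq_zero.mp h12 with h | h
      · exact (mul_eq_zero.mp h).resolve_right he
      · exact absurd h (hw0 o)
    rintro (_ | o)
    · have := hcu 1
      simpa [hsome] using this
    · exact hsome o
  have h5 := hind.fintype_card_le_finrank
  rw [Fintype.card_option, Module.finrank_fintype_fun_eq_card, ← Nat.card_eq_fintype_card,
    ← Nat.card_eq_fintype_card, hΩ] at h5
  have hJp : 0 < Nat.card ↥(J ⊓ P) := Nat.card_pos
  have h6 : Nat.card ↥(J ⊓ P) * Nat.card C ≤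
      Nat.card ↥(J ⊓ P) * (Nat.card O * m) := by
    calc _ ≤ Nat.card O * Nat.card J := h3.trans h4
      _ ≤ Nat.card O * (m * Nat.card ↥(J ⊓ P)) := Nat.mul_le_mul_left _ h2
      _ = _ := by ring
  have h7 := Nat.le_of_mul_le_mul_left h6 hJp
  nlinarith

end Cfsg.Agent.H86.Linked
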