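import Mathlib.GroupTheory.RegularWreathProduct
import Mathlib.GroupTheory.Solvable
import Mathlib.GroupTheory.GroupAction.Quotient
import Mathlib.Algebra.Group.Pi.Lemmas
import Mathlib.GroupTheory.Perm.ViaEmbedding
import Cfsg.Agent.H86.LinearDerived

/-!
Derived length of regular wreath products and of `p`-subgroups of symmetric groups.
-/

namespace Cfsg.Agent.H86

open scoped commutatorElement

universe u

theorem derivedSeries_le_of_hom {A B : Type*} [Group A] [Group B] (f : A →* B) (k : ℕ)
    (hB : derivedSeries B k = ⊥) {x : A} (hx : x ∈ derivedSeries A k) : f x = 1 :=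
  Subgroup.mem_bot.1 (hB ▸ map_derivedSeries_le_derivedSeries f k (Subgroup.mem_map_of_mem f hx))

theorem map_derivedSeries_commutator_le (W : Type*) [Group W] (k : ℕ) :
    (derivedSeries (commutator W) k).map (commutator W).subtype ≤ derivedSeries W (k + 1) := by
  induction k with
  | zero => rw [derivedSeries_one, derivedSeries_zero, ← MonoidHom.range_eq_map, Subgroup.range_subtype]
  | succ k ih =>
    rw [derivedSeries_succ W (k + 1), derivedSeries_succ _ k, Subgroup.map_commutator]
    exact Subgroup.commutator_mono ih ih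

variable {D Q : Type*} [Group D] [CommGroup Q]

theorem commutator_le_ker_rightHom :
    commutator (D ≀ᵣ Q) ≤ (RegularWreathProduct.rightHom : D ≀ᵣ Q →* Q).ker := by
  rw [commutator_def, Subgroup.commutator_le]
  intro a _ b _
  rw [MonoidHom.mem_ker, map_commutatorElement]
  exact commutatorElement_eq_one_iff_mul_comm.2 (mul_comm _ _)

/-- Evaluation of the base group at a point. -/
def baseEval (q : Q) : commutator (D ≀ᵣ Q) →* D where
  toFun a := (a : D ≀ᵣ Q).left q
  map_one' := rfl
  map_mul' a b := by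
    have ha : (a : D ≀ᵣ Q).right = 1 := commutator_le_ker_rightHom a.2
    show ((a : D ≀ᵣ Q) * (b : D ≀ᵣ Q)).left q = _
    simp [ha]

/-- The wreath product by a commutative group adds at most one step. -/
theorem derivedSeries_wreath_eq_bot {k : ℕ} (hD : derivedSeries D k = ⊥) :
    derivedSeries (D ≀ᵣ Q) (k + 1) = ⊥ := by
  rw [Subgroup.eq_bot_iff_forall]
  intro x hx
  obtain ⟨y, hy, rfl⟩ := derivedSeries_succ_le_map (commutator (D ≀ᵣ Q)) le_rfl k hx
  have h1 : (y : D ≀ᵣ Q).right = 1 := commutator_le_ker_rightHom y.2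
  ext q
  · exact derivedSeries_le_of_hom (baseEval q) k hD hy
  · exact h1

/-- The wreath product by a nontrivial commutative group adds a step. -/
theorem derivedSeries_wreath_ne_bot [Nontrivial Q] {k : ℕ} (hD : derivedSeries D k ≠ ⊥) :
    derivedSeries (D ≀ᵣ Q) (k + 1) ≠ ⊥ := by
  classical
  intro hW
  obtain ⟨q, hq⟩ := exists_ne (1 : Q)
  have hsurj : Function.Surjective (baseEval (D := D) (1 : Q)) := by
    intro x
    let a : D ≀ᵣ Q := ⟨Pi.mulSingle 1 x, 1⟩
    let b : D ≀ᵣ Q := RegularWreathProduct.inl q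
    have hmem : ⁅a, b⁆ ∈ commutator (D ≀ᵣ Q) :=
      Subgroup.commutator_mem_commutator (Subgroup.mem_top _) (Subgroup.mem_top _)
    refine ⟨⟨_, hmem⟩, ?_⟩
    show (⁅a, b⁆ : D ≀ᵣ Q).left 1 = x
    simp [commutatorElement_def, a, b, hq]
  apply hD
  rw [← map_derivedSeries_eq hsurj k, Subgroup.map_eq_bot_iff]
  intro y hy
  have : (y : D ≀ᵣ Q) = 1 := Subgroup.mem_bot.1
    (hW ▸ map_derivedSeries_commutator_le (D ≀ᵣ Q) k (Subgroup.mem_map_of_mem _ hy))
  rw [MonoidHom.mem_ker, show y = 1 from Subtype.ext this, map_one]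

section Iterated

variable (G : Type u) [CommGroup G]

theorem derivedSeries_iterated_eq_bot : ∀ n : ℕ, derivedSeries (IteratedWreathProduct G n) n = ⊥
  | 0 => by
    rw [Subgroup.eq_bot_iff_forall]
    intro x _
    exact @Subsingleton.elim PUnit _ x 1
  | n + 1 => derivedSeries_wreath_eq_bot (Q := G) (derivedSeries_iterated_eq_bot n)

theorem derivedSeries_iterated_ne_bot [Nontrivial G] :
    ∀ n : ℕ, derivedSeries (IteratedWreathProduct G (n + 1)) n ≠ ⊥
  | 0 => by
    intro h
    rw [derivedSeries_zero] at h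
    obtain ⟨q, hq⟩ := exists_ne (1 : G)
    have : (⟨1, q⟩ : IteratedWreathProduct G 0 ≀ᵣ G) = 1 :=
      Subgroup.mem_bot.1 (h ▸ Subgroup.mem_top _)
    exact hq (congrArg RegularWreathProduct.right this)
  | n + 1 => derivedSeries_wreath_ne_bot (Q := G) (derivedSeries_iterated_ne_bot n)

end Iterated

/-- A `p`-subgroup of a symmetric group has derived length at most `log_p n`. -/
theorem derivedSeries_perm_eq_bot {p : ℕ} [hp : Fact p.Prime] {n : ℕ} (P : Subgroup (Equiv.Perm (Fin n)))
    (hP : IsPGroup p P) : derivedSeries P (Nat.log p n) = ⊥ := by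
  rw [Subgroup.eq_bot_iff_forall]
  intro x hx
  refine Subtype.ext (Equiv.ext fun i => ?_)
  obtain ⟨j, hj⟩ := hP.card_orbit i
  have hjk : j ≤ Nat.log p n := by
    refine Nat.le_log_of_pow_le hp.out.one_lt (hj ▸ ?_)
    exact (Nat.card_le_card_of_injective _ Subtype.val_injective).trans_eq (Nat.card_fin n)
  let G := Multiplicative (ZMod p)
  have hG : Nat.card G = p := by simp [G]
  let φ : P →* Equiv.Perm (MulAction.orbit P i) := MulAction.toPermHom P (MulAction.orbit P i)
  have hR : IsPGroup p φ.range := by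
    rintro ⟨_, g, rfl⟩
    obtain ⟨k, hk⟩ := hP g
    exact ⟨k, Subtype.ext (by rw [SubmonoidClass.coe_pow, ← map_pow, hk, map_one]; rfl)⟩
  obtain ⟨S, hS⟩ := hR.exists_le_sylow
  let e := Sylow.mulEquivIteratedWreathProduct p j (MulAction.orbit P i) hj G hG S
  let f : P →* IteratedWreathProduct G j :=
    e.toMonoidHom.comp ((Subgroup.inclusion hS).comp φ.rangeRestrict)
  have h1 : f x = 1 := derivedSeries_le_of_hom f j (derivedSeries_iterated_eq_bot G j)
    (derivedSeries_antitone _ hjk hx)
  have h2 : φ x = 1 := by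
    have h3 : (Subgroup.inclusion hS) (φ.rangeRestrict x) = 1 := e.injective (h1.trans (map_one _).symm)
    exact congrArg Subtype.val h3
  exact congrArg Subtype.val (Equiv.ext_iff.1 h2 ⟨i, MulAction.mem_orbit_self i⟩)

/-- A Sylow subgroup of a symmetric group has derived length at least `log_p n`. -/
theorem derivedSeries_sylow_perm_ne_bot {p : ℕ} [hp : Fact p.Prime] {n k : ℕ} (hn : p ^ (k + 1) ≤ n)
    (P : Sylow p (Equiv.Perm (Fin n))) : derivedSeries (P : Subgroup (Equiv.Perm (Fin n))) k ≠ ⊥ := by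
  let G := Multiplicative (ZMod p)
  have hG : Nat.card G = p := by simp [G]
  haveI : Nontrivial G := Finite.one_lt_card_iff_nontrivial.1 (hG.symm ▸ hp.out.one_lt)
  obtain ⟨S⟩ : Nonempty (Sylow p (Equiv.Perm (Fin (p ^ (k + 1))))) := inferInstance
  let e := Sylow.mulEquivIteratedWreathProduct p (k + 1) (Fin (p ^ (k + 1))) (Nat.card_fin _) G hG S
  let ι := Equiv.Perm.viaEmbeddingHom (Fin.castLEEmb hn)
  obtain ⟨T, hT⟩ := (S.2.map ι).exists_le_sylow
  let f : IteratedWreathProduct G (k + 1) →* (P : Subgroup (Equiv.Perm (Fin n))) :=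
    (T.equiv P).toMonoidHom.comp ((Subgroup.inclusion hT).comp ((ι.subgroupMap (S : Subgroup _)).comp e.symm.toMonoidHom))
  have hf : Function.Injective f := by
    refine (T.equiv P).injective.comp ((Subgroup.inclusion_injective hT).comp (?_ : Function.Injective _))
    have h1 : Function.Injective (ι.subgroupMap (S : Subgroup _)) := fun a b hab =>
      Subtype.ext (Equiv.Perm.viaEmbeddingHom_injective _ (congrArg Subtype.val hab))
    exact h1.comp e.symm.injective
  intro h
  apply derivedSeries_iterated_ne_bot G k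
  rw [Subgroup.eq_bot_iff_forall]
  exact fun x hx => hf ((derivedSeries_le_of_hom f k h hx).trans (map_one f).symm)

end Cfsg.Agent.H86
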